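import Mathlib
import Cfsg.Prelude.Def_PLocal
import Cfsg.Prelude.Def_LocalEven
import Cfsg.Prelude.Def_Transfer

set_option autoImplicit false

/-!
S3068 (the `J`-version for `p ≥ 7`): interfaces.
-/

namespace H98.Tj

open Cfsg
open scoped commutatorElement

universe u

/-- `A` is an abelian subgroup of `S` of largest order -/
structure AA {G : Type*} [Group G] (S A : Subgroup G) : Prop where
  le : A ≤ S
  comm : A ≤ Subgroup.centralizer (A : Set G)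
  max : ∀ B : Subgroup G, B ≤ S → B ≤ Subgroup.centralizer (B : Set G) → Nat.card B ≤ Nat.card A

/-- `A` is a largest abelian subgroup of `S`, not in `Q`, and lexicographically maximises `(|A ∩ V|, |A ∩ F|)` -/
structure Lex {G : Type*} [Group G] (S Q V F A : Subgroup G) : Prop where
  aa : AA S A
  nq : ¬ A ≤ Q
  lexV : ∀ B : Subgroup G, AA S B → ¬ B ≤ Q → Nat.card ↥(B ⊓ V) ≤ Nat.card ↥(A ⊓ V)
  lexF : ∀ B : Subgroup G, AA S B → ¬ B ≤ Q → Nat.card ↥(B ⊓ V) = Nat.card ↥(A ⊓ V) →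
    Nat.card ↥(B ⊓ F) ≤ Nat.card ↥(A ⊓ F)

/-- conclusions of the counting argument for the abelian group `E` acted on by the abelian group `A` -/
structure Cnt {G : Type*} [Group G] (Q A E : Subgroup G) : Prop where
  c0 : ∀ b ∈ A, b ∉ Q → ∀ x ∈ E, ⁅x, b⁆ ∈ Subgroup.centralizer (A : Set G) →
    ∀ a ∈ A, ⁅x, a⁆ ∈ Subgroup.centralizer (A : Set G)
  r : ∀ x ∈ E, ∀ a ∈ A, ∀ a' ∈ A, ∃ b ∈ A ⊓ Q, ∃ e ∈ E ⊓ Subgroup.centralizer (A : Set G),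
    ⁅⁅x, a⁆, a'⁆ = ⁅x, b⁆ * e
  cx : ∀ x ∈ E, ∀ C : Subgroup G, (∀ c, c ∈ C ↔ c ∈ A ∧ ⁅x, c⁆ ∈ Subgroup.centralizer (A : Set G)) →
    ∀ M : Subgroup G, M = Subgroup.closure {y | ∃ a ∈ A, y = ⁅x, a⁆} ⊔ (E ⊓ Subgroup.centralizer (A : Set G)) →
    Nat.card C * Nat.card M = Nat.card A * Nat.card ↥(E ⊓ Subgroup.centralizer (A : Set G))
  t : ∃ D : Subgroup G, (∀ c, c ∈ D ↔ c ∈ A ∧ ∀ x ∈ E, ∀ a ∈ A, ⁅⁅x, a⁆, c⁆ = 1) ∧
    Nat.card D * Nat.card ↥(E ⊓ Subgroup.centralizer (D : Set G)) =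
      Nat.card A * Nat.card ↥(E ⊓ Subgroup.centralizer (A : Set G)) ∧
    ((∃ x ∈ E, ∃ a ∈ A, ⁅x, a⁆ ∉ Subgroup.centralizer (A : Set G)) → D ≤ Q)

/-- the configuration of the nonabelian case -/
structure Cfg {G : Type*} [Group G] (S Q X F V A : Subgroup G) : Prop where
  QS : Q ≤ S
  Qn : Q.Normal
  Xn : X.Normal
  XQ : X ≤ Q
  Fn : F.Normal
  FX : F ≤ X
  Vn : V.Normal
  V_eq : V = F ⊓ Subgroup.centralizer (X : Set G)
  ZF : F ⊓ Subgroup.centralizer (F : Set G) ≤ V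
  FQ : ⁅F, Q⁆ ≤ V
  lex : Lex S Q V F A

/-- the key statement -/
def BB (p : ℕ) [Fact p.Prime] (G : Type u) [Group G] [Finite G] : Prop :=
  ∀ S : Sylow p G, ¬ Cfsg.thompsonSubgroupAOf (S : Subgroup G) ≤ pCore p G →
    ∀ X Y : Subgroup G, IsChiefFactor X Y → X ≤ pCore p G →
      (∀ K : Subgroup G, K.Normal → K ≤ X → K ≠ X → K ≤ Y) →
      ∃ u ∈ (S : Subgroup G), u ∉ pCore p G ∧ iterCommutator X (Subgroup.zpowers u) 6 ≤ Y

end H98.Tj
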