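import Mathlib
import Cfsg.Agent.Lib.H54.L34b

/-!
Elementary abelian subgroups of order 16 of `PSL₃(4)`.
-/

set_option autoImplicit false
set_option linter.unusedSectionVars false

namespace H98.Cov4a

open Matrix H54.L34 Subgroup

/-- the facts about a radical subgroup -/
structure Fact4 {L : Type*} [Group L] (Q : Type*) [Group Q] (A : Subgroup L) : Prop where
  fc : ∀ x, (∀ a ∈ A, x * a = a * x) → x ∈ A
  ft : ∀ a ∈ A, ∀ b ∈ A, a ≠ 1 → b ≠ 1 → ∃ g ∈ normalizer (A : Set L), g * a * g⁻¹ = b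
  fC : ∃ C : Subgroup L, C ≤ normalizer (A : Set L) ∧ C ⊓ A = ⊥ ∧ A ⊔ C = normalizer (A : Set L) ∧ Nonempty (C ≃* Q)

theorem map_normalizer {L L' : Type*} [Group L] [Group L'] (e : L ≃* L') (A : Subgroup L) :
    (normalizer (A : Set L)).map e.toMonoidHom = normalizer ((A.map e.toMonoidHom : Subgroup L') : Set L') := by
  ext x
  rw [Subgroup.mem_map_equiv, Subgroup.mem_normalizer_iff, Subgroup.mem_normalizer_iff]
  constructor
  · intro h y
    have := h (e.symm y)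
    have e1 : (y ∈ A.map e.toMonoidHom) ↔ e.symm y ∈ A := Subgroup.mem_map_equiv
    have e2 : (x * y * x⁻¹ ∈ A.map e.toMonoidHom) ↔ e.symm (x * y * x⁻¹) ∈ A := Subgroup.mem_map_equiv
    rw [e1, e2, map_mul, map_mul, map_inv]
    exact this
  · intro h y
    have := h (e y)
    have e1 : (e y ∈ A.map e.toMonoidHom) ↔ e.symm (e y) ∈ A := Subgroup.mem_map_equiv
    have e2 : (x * e y * x⁻¹ ∈ A.map e.toMonoidHom) ↔ e.symm (x * e y * x⁻¹) ∈ A := Subgroup.mem_map_equiv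
    rw [e1, e2, map_mul, map_mul, map_inv, e.symm_apply_apply] at this
    exact this

theorem Fact4.map {L L' : Type*} [Group L] [Group L'] {Q : Type*} [Group Q] {A : Subgroup L} (h : Fact4 Q A) (e : L ≃* L') :
    Fact4 Q (A.map e.toMonoidHom) := by
  refine ⟨?_, ?_, ?_⟩
  · intro x hx
    have e1 : (x ∈ A.map e.toMonoidHom) ↔ e.symm x ∈ A := Subgroup.mem_map_equiv
    rw [e1]
    apply h.fc
    intro a ha
    have := hx (e a) ⟨a, ha, rfl⟩
    have h1 := congrArg e.symm this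
    simpa using h1
  · rintro _ ⟨a, ha, rfl⟩ _ ⟨b, hb, rfl⟩ ha1 hb1
    obtain ⟨g, hg, hgab⟩ := h.ft a ha b hb (by rintro rfl; exact ha1 (map_one _)) (by rintro rfl; exact hb1 (map_one _))
    refine ⟨e g, ?_, ?_⟩
    · rw [← map_normalizer]
      exact ⟨g, hg, rfl⟩
    · rw [← hgab]
      simp
  · obtain ⟨C, h1, h2, h3, ⟨f⟩⟩ := h.fC
    refine ⟨C.map e.toMonoidHom, ?_, ?_, ?_, ⟨(C.equivMapOfInjective e.toMonoidHom e.injective).symm.trans f⟩⟩
    · rw [← map_normalizer]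
      exact Subgroup.map_mono h1
    · rw [← Subgroup.map_inf _ _ _ e.injective, h2, Subgroup.map_bot]
    · rw [← Subgroup.map_sup, h3, map_normalizer]

section
variable {F : Type*} [Field F] [Fintype F]

local notation "SL3" => SpecialLinearGroup (Fin 3) F
local notation "PSL3" => ProjectiveSpecialLinearGroup (Fin 3) F

/-- the projection -/
def pr : SL3 →* PSL3 := QuotientGroup.mk' _

theorem pr_eq {s s' : SL3} : (pr s : PSL3) = pr s' ↔ ∃ c : F, (s' : Matrix (Fin 3) (Fin 3) F) = c • (s : Matrix (Fin 3) (Fin 3) F) :=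
  H50.PSLBasic.mk_eq_mk_iff

theorem pr_surj (x : PSL3) : ∃ s : SL3, pr s = x := QuotientGroup.mk_surjective x

/-- radical subgroup -/
def V1 (F : Type*) [Field F] : Subgroup (SpecialLinearGroup (Fin 3) F) where
  carrier := {g | ∃ b c : F, g = um 0 b c}
  one_mem' := ⟨0, 0, um_zero.symm⟩
  mul_mem' := by
    rintro _ _ ⟨b, c, rfl⟩ ⟨b', c', rfl⟩
    refine ⟨b + b', c + c', ?_⟩
    rw [um_mul]
    congr 1 <;> ring
  inv_mem' := by
    rintro _ ⟨b, c, rfl⟩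
    refine ⟨-b, -c, ?_⟩
    rw [inv_eq_iff_mul_eq_one, um_mul, ← um_zero]
    congr 1 <;> ring

/-- the other radical subgroup -/
def V2 (F : Type*) [Field F] : Subgroup (SpecialLinearGroup (Fin 3) F) where
  carrier := {g | ∃ a c : F, g = um a 0 c}
  one_mem' := ⟨0, 0, um_zero.symm⟩
  mul_mem' := by
    rintro _ _ ⟨b, c, rfl⟩ ⟨b', c', rfl⟩
    refine ⟨b + b', c + c', ?_⟩
    rw [um_mul]
    congr 1 <;> ring
  inv_mem' := by
    rintro _ ⟨b, c, rfl⟩
    refine ⟨-b, -c, ?_⟩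
    rw [inv_eq_iff_mul_eq_one, um_mul, ← um_zero]
    congr 1 <;> ring

/-- the Levi part -/
def lv : SpecialLinearGroup (Fin 2) F →* SL3 where
  toFun g := ⟨!![g.1 0 0, g.1 0 1, 0; g.1 1 0, g.1 1 1, 0; 0, 0, 1], by
    have h1 := g.2
    rw [Matrix.det_fin_two] at h1
    rw [Matrix.det_fin_three]
    simp
    linear_combination h1⟩
  map_one' := by
    apply Subtype.ext
    show !![_, _, (0 : F); _, _, 0; 0, 0, 1] = 1
    ext i j
    fin_cases i <;> fin_cases j <;> simp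
  map_mul' g h := by
    apply Subtype.ext
    show !![_, _, (0 : F); _, _, 0; 0, 0, 1] = !![_, _, (0 : F); _, _, 0; 0, 0, 1] * !![_, _, (0 : F); _, _, 0; 0, 0, 1]
    ext i j
    fin_cases i <;> fin_cases j <;> simp [Matrix.mul_apply, Fin.sum_univ_three, Fin.sum_univ_two]

theorem coe_lv (g : SpecialLinearGroup (Fin 2) F) :
    (lv g : Matrix (Fin 3) (Fin 3) F) = !![g.1 0 0, g.1 0 1, 0; g.1 1 0, g.1 1 1, 0; 0, 0, 1] := rfl

theorem lv_um (g : SpecialLinearGroup (Fin 2) F) (b c : F) :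
    lv g * um 0 b c = um 0 (g.1 1 0 * c + g.1 1 1 * b) (g.1 0 0 * c + g.1 0 1 * b) * lv g := by
  apply Subtype.ext
  show (lv g : Matrix (Fin 3) (Fin 3) F) * (um 0 b c : Matrix (Fin 3) (Fin 3) F) =
    (um 0 (g.1 1 0 * c + g.1 1 1 * b) (g.1 0 0 * c + g.1 0 1 * b) : Matrix (Fin 3) (Fin 3) F) * (lv g : Matrix (Fin 3) (Fin 3) F)
  rw [coe_lv, coe_um, coe_um]
  ext i j
  fin_cases i <;> fin_cases j <;> simp [Matrix.mul_apply, Fin.sum_univ_three]

/-- if `g u g⁻¹ = u'` modulo scalars -/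
theorem rel (h2 : (2 : F) = 0) {g : SL3} {b c b' c' : F} (h : (pr (g * um 0 b c * g⁻¹) : PSL3) = pr (um 0 b' c')) :
    g * um 0 b c = um 0 b' c' * g := by
  have hsq : ∀ b c : F, um 0 b c * um 0 b c = 1 := by
    intro b c
    rw [um_mul, ← um_zero]
    congr 1
    · ring
    · linear_combination b * h2
    · linear_combination c * h2
  rw [pr_eq] at h
  obtain ⟨k, hk⟩ := h
  have h1 : (um 0 b' c' * um 0 b' c' : SL3).1 = (k * k) • (1 : Matrix (Fin 3) (Fin 3) F) := by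
    show (um 0 b' c').1 * (um 0 b' c').1 = _
    rw [hk, Matrix.smul_mul, Matrix.mul_smul, smul_smul]
    congr 1
    show (g * um 0 b c * g⁻¹ * (g * um 0 b c * g⁻¹) : SL3).1 = _
    have : g * um 0 b c * g⁻¹ * (g * um 0 b c * g⁻¹) = 1 := by
      calc g * um 0 b c * g⁻¹ * (g * um 0 b c * g⁻¹) = g * (um 0 b c * um 0 b c) * g⁻¹ := by group
        _ = 1 := by rw [hsq]; simp
    rw [this]
    rfl
  rw [hsq] at h1
  have h3 : k * k = 1 := by
    have := congrFun (congrFun h1 0) 0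
    simp at this
    exact this.symm
  have h4 : k = 1 := by
    have : (k - 1) * (k - 1) = 0 := by linear_combination h3 + (1 - k) * h2
    rcases mul_eq_zero.mp this with h5 | h5 <;> exact sub_eq_zero.mp h5
  rw [h4, one_smul] at hk
  have h5 : um 0 b' c' = g * um 0 b c * g⁻¹ := Subtype.ext hk
  rw [h5]
  group

theorem entries {g : SL3} {b c b' c' : F} (h : g * um 0 b c = um 0 b' c' * g) :
    g.1 2 0 * c + g.1 2 1 * b = 0 ∧ g.1 0 0 * c + g.1 0 1 * b = c' * g.1 2 2 ∧ g.1 1 0 * c + g.1 1 1 * b = b' * g.1 2 2 ∧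
    c' * g.1 2 0 = 0 ∧ c' * g.1 2 1 = 0 ∧ b' * g.1 2 0 = 0 ∧ b' * g.1 2 1 = 0 := by
  have h1 : g.1 * !![1, 0, c; 0, 1, b; 0, 0, 1] = !![1, 0, c'; 0, 1, b'; 0, 0, 1] * g.1 := congrArg Subtype.val h
  have e22 := congrFun (congrFun h1 2) 2
  have e02 := congrFun (congrFun h1 0) 2
  have e12 := congrFun (congrFun h1 1) 2
  have e00 := congrFun (congrFun h1 0) 0
  have e01 := congrFun (congrFun h1 0) 1
  have e10 := congrFun (congrFun h1 1) 0
  have e11 := congrFun (congrFun h1 1) 1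
  simp [Matrix.mul_apply, Fin.sum_univ_three] at e22 e02 e12 e00 e01 e10 e11
  refine ⟨?_, ?_, ?_, ?_, ?_, ?_, ?_⟩
  · exact e22
  · linear_combination e02
  · linear_combination e12
  · rcases e00 with h | h <;> simp [h]
  · rcases e01 with h | h <;> simp [h]
  · rcases e10 with h | h <;> simp [h]
  · rcases e11 with h | h <;> simp [h]

theorem mem_A1 {x : PSL3} : x ∈ (V1 F).map pr ↔ ∃ b c : F, x = pr (um 0 b c) := by
  constructor
  · rintro ⟨_, ⟨b, c, rfl⟩, rfl⟩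
    exact ⟨b, c, rfl⟩
  · rintro ⟨b, c, rfl⟩
    exact ⟨_, ⟨b, c, rfl⟩, rfl⟩

theorem norm_form (h2 : (2 : F) = 0) {g : SL3} (hg : (pr g : PSL3) ∈ normalizer (((V1 F).map pr : Subgroup PSL3) : Set PSL3)) :
    g.1 2 0 = 0 ∧ g.1 2 1 = 0 := by
  have key : ∀ b c : F, ∃ b' c', g * um 0 b c = um 0 b' c' * g := by
    intro b c
    have h1 := (Subgroup.mem_normalizer_iff.mp hg (pr (um 0 b c))).mp (mem_A1.mpr ⟨b, c, rfl⟩)
    obtain ⟨b', c', h3⟩ := mem_A1.mp h1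
    rw [← map_mul, ← map_inv, ← map_mul] at h3
    exact ⟨b', c', rel h2 h3⟩
  constructor
  · obtain ⟨b', c', h3⟩ := key 0 1
    have := (entries h3).1
    simpa using this
  · obtain ⟨b', c', h3⟩ := key 1 0
    have := (entries h3).1
    simpa using this

theorem cube_eq_one (hF : Fintype.card F = 4) {a : F} (ha : a ≠ 0) : a ^ 3 = 1 := by
  have := FiniteField.pow_card_sub_one_eq_one a ha
  rw [hF] at this
  exact this

/-- normal form of elements of the normalizer -/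
theorem norm_decomp (hF : Fintype.card F = 4) (h2 : (2 : F) = 0) {x : PSL3}
    (hg : x ∈ normalizer (((V1 F).map pr : Subgroup PSL3) : Set PSL3)) :
    ∃ (b c : F) (h : SpecialLinearGroup (Fin 2) F), x = pr (um 0 b c * lv h) := by
  obtain ⟨g, rfl⟩ := pr_surj x
  obtain ⟨h20, h21⟩ := norm_form h2 hg
  have hdet := g.2
  rw [Matrix.det_fin_three] at hdet
  have hd : g.1 2 2 * (g.1 0 0 * g.1 1 1 - g.1 0 1 * g.1 1 0) = 1 := by
    linear_combination hdet + (-g.1 0 1 * g.1 1 2 + g.1 0 2 * g.1 1 1) * h20 + (g.1 0 0 * g.1 1 2 - g.1 0 2 * g.1 1 0) * h21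
  have hk : g.1 2 2 ≠ 0 := by
    intro h; rw [h, zero_mul] at hd; exact zero_ne_one hd
  set k := (g.1 2 2)⁻¹ with hkdef
  have hk0 : k ≠ 0 := inv_ne_zero hk
  have hk3 : k ^ 3 = 1 := cube_eq_one hF hk0
  have hkk : k * g.1 2 2 = 1 := inv_mul_cancel₀ hk
  have hdet2 : (k * g.1 0 0) * (k * g.1 1 1) - (k * g.1 0 1) * (k * g.1 1 0) = 1 := by
    have h1 : k ^ 3 * (g.1 2 2 * (g.1 0 0 * g.1 1 1 - g.1 0 1 * g.1 1 0)) = 1 := by rw [hd, hk3, one_mul]
    have h3 : k ^ 3 * (g.1 2 2 * (g.1 0 0 * g.1 1 1 - g.1 0 1 * g.1 1 0)) =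
      (k * g.1 2 2) * ((k * g.1 0 0) * (k * g.1 1 1) - (k * g.1 0 1) * (k * g.1 1 0)) := by ring
    rw [h3, hkk, one_mul] at h1
    exact h1
  let h : SpecialLinearGroup (Fin 2) F := ⟨!![k * g.1 0 0, k * g.1 0 1; k * g.1 1 0, k * g.1 1 1], by
    rw [Matrix.det_fin_two]; simpa using hdet2⟩
  refine ⟨k * g.1 1 2, k * g.1 0 2, h, ?_⟩
  rw [pr_eq]
  refine ⟨k, ?_⟩
  show (um 0 (k * g.1 1 2) (k * g.1 0 2) : Matrix (Fin 3) (Fin 3) F) * (lv h : Matrix (Fin 3) (Fin 3) F) = k • g.1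
  rw [coe_um, coe_lv]
  have e20 : k * g.1 2 0 = 0 := by rw [h20, mul_zero]
  have e21 : k * g.1 2 1 = 0 := by rw [h21, mul_zero]
  ext i j
  fin_cases i <;> fin_cases j <;> simp [Matrix.mul_apply, Fin.sum_univ_three, h, hkk, h20, h21]

theorem lv_norm (h : SpecialLinearGroup (Fin 2) F) : (pr (lv h) : PSL3) ∈ normalizer (((V1 F).map pr : Subgroup PSL3) : Set PSL3) := by
  have key : ∀ (h : SpecialLinearGroup (Fin 2) F) (y : PSL3), y ∈ (V1 F).map pr → pr (lv h) * y * (pr (lv h))⁻¹ ∈ (V1 F).map pr := by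
    intro h y hy
    obtain ⟨b, c, rfl⟩ := mem_A1.mp hy
    rw [← map_mul, lv_um, map_mul, mul_inv_cancel_right]
    exact mem_A1.mpr ⟨_, _, rfl⟩
  rw [Subgroup.mem_normalizer_iff]
  intro y
  refine ⟨key h y, fun hy => ?_⟩
  have h1 := key h⁻¹ _ hy
  rw [map_inv, map_inv, inv_inv] at h1
  have : (pr (lv h))⁻¹ * (pr (lv h) * y * (pr (lv h))⁻¹) * pr (lv h) = y := by group
  rwa [this] at h1

theorem pr_lv_inj {h : SpecialLinearGroup (Fin 2) F} {b c : F} (e : (pr (lv h) : PSL3) = pr (um 0 b c)) : h = 1 := by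
  rw [pr_eq] at e
  obtain ⟨k, hk⟩ := e
  rw [coe_um, coe_lv] at hk
  have e22 := congrFun (congrFun hk 2) 2
  have e00 := congrFun (congrFun hk 0) 0
  have e01 := congrFun (congrFun hk 0) 1
  have e10 := congrFun (congrFun hk 1) 0
  have e11 := congrFun (congrFun hk 1) 1
  simp at e22 e00 e01 e10 e11
  rw [← e22, one_mul] at e00 e11
  rcases e01 with h1 | h1
  · rw [h1] at e22; exact absurd e22 one_ne_zero
  rcases e10 with h3 | h3
  · rw [h3] at e22; exact absurd e22 one_ne_zero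
  apply Subtype.ext
  ext i j
  fin_cases i <;> fin_cases j
  · simpa using e00.symm
  · simpa using h1
  · simpa using h3
  · simpa using e11.symm

theorem sl2_trans {p q p' q' : F} (h : p ≠ 0 ∨ q ≠ 0) (h' : p' ≠ 0 ∨ q' ≠ 0) :
    ∃ g : SpecialLinearGroup (Fin 2) F, g.1 0 0 * p + g.1 0 1 * q = p' ∧ g.1 1 0 * p + g.1 1 1 * q = q' := by
  have key : ∀ p q : F, (p ≠ 0 ∨ q ≠ 0) → ∃ g : SpecialLinearGroup (Fin 2) F, g.1 0 0 = p ∧ g.1 1 0 = q := by
    intro p q hpq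
    by_cases hp : p = 0
    · have hq : q ≠ 0 := hpq.resolve_left (fun h => h hp)
      exact ⟨⟨!![p, -q⁻¹; q, 0], by rw [Matrix.det_fin_two]; simp [hq]⟩, rfl, rfl⟩
    · exact ⟨⟨!![p, 0; q, p⁻¹], by rw [Matrix.det_fin_two]; simp [hp]⟩, rfl, rfl⟩
  obtain ⟨g, hg0, hg1⟩ := key p q h
  obtain ⟨g', hg0', hg1'⟩ := key p' q' h'
  refine ⟨g' * g⁻¹, ?_, ?_⟩
  · have h1 : (g' * g⁻¹ * g).1 0 0 = g'.1 0 0 := by rw [inv_mul_cancel_right]
    have h2 : (g' * g⁻¹ * g).1 0 0 = (g' * g⁻¹).1 0 0 * g.1 0 0 + (g' * g⁻¹).1 0 1 * g.1 1 0 := by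
      show ((g' * g⁻¹).1 * g.1) 0 0 = _
      rw [Matrix.mul_apply, Fin.sum_univ_two]
    rw [h1, hg0, hg1, hg0'] at h2
    exact h2.symm
  · have h1 : (g' * g⁻¹ * g).1 1 0 = g'.1 1 0 := by rw [inv_mul_cancel_right]
    have h2 : (g' * g⁻¹ * g).1 1 0 = (g' * g⁻¹).1 1 0 * g.1 0 0 + (g' * g⁻¹).1 1 1 * g.1 1 0 := by
      show ((g' * g⁻¹).1 * g.1) 1 0 = _
      rw [Matrix.mul_apply, Fin.sum_univ_two]
    rw [h1, hg0, hg1, hg1'] at h2
    exact h2.symm

/-- `SL₂(4) = PSL₂(4)` -/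
theorem sl_equiv (h2 : (2 : F) = 0) : Nonempty (SpecialLinearGroup (Fin 2) F ≃* ProjectiveSpecialLinearGroup (Fin 2) F) := by
  have hc : center (SpecialLinearGroup (Fin 2) F) = ⊥ := by
    rw [eq_bot_iff]
    intro x hx
    rw [Matrix.SpecialLinearGroup.mem_center_iff] at hx
    obtain ⟨r, hr, hrx⟩ := hx
    have h3 : r ^ 2 = 1 := hr
    have h4 : r = 1 := by
      have : (r - 1) * (r - 1) = 0 := by linear_combination h3 + (1 - r) * h2
      rcases mul_eq_zero.mp this with h5 | h5 <;> exact sub_eq_zero.mp h5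
    rw [Subgroup.mem_bot]
    apply Subtype.ext
    rw [← hrx, h4, map_one]
    rfl
  exact ⟨(QuotientGroup.quotientBot.symm).trans (QuotientGroup.quotientMulEquivOfEq hc.symm)⟩

theorem fact_A1 (hF : Fintype.card F = 4) : Fact4 (ProjectiveSpecialLinearGroup (Fin 2) F) ((V1 F).map pr : Subgroup PSL3) := by
  have h2 := two_zero hF
  refine ⟨?_, ?_, ?_⟩
  · intro x hx
    obtain ⟨g, rfl⟩ := pr_surj x
    have key : ∀ b c : F, g * um 0 b c = um 0 b c * g := by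
      intro b c
      apply rel h2
      have := hx (pr (um 0 b c)) (mem_A1.mpr ⟨b, c, rfl⟩)
      rw [map_mul, map_inv, map_mul, this, mul_inv_cancel_right]
    obtain ⟨-, e1, e2, e3, e4, -, -⟩ := entries (key 0 1)
    obtain ⟨-, f1, f2, -, -, -, -⟩ := entries (key 1 0)
    simp at e1 e2 e3 e4 f1 f2
    have hdet := g.2
    rw [Matrix.det_fin_three] at hdet
    have h3 : g.1 2 2 ^ 3 = 1 := by
      linear_combination hdet + (-g.1 1 1 * g.1 2 2) * e1 + (g.1 0 1 * g.1 2 2 - g.1 0 2 * g.1 2 1) * e2 +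
        (-g.1 2 2 ^ 2) * f2 + (-g.1 0 1 * g.1 1 2 + g.1 0 2 * g.1 1 1) * e3 + (g.1 0 0 * g.1 1 2) * e4
    have hk : g.1 2 2 ≠ 0 := by
      intro h; rw [h] at h3; norm_num at h3
    rw [mem_A1]
    refine ⟨(g.1 2 2)⁻¹ * g.1 1 2, (g.1 2 2)⁻¹ * g.1 0 2, ?_⟩
    rw [pr_eq]
    refine ⟨(g.1 2 2)⁻¹, ?_⟩
    rw [coe_um]
    ext i j
    fin_cases i <;> fin_cases j <;> simp [e1, e2, e3, e4, f1, f2, hk]
  · intro a ha b hb ha1 hb1
    obtain ⟨b₁, c₁, rfl⟩ := mem_A1.mp ha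
    obtain ⟨b₂, c₂, rfl⟩ := mem_A1.mp hb
    have n1 : c₁ ≠ 0 ∨ b₁ ≠ 0 := by
      by_contra hcon
      push Not at hcon
      apply ha1
      rw [hcon.1, hcon.2, um_zero, map_one]
    have n2 : c₂ ≠ 0 ∨ b₂ ≠ 0 := by
      by_contra hcon
      push Not at hcon
      apply hb1
      rw [hcon.1, hcon.2, um_zero, map_one]
    obtain ⟨h, hh1, hh2⟩ := sl2_trans n1 n2
    refine ⟨pr (lv h), lv_norm h, ?_⟩
    rw [← map_mul, lv_um, map_mul, mul_inv_cancel_right, hh1, hh2]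
  · refine ⟨(pr.comp lv).range, ?_, ?_, ?_, ?_⟩
    · rintro _ ⟨h, rfl⟩
      exact lv_norm h
    · rw [eq_bot_iff]
      rintro _ ⟨⟨h, rfl⟩, hA⟩
      obtain ⟨b, c, hbc⟩ := mem_A1.mp hA
      have := pr_lv_inj hbc
      rw [this, map_one]
      exact Subgroup.one_mem _
    · apply le_antisymm
      · refine sup_le ?_ ?_
        · exact Subgroup.le_normalizer
        · rintro _ ⟨h, rfl⟩
          exact lv_norm h
      · intro x hx
        obtain ⟨b, c, h, rfl⟩ := norm_decomp hF h2 hx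
        rw [map_mul]
        exact Subgroup.mul_mem_sup (mem_A1.mpr ⟨b, c, rfl⟩) ⟨h, rfl⟩
    · have hinj : Function.Injective (pr.comp (lv : SpecialLinearGroup (Fin 2) F →* SL3)) := by
        rw [injective_iff_map_eq_one]
        intro h hh
        apply pr_lv_inj (b := 0) (c := 0)
        rw [um_zero, map_one]
        exact hh
      obtain ⟨e⟩ := sl_equiv h2
      exact ⟨(MonoidHom.ofInjective hinj).symm.trans e⟩

end

end H98.Cov4a
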