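import Mathlib
import Cfsg.Agent.Lib.H98.Cov4a

/-!
Elementary abelian subgroups of order 16 of `PSL₃(4)`, part 2.
-/

set_option autoImplicit false
set_option linter.unusedSectionVars false

namespace H98.Cov4b

open Matrix H54.L34 Subgroup H98.Cov4a

section
variable {F : Type*} [Field F] [Fintype F]

local notation "SL3" => SpecialLinearGroup (Fin 3) F
local notation "PSL3" => ProjectiveSpecialLinearGroup (Fin 3) F

/-- reversal -/
def rev (F : Type*) [Field F] : SpecialLinearGroup (Fin 3) F :=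
  ⟨!![0, 0, 1; 0, -1, 0; 1, 0, 0], by rw [Matrix.det_fin_three]; simp⟩

theorem rev_eq (b c : F) : rev F * H50.PSLBasic.invTr (um 0 b c) = um b 0 (-c) * rev F := by
  have h1 : (um 0 b c)⁻¹ = um 0 (-b) (-c) := by
    rw [inv_eq_iff_mul_eq_one, um_mul, ← um_zero]
    congr 1 <;> ring
  apply Subtype.ext
  show (rev F).1 * (H50.PSLBasic.invTr (um 0 b c) : SL3).1 = (um b 0 (-c)).1 * (rev F).1
  rw [H50.PSLBasic.invTr_coe, h1, coe_um, coe_um]
  ext i j
  fin_cases i <;> fin_cases j <;> simp [Matrix.mul_apply, Fin.sum_univ_three, rev]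

theorem map_A2 : ((V1 F).map pr : Subgroup PSL3).map
    ((H50.PSLBasic.iota : MulAut PSL3).trans (MulAut.conj (pr (rev F)))).toMonoidHom = (V2 F).map pr := by
  have key : ∀ b c : F, (MulAut.conj (pr (rev F) : PSL3)) ((H50.PSLBasic.iota : MulAut PSL3) (pr (um 0 b c))) = pr (um b 0 (-c)) := by
    intro b c
    have h1 : (H50.PSLBasic.iota : MulAut PSL3) (pr (um 0 b c)) = pr (H50.PSLBasic.invTr (um 0 b c)) := rfl
    rw [h1, MulAut.conj_apply, ← map_mul, rev_eq, map_mul, mul_inv_cancel_right]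
  ext x
  constructor
  · rintro ⟨_, ⟨_, ⟨b, c, rfl⟩, rfl⟩, rfl⟩
    exact ⟨_, ⟨b, -c, rfl⟩, (key b c).symm⟩
  · rintro ⟨_, ⟨a, c, rfl⟩, rfl⟩
    refine ⟨_, ⟨_, ⟨a, -c, rfl⟩, rfl⟩, ?_⟩
    have := key a (-c)
    rw [neg_neg] at this
    exact this

theorem fact_A2 (hF : Fintype.card F = 4) : Fact4 (ProjectiveSpecialLinearGroup (Fin 2) F) ((V2 F).map pr : Subgroup PSL3) := by
  rw [← map_A2]
  exact (fact_A1 hF).map _

theorem card_V1 (hF : Fintype.card F = 4) : Nat.card (V1 F) = 16 := by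
  have h1 : Function.Bijective (fun p : F × F => (⟨um 0 p.1 p.2, p.1, p.2, rfl⟩ : V1 F)) := by
    constructor
    · rintro ⟨b, c⟩ ⟨b', c'⟩ h
      obtain ⟨-, rfl, rfl⟩ := um_inj (congrArg Subtype.val h)
      rfl
    · rintro ⟨g, b, c, rfl⟩
      exact ⟨(b, c), rfl⟩
  rw [← Nat.card_eq_of_bijective _ h1, Nat.card_prod, Nat.card_eq_fintype_card, hF]

theorem card_V2 (hF : Fintype.card F = 4) : Nat.card (V2 F) = 16 := by
  have h1 : Function.Bijective (fun p : F × F => (⟨um p.1 0 p.2, p.1, p.2, rfl⟩ : V2 F)) := by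
    constructor
    · rintro ⟨b, c⟩ ⟨b', c'⟩ h
      obtain ⟨rfl, -, rfl⟩ := um_inj (congrArg Subtype.val h)
      rfl
    · rintro ⟨g, b, c, rfl⟩
      exact ⟨(b, c), rfl⟩
  rw [← Nat.card_eq_of_bijective _ h1, Nat.card_prod, Nat.card_eq_fintype_card, hF]

theorem mem_R {x : PSL3} : x ∈ (toPSL : UT F →* PSL3).range ↔ ∃ a b c : F, x = pr (um a b c) := by
  constructor
  · rintro ⟨g, rfl⟩
    obtain ⟨a, b, c, rfl⟩ := exists_U g
    exact ⟨a, b, c, rfl⟩
  · rintro ⟨a, b, c, rfl⟩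
    exact ⟨U a b c, rfl⟩

theorem prum_inj {a b c a' b' c' : F} (h : (pr (um a b c) : PSL3) = pr (um a' b' c')) : a = a' ∧ b = b' ∧ c = c' := by
  have : toPSL (U a b c) = toPSL (U a' b' c') := h
  exact U_inj (toPSL_inj this)

theorem pr_inj_V1 (hF : Fintype.card F = 4) : Nat.card ((V1 F).map pr : Subgroup PSL3) = 16 := by
  rw [← card_V1 hF]
  symm
  apply Nat.card_congr
  refine Equiv.ofBijective (fun g => ⟨pr g.1, ⟨g.1, g.2, rfl⟩⟩) ⟨?_, ?_⟩
  · rintro ⟨_, b, c, rfl⟩ ⟨_, b', c', rfl⟩ h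
    obtain ⟨-, rfl, rfl⟩ := prum_inj (congrArg Subtype.val h)
    rfl
  · rintro ⟨_, ⟨g, hg, rfl⟩⟩
    exact ⟨⟨g, hg⟩, rfl⟩

theorem pr_inj_V2 (hF : Fintype.card F = 4) : Nat.card ((V2 F).map pr : Subgroup PSL3) = 16 := by
  rw [← card_V2 hF]
  symm
  apply Nat.card_congr
  refine Equiv.ofBijective (fun g => ⟨pr g.1, ⟨g.1, g.2, rfl⟩⟩) ⟨?_, ?_⟩
  · rintro ⟨_, b, c, rfl⟩ ⟨_, b', c', rfl⟩ h
    obtain ⟨rfl, -, rfl⟩ := prum_inj (congrArg Subtype.val h)
    rfl
  · rintro ⟨_, ⟨g, hg, rfl⟩⟩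
    exact ⟨⟨g, hg⟩, rfl⟩

/-- the two elementary abelian subgroups of order 16 -/
theorem class_R (hF : Fintype.card F = 4) (A : Subgroup PSL3) (hA : A ≤ (toPSL : UT F →* PSL3).range)
    (he : Cfsg.IsElementaryAbelian 2 A) (hc : Nat.card A = 16) :
    A = (V1 F).map pr ∨ A = (V2 F).map pr := by
  have h2 := two_zero hF
  have hfin : Finite PSL3 := Quotient.finite _
  have hsq : ∀ a b c : F, (pr (um a b c) : PSL3) ∈ A → a * b = 0 := by
    intro a b c h
    have h1 := he.2 _ h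
    rw [pow_two, ← map_mul, um_mul, ← map_one pr, ← um_zero] at h1
    have h3 := (prum_inj h1).2.2
    linear_combination h3 - c * h2
  by_cases hcase : ∃ a c : F, a ≠ 0 ∧ (pr (um a 0 c) : PSL3) ∈ A
  · right
    obtain ⟨a, c, ha, hac⟩ := hcase
    have hle : A ≤ (V2 F).map pr := by
      intro x hx
      obtain ⟨a', b', c', rfl⟩ := mem_R.mp (hA hx)
      have h3 := hsq a' b' c' hx
      have hb : b' = 0 := by
        by_contra hb
        have ha' : a' = 0 := (mul_eq_zero.mp h3).resolve_right hb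
        have h4 := A.mul_mem hac hx
        rw [← map_mul, um_mul] at h4
        have h5 := hsq _ _ _ h4
        rw [ha', add_zero, zero_add] at h5
        rcases mul_eq_zero.mp h5 with h6 | h6
        · exact ha h6
        · exact hb h6
      rw [hb]
      exact ⟨_, ⟨a', c', rfl⟩, rfl⟩
    exact Subgroup.eq_of_le_of_card_ge hle (by rw [hc, pr_inj_V2 hF])
  · left
    push Not at hcase
    have hle : A ≤ (V1 F).map pr := by
      intro x hx
      obtain ⟨a', b', c', rfl⟩ := mem_R.mp (hA hx)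
      have h3 := hsq a' b' c' hx
      have ha' : a' = 0 := by
        by_contra ha'
        have hb : b' = 0 := (mul_eq_zero.mp h3).resolve_left ha'
        rw [hb] at hx
        exact hcase a' c' ha' hx
      rw [ha']
      exact ⟨_, ⟨b', c', rfl⟩, rfl⟩
    exact Subgroup.eq_of_le_of_card_ge hle (by rw [hc, pr_inj_V1 hF])

theorem R_norm1 : (toPSL : UT F →* PSL3).range ≤ normalizer (((V1 F).map pr : Subgroup PSL3) : Set PSL3) := by
  have key : ∀ (x : PSL3), x ∈ (toPSL : UT F →* PSL3).range → ∀ y : PSL3, y ∈ (V1 F).map pr → x * y * x⁻¹ ∈ (V1 F).map pr := by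
    intro x hx y hy
    obtain ⟨a, b, c, rfl⟩ := mem_R.mp hx
    obtain ⟨_, ⟨b', c', rfl⟩, rfl⟩ := hy
    have : um a b c * um 0 b' c' = um 0 b' (c' + a * b') * um a b c := by
      rw [um_mul, um_mul]; congr 1 <;> ring
    rw [← map_mul, this, map_mul, mul_inv_cancel_right]
    exact ⟨_, ⟨_, _, rfl⟩, rfl⟩
  intro x hx
  rw [Subgroup.mem_normalizer_iff]
  intro y
  refine ⟨key x hx y, fun h => ?_⟩
  have h1 := key x⁻¹ (inv_mem hx) _ h
  rw [inv_inv] at h1
  have : x⁻¹ * (x * y * x⁻¹) * x = y := by group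
  rwa [this] at h1

theorem R_norm2 : (toPSL : UT F →* PSL3).range ≤ normalizer (((V2 F).map pr : Subgroup PSL3) : Set PSL3) := by
  have key : ∀ (x : PSL3), x ∈ (toPSL : UT F →* PSL3).range → ∀ y : PSL3, y ∈ (V2 F).map pr → x * y * x⁻¹ ∈ (V2 F).map pr := by
    intro x hx y hy
    obtain ⟨a, b, c, rfl⟩ := mem_R.mp hx
    obtain ⟨_, ⟨a', c', rfl⟩, rfl⟩ := hy
    have : um a b c * um a' 0 c' = um a' 0 (c' - a' * b) * um a b c := by
      rw [um_mul, um_mul]; congr 1 <;> ring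
    rw [← map_mul, this, map_mul, mul_inv_cancel_right]
    exact ⟨_, ⟨_, _, rfl⟩, rfl⟩
  intro x hx
  rw [Subgroup.mem_normalizer_iff]
  intro y
  refine ⟨key x hx y, fun h => ?_⟩
  have h1 := key x⁻¹ (inv_mem hx) _ h
  rw [inv_inv] at h1
  have : x⁻¹ * (x * y * x⁻¹) * x = y := by group
  rwa [this] at h1

theorem R_sup : ((V1 F).map pr : Subgroup PSL3) ⊔ (V2 F).map pr = (toPSL : UT F →* PSL3).range := by
  apply le_antisymm
  · refine sup_le ?_ ?_
    · rintro _ ⟨_, ⟨b, c, rfl⟩, rfl⟩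
      exact mem_R.mpr ⟨_, _, _, rfl⟩
    · rintro _ ⟨_, ⟨b, c, rfl⟩, rfl⟩
      exact mem_R.mpr ⟨_, _, _, rfl⟩
  · intro x hx
    obtain ⟨a, b, c, rfl⟩ := mem_R.mp hx
    have : um a b c = um a 0 0 * um 0 b (c - a * b) := by
      rw [um_mul]; congr 1 <;> ring
    rw [this, map_mul]
    exact mul_mem (Subgroup.mem_sup_right ⟨_, ⟨_, _, rfl⟩, rfl⟩) (Subgroup.mem_sup_left ⟨_, ⟨_, _, rfl⟩, rfl⟩)

theorem card_psl (hF : Fintype.card F = 4) : Nat.card PSL3 = 20160 := by
  have hc := H6.SLCard.card_psl (F := F) (n := 3) (by norm_num)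
  rw [Fin.prod_univ_three, hF] at hc
  generalize Nat.card (Matrix.ProjectiveSpecialLinearGroup (Fin 3) F) = m at hc
  norm_num at hc
  omega

/-- facts in `R` -/
theorem fact_R (hF : Fintype.card F = 4) (A B : Subgroup PSL3) (hA : A ≤ (toPSL : UT F →* PSL3).range) (hB : B ≤ (toPSL : UT F →* PSL3).range)
    (he : Cfsg.IsElementaryAbelian 2 A) (hc : Nat.card A = 16)
    (heB : Cfsg.IsElementaryAbelian 2 B) (hcB : Nat.card B = 16) (hAB : A ≠ B) :
    Fact4 (ProjectiveSpecialLinearGroup (Fin 2) F) A ∧ A ⊔ B = (toPSL : UT F →* PSL3).range ∧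
      (toPSL : UT F →* PSL3).range ≤ normalizer (A : Set PSL3) := by
  rcases class_R hF A hA he hc with h1 | h1 <;> rcases class_R hF B hB heB hcB with h2 | h2
  · exact absurd (h1.trans h2.symm) hAB
  · rw [h1, h2]
    exact ⟨fact_A1 hF, R_sup, R_norm1⟩
  · rw [h1, h2]
    exact ⟨fact_A2 hF, by rw [sup_comm]; exact R_sup, R_norm2⟩
  · exact absurd (h1.trans h2.symm) hAB

theorem elem_map {L L' : Type*} [Group L] [Group L'] (f : L →* L') {p : ℕ} {A : Subgroup L} (h : Cfsg.IsElementaryAbelian p A) :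
    Cfsg.IsElementaryAbelian p (A.map f) := by
  refine ⟨⟨⟨?_⟩⟩, ?_⟩
  · rintro ⟨_, a, ha, rfl⟩ ⟨_, b, hb, rfl⟩
    have := h.1.is_comm.comm ⟨a, ha⟩ ⟨b, hb⟩
    have h1 : a * b = b * a := congrArg Subtype.val this
    apply Subtype.ext
    show f a * f b = f b * f a
    rw [← map_mul, h1, map_mul]
  · rintro _ ⟨a, ha, rfl⟩
    rw [← map_pow, h.2 a ha, map_one]

/-- facts in a Sylow subgroup -/
theorem fact_syl (hF : Fintype.card F = 4) (P : Sylow 2 PSL3) (A B : Subgroup PSL3) (hA : A ≤ P) (hB : B ≤ P)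
    (he : Cfsg.IsElementaryAbelian 2 A) (hc : Nat.card A = 16)
    (heB : Cfsg.IsElementaryAbelian 2 B) (hcB : Nat.card B = 16) (hAB : A ≠ B) :
    Fact4 (ProjectiveSpecialLinearGroup (Fin 2) F) A ∧ A ⊔ B = P ∧
      (P : Subgroup PSL3) ≤ normalizer (A : Set PSL3) := by
  have hfin : Finite PSL3 := Quotient.finite _
  have h2 : Fact (Nat.Prime 2) := ⟨Nat.prime_two⟩
  have hcR : Nat.card (toPSL : UT F →* PSL3).range = 64 := by
    rw [← card_UT hF]
    exact (Nat.card_congr (MonoidHom.ofInjective toPSL_inj).toEquiv).symm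
  let R : Sylow 2 PSL3 := Sylow.ofCard (toPSL : UT F →* PSL3).range (by
    rw [hcR, card_psl hF, Nat.factorization_def _ Nat.prime_two]
    have : (20160 : ℕ) = 2 ^ 6 * 315 := by norm_num
    rw [this, padicValNat.mul (by norm_num) (by norm_num), padicValNat.prime_pow,
        padicValNat.eq_zero_of_not_dvd (by norm_num)]
    norm_num)
  have hR : (R : Subgroup PSL3) = (toPSL : UT F →* PSL3).range := rfl
  obtain ⟨g, hg⟩ := MulAction.exists_smul_eq PSL3 R P
  have hP : (P : Subgroup PSL3) = ((toPSL : UT F →* PSL3).range).map (MulAut.conj g).toMonoidHom := by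
    rw [← hg]
    rfl
  have hback : ∀ S : Subgroup PSL3, S = (S.map (MulAut.conj g).symm.toMonoidHom).map (MulAut.conj g).toMonoidHom := by
    intro S
    ext x
    constructor
    · intro hx
      exact ⟨_, ⟨x, hx, rfl⟩, (MulAut.conj g).apply_symm_apply x⟩
    · rintro ⟨_, ⟨y, hy, rfl⟩, rfl⟩
      have : (MulAut.conj g) ((MulAut.conj g).symm y) = y := (MulAut.conj g).apply_symm_apply y
      show (MulAut.conj g) ((MulAut.conj g).symm y) ∈ S
      rw [this]; exact hy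
  have hle : ∀ S : Subgroup PSL3, S ≤ P → S.map (MulAut.conj g).symm.toMonoidHom ≤ (toPSL : UT F →* PSL3).range := by
    rintro S hS _ ⟨y, hy, rfl⟩
    have h1 := hS hy
    rw [hP] at h1
    obtain ⟨z, hz, rfl⟩ := h1
    have : (MulAut.conj g).symm ((MulAut.conj g) z) = z := (MulAut.conj g).symm_apply_apply z
    show (MulAut.conj g).symm ((MulAut.conj g) z) ∈ _
    rw [this]; exact hz
  have hcard : ∀ S : Subgroup PSL3, Nat.card (S.map (MulAut.conj g).symm.toMonoidHom) = Nat.card S := by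
    intro S
    exact Nat.card_congr (S.equivMapOfInjective _ (MulAut.conj g).symm.injective).symm.toEquiv
  obtain ⟨f1, f2, f3⟩ := fact_R hF (A.map (MulAut.conj g).symm.toMonoidHom) (B.map (MulAut.conj g).symm.toMonoidHom)
    (hle A hA) (hle B hB) (elem_map _ he) ((hcard A).trans hc) (elem_map _ heB) ((hcard B).trans hcB) (by
      intro h
      apply hAB
      rw [hback A, hback B, h])
  refine ⟨?_, ?_, ?_⟩
  · rw [hback A]
    exact f1.map _
  · rw [hback A, hback B, ← Subgroup.map_sup, f2, hP]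
  · rw [hback A, ← map_normalizer, hP]
    exact Subgroup.map_mono f3

end

end H98.Cov4b
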