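import Mathlib
import Cfsg.Agent.Lib.H98.Cov4b
import Cfsg.Agent.Lib.H2.Gaschutz
import Cfsg.Agent.Lib.H29.Elem

/-!
Covers of `PSL₃(4)` with centre an elementary abelian 2-group.
-/

set_option autoImplicit false
set_option linter.unusedSectionVars false

namespace H98.Cov4c

open Subgroup H98.Cov4a H98.Cov4b

theorem compl_equiv {M : Type*} [Group M] (K C : Subgroup M) (hC : C ≤ normalizer (K : Set M)) (hd : C ⊓ K = ⊥)
    (hs : K ⊔ C = normalizer (K : Set M)) :
    Nonempty (C ≃* (normalizer (K : Set M) ⧸ K.subgroupOf (normalizer (K : Set M)))) := by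
  let f : C →* (normalizer (K : Set M) ⧸ K.subgroupOf (normalizer (K : Set M))) :=
    (QuotientGroup.mk' (K.subgroupOf (normalizer (K : Set M)))).comp (Subgroup.inclusion hC)
  have hinj : Function.Injective f := by
    rw [injective_iff_map_eq_one]
    intro c hc
    have h1 : Subgroup.inclusion hC c ∈ K.subgroupOf (normalizer (K : Set M)) := (QuotientGroup.eq_one_iff _).mp hc
    have h2 : (c : M) ∈ K := h1
    have h3 : (c : M) ∈ C ⊓ K := ⟨c.2, h2⟩
    rw [hd, Subgroup.mem_bot] at h3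
    exact Subtype.ext h3
  have hsurj : Function.Surjective f := by
    intro q
    obtain ⟨n, rfl⟩ := QuotientGroup.mk'_surjective _ q
    have key : normalizer (K : Set M) ≤ ((f.range).comap (QuotientGroup.mk' (K.subgroupOf (normalizer (K : Set M))))).map
        (normalizer (K : Set M)).subtype := by
      conv_lhs => rw [← hs]
      refine sup_le ?_ ?_
      · intro k hk
        refine ⟨⟨k, Subgroup.le_normalizer hk⟩, ?_, rfl⟩
        refine ⟨1, ?_⟩
        rw [map_one]
        symm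
        exact (QuotientGroup.eq_one_iff _).mpr hk
      · intro c hc
        exact ⟨⟨c, hC hc⟩, ⟨⟨c, hc⟩, rfl⟩, rfl⟩
    obtain ⟨n', hn', hnn⟩ := key n.2
    have : n' = n := Subtype.ext hnn
    rw [← this]
    exact hn'
  exact ⟨MulEquiv.ofBijective f ⟨hinj, hsurj⟩⟩

theorem two_compl {M : Type*} [Group M] (K C C' : Subgroup M) (hC : C ≤ normalizer (K : Set M)) (hd : C ⊓ K = ⊥)
    (hs : K ⊔ C = normalizer (K : Set M)) (hC' : C' ≤ normalizer (K : Set M)) (hd' : C' ⊓ K = ⊥)
    (hs' : K ⊔ C' = normalizer (K : Set M)) : Nonempty (C ≃* C') := by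
  obtain ⟨e⟩ := compl_equiv K C hC hd hs
  obtain ⟨e'⟩ := compl_equiv K C' hC' hd' hs'
  exact ⟨e.trans e'.symm⟩

section
variable {X L Q : Type*} [Group X] [Finite X] [Group L] [Group Q]

theorem comm_of_sq {H : Subgroup X} (h : ∀ a ∈ H, a ^ 2 = 1) : Cfsg.IsElementaryAbelian 2 H := by
  refine ⟨⟨⟨?_⟩⟩, h⟩
  rintro ⟨a, ha⟩ ⟨b, hb⟩
  apply Subtype.ext
  show a * b = b * a
  have h1 := h a ha
  have h2 := h b hb
  have h3 := h _ (H.mul_mem ha hb)
  rw [pow_two] at h1 h2 h3
  have e1 : a⁻¹ = a := inv_eq_of_mul_eq_one_left h1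
  have e2 : b⁻¹ = b := inv_eq_of_mul_eq_one_left h2
  have e3 : (a * b)⁻¹ = a * b := inv_eq_of_mul_eq_one_left h3
  rw [← e3, mul_inv_rev, e1, e2]

/-- the first step: `H` is elementary abelian -/
theorem elem (φ : X →* L) (hφ : Function.Surjective φ) (hker : φ.ker = center X)
    (hZ : Cfsg.IsElementaryAbelian 2 (center X)) (H : Subgroup X) (hf : Fact4 Q (H.map φ))
    (hH : Cfsg.IsElementaryAbelian 2 (H.map φ)) (hc : Nat.card (H.map φ) = 16) : Cfsg.IsElementaryAbelian 2 H := by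
  classical
  have hz : ∀ z ∈ center X, z * z = 1 := fun z hz => by rw [← pow_two]; exact hZ.2 z hz
  have hcen : ∀ z ∈ center X, ∀ x : X, z * x = x * z := fun z hz x => (Subgroup.mem_center_iff.mp hz x).symm
  have hk : ∀ x : X, φ x = 1 ↔ x ∈ center X := by
    intro x
    rw [← hker, MonoidHom.mem_ker]
  have hsqZ : ∀ h ∈ H, h * h ∈ center X := by
    intro h hh
    rw [← hk, map_mul, ← pow_two]
    exact hH.2 _ ⟨h, hh, rfl⟩
  -- common square
  have hsame : ∀ h ∈ H, ∀ k ∈ H, φ h ≠ 1 → φ k ≠ 1 → h * h = k * k := by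
    intro h hh k hk' h1 k1
    obtain ⟨g, -, hg⟩ := hf.ft _ ⟨h, hh, rfl⟩ _ ⟨k, hk', rfl⟩ h1 k1
    obtain ⟨x, rfl⟩ := hφ g
    obtain ⟨z, hzz, hzk⟩ : ∃ z ∈ center X, x * h * x⁻¹ = k * z := by
      refine ⟨k⁻¹ * (x * h * x⁻¹), ?_, by group⟩
      rw [← hk]
      simp only [map_mul, map_inv]
      rw [hg]
      group
    have e1 : (x * h * x⁻¹) * (x * h * x⁻¹) = h * h := by
      have : (x * h * x⁻¹) * (x * h * x⁻¹) = x * (h * h) * x⁻¹ := by group
      rw [this, ← hcen _ (hsqZ h hh) x]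
      group
    have e2 : (k * z) * (k * z) = k * k := by
      have : (k * z) * (k * z) = k * (z * k) * z := by group
      rw [this, hcen z hzz k]
      have : k * (k * z) * z = k * k * (z * z) := by group
      rw [this, hz z hzz, mul_one]
    rw [← e1, hzk, e2]
  have hpick : ∀ S : Finset L, S.card ≤ 4 → ∃ h ∈ H, φ h ∉ S := by
    intro S hS
    by_contra hcon
    push Not at hcon
    have h1 : ((H.map φ : Subgroup L) : Set L) ⊆ (S : Set L) := by
      rintro _ ⟨h, hh, rfl⟩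
      exact hcon h hh
    have h2 := Set.ncard_le_ncard h1 (Finset.finite_toSet S)
    rw [Set.ncard_coe_finset] at h2
    have h3 : ((H.map φ : Subgroup L) : Set L).ncard = 16 := by
      rw [← hc]; rfl
    omega
  obtain ⟨a, ha, ha1⟩ := hpick {1} (by simp)
  obtain ⟨b, hb, hb1⟩ := hpick {1, φ a} (Finset.card_le_two.trans (by norm_num))
  obtain ⟨d, hd, hd1⟩ := hpick {1, φ a, φ b, φ a * φ b} Finset.card_le_four
  simp only [Finset.mem_singleton] at ha1
  simp only [Finset.mem_insert, Finset.mem_singleton, not_or] at hb1 hd1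
  obtain ⟨hb1, hba⟩ := hb1
  obtain ⟨hd1, hda, hdb, hdab⟩ := hd1
  obtain ⟨c, hcdef⟩ : ∃ c, c = a * a := ⟨_, rfl⟩
  have hcZ : c ∈ center X := hcdef ▸ hsqZ a ha
  have hcc : c * c = 1 := hz c hcZ
  have hsq : ∀ h ∈ H, φ h ≠ 1 → h * h = c := fun h hh h1 => by rw [hcdef]; exact hsame h hh a ha h1 ha1
  have hφsq : ∀ h ∈ H, φ h * φ h = 1 := fun h hh => by rw [← pow_two]; exact hH.2 _ ⟨h, hh, rfl⟩
  have hcomm : ∀ h ∈ H, ∀ k ∈ H, φ h ≠ 1 → φ k ≠ 1 → φ h ≠ φ k → h * k = c * (k * h) := by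
    intro h hh k hk' h1 k1 hne
    have h2 : φ (h * k) ≠ 1 := by
      intro h3
      apply hne
      rw [map_mul] at h3
      calc φ h = φ h * (φ k * φ k) := by rw [hφsq k hk', mul_one]
        _ = (φ h * φ k) * φ k := by group
        _ = φ k := by rw [h3, one_mul]
    have e1 := hsq _ (H.mul_mem hh hk') h2
    have e2 := hsq h hh h1
    have e3 := hsq k hk' k1
    -- hkhk = c, so hk = c k⁻¹ h⁻¹ = c (k c⁻¹) (h c⁻¹)
    have e4 : h * k = c * (k⁻¹ * h⁻¹) := by
      rw [← e1]; group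
    have e5 : k⁻¹ = k * c := by
      rw [inv_eq_iff_mul_eq_one, ← mul_assoc, e3, hcc]
    have e6 : h⁻¹ = h * c := by
      rw [inv_eq_iff_mul_eq_one, ← mul_assoc, e2, hcc]
    rw [e4, e5, e6]
    have : c * (k * c * (h * c)) = c * (k * (c * h) * c) := by group
    rw [this, hcen c hcZ h]
    have : c * (k * (h * c) * c) = c * (k * h) * (c * c) := by group
    rw [this, hcc, mul_one]
  have hbd : φ (b * d) ≠ 1 := by
    intro h3
    apply hdb
    rw [map_mul] at h3
    calc φ d = (φ b * φ b) * φ d := by rw [hφsq b hb, one_mul]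
        _ = φ b * (φ b * φ d) := by group
        _ = φ b := by rw [h3, mul_one]
  have habd : φ a ≠ φ (b * d) := by
    intro h3
    apply hdab
    rw [map_mul] at h3
    have hab : φ a * φ b = φ b * φ a := by
      have := hH.1.is_comm.comm ⟨φ a, ⟨a, ha, rfl⟩⟩ ⟨φ b, ⟨b, hb, rfl⟩⟩
      exact congrArg Subtype.val this
    calc φ d = (φ b * φ b) * φ d := by rw [hφsq b hb, one_mul]
        _ = φ b * (φ b * φ d) := by group
        _ = φ b * φ a := by rw [← h3]
        _ = φ a * φ b := hab.symm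
  have hc1 : c = 1 := by
    have e1 := hcomm a ha (b * d) (H.mul_mem hb hd) ha1 hbd habd
    have e2 := hcomm a ha b hb ha1 hb1 (Ne.symm hba)
    have e3 := hcomm a ha d hd ha1 hd1 (Ne.symm hda)
    have e4 : a * (b * d) = b * d * a := by
      calc a * (b * d) = (a * b) * d := by group
        _ = c * (b * a) * d := by rw [e2]
        _ = c * b * (a * d) := by group
        _ = c * b * (c * (d * a)) := by rw [e3]
        _ = c * (b * c) * (d * a) := by group
        _ = c * (c * b) * (d * a) := by rw [hcen c hcZ b]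
        _ = (c * c) * (b * d * a) := by group
        _ = b * d * a := by rw [hcc, one_mul]
    rw [e4] at e1
    exact (right_eq_mul.mp e1)
  apply comm_of_sq
  intro h hh
  rw [pow_two]
  by_cases h1 : φ h = 1
  · exact hz h ((hk h).mp h1)
  · rw [hsq h hh h1, hc1]

theorem mem_of_map (φ : X →* L) (hker : φ.ker = center X) {H : Subgroup X} (hZH : center X ≤ H) {x : X} (hx : φ x ∈ H.map φ) : x ∈ H := by
  obtain ⟨h, hh, hhx⟩ := hx
  have h1 : h⁻¹ * x ∈ center X := by
    rw [← hker, MonoidHom.mem_ker, map_mul, map_inv, hhx]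
    group
  have h2 := H.mul_mem hh (hZH h1)
  rwa [mul_inv_cancel_left] at h2

/-- the second step -/
theorem inter (φ : X →* L) (hker : φ.ker = center X)
    (H K : Subgroup X) (hf : Fact4 Q (H.map φ)) (hg : Fact4 Q (K.map φ)) (hZH : center X ≤ H) (hZK : center X ≤ K)
    (hH : Cfsg.IsElementaryAbelian 2 H) (hK : Cfsg.IsElementaryAbelian 2 K) :
    H ⊓ K = (Subgroup.center ↥(H ⊔ K)).map (H ⊔ K).subtype := by
  ext x
  constructor
  · rintro ⟨hxH, hxK⟩
    have hxH : x ∈ H := hxH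
    have hxK : x ∈ K := hxK
    refine ⟨⟨x, Subgroup.mem_sup_left hxH⟩, ?_, rfl⟩
    rw [SetLike.mem_coe, Subgroup.mem_center_iff]
    rintro ⟨y, hy⟩
    apply Subtype.ext
    show y * x = x * y
    have hle : H ⊔ K ≤ Subgroup.centralizer {x} := by
      refine sup_le ?_ ?_
      · intro h hh
        rw [Subgroup.mem_centralizer_singleton_iff]
        exact congrArg Subtype.val (hH.1.is_comm.comm ⟨h, hh⟩ ⟨x, hxH⟩)
      · intro h hh
        rw [Subgroup.mem_centralizer_singleton_iff]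
        exact congrArg Subtype.val (hK.1.is_comm.comm ⟨h, hh⟩ ⟨x, hxK⟩)
    exact Subgroup.mem_centralizer_singleton_iff.mp (hle hy)
  · rintro ⟨⟨x, hx⟩, hxc, rfl⟩
    rw [SetLike.mem_coe, Subgroup.mem_center_iff] at hxc
    constructor
    · apply mem_of_map φ hker hZH
      apply hf.fc
      rintro _ ⟨h, hh, rfl⟩
      have := congrArg Subtype.val (hxc ⟨h, Subgroup.mem_sup_left hh⟩)
      have h1 : h * x = x * h := this
      show φ x * φ h = φ h * φ x
      rw [← map_mul, ← map_mul, h1]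
    · apply mem_of_map φ hker hZK
      apply hg.fc
      rintro _ ⟨h, hh, rfl⟩
      have := congrArg Subtype.val (hxc ⟨h, Subgroup.mem_sup_right hh⟩)
      have h1 : h * x = x * h := this
      show φ x * φ h = φ h * φ x
      rw [← map_mul, ← map_mul, h1]

theorem norm_iff (φ : X →* L) (hφ : Function.Surjective φ) (hker : φ.ker = center X) (H : Subgroup X) (hZH : center X ≤ H) (x : X) :
    x ∈ normalizer (H : Set X) ↔ φ x ∈ normalizer ((H.map φ : Subgroup L) : Set L) := by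
  rw [Subgroup.mem_normalizer_iff, Subgroup.mem_normalizer_iff]
  have hiff : ∀ y : X, φ y ∈ H.map φ ↔ y ∈ H := fun y => ⟨mem_of_map φ hker hZH, fun h => ⟨y, h, rfl⟩⟩
  constructor
  · intro h l
    obtain ⟨y, rfl⟩ := hφ l
    rw [← map_mul, ← map_inv, ← map_mul, hiff, hiff]
    exact h y
  · intro h y
    have := h (φ y)
    rwa [← map_mul, ← map_inv, ← map_mul, hiff, hiff] at this

/-- the third step: complements -/
theorem compl (φ : X →* L) (hφ : Function.Surjective φ) (hker : φ.ker = center X)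
    (T : Sylow 2 X) (H K : Subgroup X) (hf : Fact4 Q (H.map φ)) (hZH : center X ≤ H) (hZK : center X ≤ K)
    (hHT : H ≤ T) (hKT : K ≤ T) (hsup : H.map φ ⊔ K.map φ = (T : Subgroup X).map φ)
    (hnorm : (T : Subgroup X).map φ ≤ normalizer ((H.map φ : Subgroup L) : Set L))
    (hH : Cfsg.IsElementaryAbelian 2 H) (hK : Cfsg.IsElementaryAbelian 2 K) :
    ∃ C : Subgroup X, C ≤ Subgroup.normalizer (H : Set X) ∧ C ⊓ H = ⊥ ∧ H ⊔ C = Subgroup.normalizer (H : Set X) ∧
        Nonempty (↥C ≃* Q) := by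
  have h2 : Fact (Nat.Prime 2) := ⟨Nat.prime_two⟩
  have hTN : (T : Subgroup X) ≤ normalizer (H : Set X) := by
    intro t ht
    rw [norm_iff φ hφ hker H hZH]
    exact hnorm ⟨t, ht, rfl⟩
  have hTHK : (T : Subgroup X) = H ⊔ K := by
    apply le_antisymm
    · intro t ht
      apply mem_of_map φ hker (hZH.trans le_sup_left)
      rw [Subgroup.map_sup, hsup]
      exact ⟨t, ht, rfl⟩
    · exact sup_le hHT hKT
  obtain ⟨Y, hYK, hY1, hY2⟩ := H29.Elem.exists_compl hK (inf_le_right : H ⊓ K ≤ K)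
  have hYH : Y ⊓ H = ⊥ := by
    rw [eq_bot_iff, ← hY1]
    exact le_inf (le_inf inf_le_right (inf_le_left.trans hYK)) inf_le_left
  have hHY : H ⊔ Y = T := by
    rw [hTHK]
    apply le_antisymm
    · exact sup_le le_sup_left (hYK.trans le_sup_right)
    · refine sup_le le_sup_left ?_
      conv_lhs => rw [← hY2]
      exact sup_le (inf_le_left.trans le_sup_left) le_sup_right
  obtain ⟨N, hN⟩ : ∃ N, N = normalizer (H : Set X) := ⟨_, rfl⟩
  have hHN : H ≤ N := hN ▸ Subgroup.le_normalizer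
  rw [← hN] at hTN
  have hnor : (H.subgroupOf N).Normal := by
    rw [hN]; exact Subgroup.normal_in_normalizer
  have hcommH : IsMulCommutative (H.subgroupOf N) := by
    refine ⟨⟨?_⟩⟩
    rintro ⟨a, ha⟩ ⟨b, hb⟩
    apply Subtype.ext
    apply Subtype.ext
    show a.1 * b.1 = b.1 * a.1
    exact congrArg Subtype.val (hH.1.is_comm.comm ⟨a.1, ha⟩ ⟨b.1, hb⟩)
  have hcop : (Nat.card (H.subgroupOf N)).Coprime ((T : Subgroup X).subgroupOf N).index := by
    have e1 : IsPGroup 2 (H.subgroupOf N) := by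
      have : IsPGroup 2 H := T.isPGroup'.to_le hHT
      exact this.of_injective (Subgroup.subgroupOfEquivOfLe hHN).toMonoidHom (Subgroup.subgroupOfEquivOfLe hHN).injective
    obtain ⟨n, hn⟩ := IsPGroup.iff_card.mp e1
    rw [hn]
    apply Nat.Coprime.pow_left
    rw [Nat.Prime.coprime_iff_not_dvd Nat.prime_two]
    intro hd
    apply T.not_dvd_index
    have h3 := Subgroup.relIndex_mul_index hTN
    rw [← h3]
    exact Dvd.dvd.mul_right hd _
  obtain ⟨C', hC'⟩ := H2.Gaschutz.exists_complement (H.subgroupOf N) ((T : Subgroup X).subgroupOf N) hcop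
    (Y.subgroupOf N) (Subgroup.comap_mono (hYK.trans hKT)) (by
      rw [eq_bot_iff]
      rintro n ⟨h1, h2⟩
      have : (n : X) ∈ Y ⊓ H := ⟨h1, h2⟩
      rw [hYH, Subgroup.mem_bot] at this
      rw [Subgroup.mem_bot]
      exact Subtype.ext this) (by
      rw [← Subgroup.subgroupOf_sup hHN ((hYK.trans hKT).trans hTN), hHY])
  have c1 : C'.map N.subtype ≤ N := Subgroup.map_subtype_le _
  have c2 : C'.map N.subtype ⊓ H = ⊥ := by
    rw [eq_bot_iff]
    rintro _ ⟨⟨n, hn, rfl⟩, hnH⟩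
    have h3 : n ∈ H.subgroupOf N ⊓ C' := ⟨hnH, hn⟩
    rw [hC'.disjoint.eq_bot, Subgroup.mem_bot] at h3
    rw [Subgroup.mem_bot, h3]
    rfl
  have c3 : H ⊔ C'.map N.subtype = N := by
    have h3 := congrArg (Subgroup.map N.subtype) hC'.sup_eq_top
    rw [Subgroup.map_sup, Subgroup.map_subgroupOf_eq_of_le hHN, ← MonoidHom.range_eq_map, Subgroup.range_subtype] at h3
    exact h3
  refine ⟨C'.map N.subtype, hN ▸ c1, c2, hN ▸ c3, ?_⟩
  obtain ⟨CL, d1, d2, d3, ⟨e⟩⟩ := hf.fC
  obtain ⟨C, hCdef⟩ : ∃ C, C = C'.map N.subtype := ⟨_, rfl⟩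
  rw [← hCdef] at c1 c2 c3 ⊢
  have hinj : Function.Injective (φ.comp C.subtype) := by
    rw [injective_iff_map_eq_one]
    intro c hc
    have h3 : (c : X) ∈ center X := by rw [← hker]; exact hc
    have h4 : (c : X) ∈ C ⊓ H := ⟨c.2, hZH h3⟩
    rw [c2, Subgroup.mem_bot] at h4
    exact Subtype.ext h4
  have hrange : (φ.comp C.subtype).range = C.map φ := by
    rw [MonoidHom.range_comp, Subgroup.range_subtype]
  have m1 : C.map φ ≤ normalizer ((H.map φ : Subgroup L) : Set L) := by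
    rintro _ ⟨c, hc, rfl⟩
    rw [← norm_iff φ hφ hker H hZH, ← hN]
    exact c1 hc
  have m2 : C.map φ ⊓ H.map φ = ⊥ := by
    rw [eq_bot_iff]
    rintro _ ⟨⟨c, hc, rfl⟩, hcH⟩
    have h3 : c ∈ C ⊓ H := ⟨hc, mem_of_map φ hker hZH hcH⟩
    rw [c2, Subgroup.mem_bot] at h3
    rw [Subgroup.mem_bot, h3, map_one]
  have m3 : H.map φ ⊔ C.map φ = normalizer ((H.map φ : Subgroup L) : Set L) := by
    rw [← Subgroup.map_sup, c3]
    ext l
    obtain ⟨x, rfl⟩ := hφ l
    constructor
    · rintro ⟨y, hy, hyx⟩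
      rw [← hyx, ← norm_iff φ hφ hker H hZH, ← hN]
      exact hy
    · intro h
      rw [← norm_iff φ hφ hker H hZH, ← hN] at h
      exact ⟨x, h, rfl⟩
  obtain ⟨e'⟩ := two_compl _ _ _ m1 m2 m3 d1 d2 d3
  exact ⟨((MonoidHom.ofInjective hinj).trans (MulEquiv.subgroupCongr hrange)).trans (e'.trans e)⟩

end

end H98.Cov4c
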