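import Mathlib
import Cfsg.Agent.Lib.H5.ZStar

set_option autoImplicit false

/-! Simple groups with an involution whose centralizer has few involutions; uses the `Z*`-theorem. -/

namespace H98.FewInvol

open Cfsg

theorem exists_commuting {G : Type*} [Group G] [Finite G] {a b : G} (ha : orderOf a = 2) (hb : orderOf b = 2)
    (h : ¬ Odd (orderOf (a * b))) : ∃ z : G, orderOf z = 2 ∧ z * a = a * z ∧ z * b = b * z := by
  have ha' := H5.Dihedral.mul_self ha
  have hb' := H5.Dihedral.mul_self hb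
  rw [Nat.not_odd_iff_even] at h
  obtain ⟨k, hk⟩ := h
  have hpos : 0 < orderOf (a * b) := orderOf_pos _
  have hk0 : k ≠ 0 := by rintro rfl; omega
  refine ⟨(a * b) ^ k, ?_, ?_, ?_⟩
  · rw [orderOf_pow' _ hk0, hk, Nat.gcd_eq_right ⟨2, by ring⟩]
    rw [← two_mul, Nat.mul_div_cancel _ (by omega)]
  · have h1 := H5.Dihedral.mul_zpow_left ha' hb' (k : ℤ)
    rw [zpow_natCast] at h1
    rw [h1]
    congr 1
    rw [zpow_neg, zpow_natCast, eq_comm, inv_eq_iff_mul_eq_one, ← pow_add, ← hk, pow_orderOf_eq_one]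
  · have h1 : b * (a * b) ^ k * b⁻¹ = ((a * b)⁻¹) ^ k := by
      rw [← conj_pow, H5.Dihedral.conj_right ha' hb']
    have h2 : ((a * b)⁻¹) ^ k = (a * b) ^ k := by
      rw [inv_pow, inv_eq_iff_mul_eq_one, ← pow_add, ← hk, pow_orderOf_eq_one]
    rw [h2] at h1
    calc (a * b) ^ k * b = (b * (a * b) ^ k * b⁻¹) * b := by rw [h1]
      _ = b * (a * b) ^ k := by group

variable {G : Type*} [Group G] [Finite G] [IsSimpleGroup G]

/-- In a nonabelian simple group no involution is isolated. -/
theorem exists_conj (hab : ¬ ∀ a b : G, a * b = b * a) (S : Sylow 2 G) (u : G) (hu : orderOf u = 2) :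
    ∃ g : G, g * u * g⁻¹ ∈ S ∧ g * u * g⁻¹ ≠ u := by
  by_contra hcon
  push Not at hcon
  have h := H5.ZStar.sylow_form S u hu hcon
  have hn : (pPrimeCore 2 G).Normal := H1.Cores.pPrimeCore_normal 2
  have hcop : (Nat.card (pPrimeCore 2 G)).Coprime 2 := H1.Cores.coprime_card_pPrimeCore 2
  rcases hn.eq_bot_or_eq_top with h1 | h1
  · have hc : ∀ g : G, u * g = g * u := by
      intro g
      have h2 := h g
      rw [h1, Subgroup.mem_bot] at h2
      calc u * g = (u * g * u⁻¹ * g⁻¹) * (g * u) := by group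
        _ = g * u := by rw [h2, one_mul]
    have hcen : u ∈ Subgroup.center G := Subgroup.mem_center_iff.mpr fun g => (hc g).symm
    rcases (inferInstance : (Subgroup.center G).Normal).eq_bot_or_eq_top with h2 | h2
    · rw [h2, Subgroup.mem_bot] at hcen
      exact H5.Dihedral.ne_one hu hcen
    · apply hab
      intro a b
      have : a ∈ Subgroup.center G := by rw [h2]; exact Subgroup.mem_top _
      exact (Subgroup.mem_center_iff.mp this b).symm
  · rw [h1, Subgroup.card_top] at hcop
    have : 2 ∣ Nat.card G := by rw [← hu]; exact orderOf_dvd_natCard u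
    have := Nat.Coprime.eq_one_of_dvd hcop.symm this
    omega

/-- pairwise commuting conjugates of a nontrivial element -/
theorem abelian_of_commuting (y : G) (hy : y ≠ 1) (h : ∀ g : G, y * (g * y * g⁻¹) = (g * y * g⁻¹) * y) :
    ∀ a b : G, a * b = b * a := by
  have hcomm : ∀ a ∈ Subgroup.normalClosure ({y} : Set G), ∀ b ∈ Subgroup.normalClosure ({y} : Set G), a * b = b * a := by
    have h1 : ∀ a ∈ Group.conjugatesOfSet ({y} : Set G), ∀ b ∈ Group.conjugatesOfSet ({y} : Set G), a * b = b * a := by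
      intro a ha b hb
      rw [Group.mem_conjugatesOfSet_iff] at ha hb
      obtain ⟨_, rfl, ha⟩ := ha
      obtain ⟨_, rfl, hb⟩ := hb
      obtain ⟨g, rfl⟩ := isConj_iff.mp ha
      obtain ⟨k, rfl⟩ := isConj_iff.mp hb
      rename_i y
      have h2 := h (g⁻¹ * k)
      calc g * y * g⁻¹ * (k * y * k⁻¹) = g * (y * ((g⁻¹ * k) * y * (g⁻¹ * k)⁻¹)) * g⁻¹ := by group
        _ = g * (((g⁻¹ * k) * y * (g⁻¹ * k)⁻¹) * y) * g⁻¹ := by rw [h2]
        _ = k * y * k⁻¹ * (g * y * g⁻¹) := by group
    have h2 : Subgroup.normalClosure ({y} : Set G) ≤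
        Subgroup.centralizer (Subgroup.centralizer (Group.conjugatesOfSet ({y} : Set G)) : Set G) := by
      unfold Subgroup.normalClosure
      rw [Subgroup.closure_le]
      intro a ha
      show a ∈ Subgroup.centralizer _
      rw [Subgroup.mem_centralizer_iff]
      intro c hc
      exact (Subgroup.mem_centralizer_iff.mp hc a ha).symm
    have h3 : Subgroup.normalClosure ({y} : Set G) ≤ Subgroup.centralizer (Group.conjugatesOfSet ({y} : Set G)) := by
      unfold Subgroup.normalClosure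
      rw [Subgroup.closure_le]
      intro a ha
      show a ∈ Subgroup.centralizer _
      rw [Subgroup.mem_centralizer_iff]
      intro c hc
      exact h1 c hc a ha
    intro a ha b hb
    exact (Subgroup.mem_centralizer_iff.mp (h2 hb) a (h3 ha))
  rcases (Subgroup.normalClosure_normal (s := ({y} : Set G))).eq_bot_or_eq_top with h1 | h1
  · exfalso
    apply hy
    have : y ∈ Subgroup.normalClosure ({y} : Set G) := Subgroup.subset_normalClosure rfl
    rwa [h1, Subgroup.mem_bot] at this
  · intro a b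
    exact hcomm a (by rw [h1]; exact Subgroup.mem_top _) b (by rw [h1]; exact Subgroup.mem_top _)

theorem four {x : G} (h3 : {u : G | orderOf u = 2 ∧ u * x = x * u}.ncard ≤ 3) {a b c d : G}
    (ha : orderOf a = 2 ∧ a * x = x * a) (hb : orderOf b = 2 ∧ b * x = x * b) (hc : orderOf c = 2 ∧ c * x = x * c)
    (hd : orderOf d = 2 ∧ d * x = x * d) (hab : a ≠ b) (hac : a ≠ c) (hbc : b ≠ c) : d = a ∨ d = b ∨ d = c := by
  by_contra hcon
  push Not at hcon
  obtain ⟨h1, h2, h4⟩ := hcon
  have hsub : ({d, a, b, c} : Set G) ⊆ {u : G | orderOf u = 2 ∧ u * x = x * u} := by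
    rintro u (rfl | rfl | rfl | rfl)
    exacts [hd, ha, hb, hc]
  have h5 := Set.ncard_le_ncard hsub (Set.toFinite _)
  have h6 : ({d, a, b, c} : Set G).ncard = 4 := by
    rw [Set.ncard_insert_of_notMem, Set.ncard_insert_of_notMem, Set.ncard_pair hbc]
    · simp [hab, hac]
    · simp [h1, h2, h4]
  omega

theorem four' {x : G} (h3 : {u : G | orderOf u = 2 ∧ u * x = x * u}.ncard ≤ 3) (g : G) {a b c d : G}
    (ha : orderOf a = 2 ∧ a * (g * x * g⁻¹) = (g * x * g⁻¹) * a) (hb : orderOf b = 2 ∧ b * (g * x * g⁻¹) = (g * x * g⁻¹) * b)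
    (hc : orderOf c = 2 ∧ c * (g * x * g⁻¹) = (g * x * g⁻¹) * c)
    (hd : orderOf d = 2 ∧ d * (g * x * g⁻¹) = (g * x * g⁻¹) * d) (hab : a ≠ b) (hac : a ≠ c) (hbc : b ≠ c) :
    d = a ∨ d = b ∨ d = c := by
  have key : ∀ u : G, (orderOf u = 2 ∧ u * (g * x * g⁻¹) = (g * x * g⁻¹) * u) →
      (orderOf (g⁻¹ * u * g⁻¹⁻¹) = 2 ∧ (g⁻¹ * u * g⁻¹⁻¹) * x = x * (g⁻¹ * u * g⁻¹⁻¹)) := by
    rintro u ⟨h1, h2⟩
    refine ⟨by rw [H5.Dihedral.orderOf_conj]; exact h1, ?_⟩
    calc g⁻¹ * u * g⁻¹⁻¹ * x = g⁻¹ * (u * (g * x * g⁻¹)) * g := by group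
      _ = g⁻¹ * ((g * x * g⁻¹) * u) * g := by rw [h2]
      _ = x * (g⁻¹ * u * g⁻¹⁻¹) := by group
  have hinj : Function.Injective (fun u : G => g⁻¹ * u * g⁻¹⁻¹) := (MulAut.conj g⁻¹).injective
  rcases four h3 (key a ha) (key b hb) (key c hc) (key d hd) (hinj.ne hab) (hinj.ne hac) (hinj.ne hbc) with h | h | h
  · exact Or.inl (hinj h)
  · exact Or.inr (Or.inl (hinj h))
  · exact Or.inr (Or.inr (hinj h))

theorem main (hab : ¬ ∀ a b : G, a * b = b * a) (x : G) (hx : orderOf x = 2)
    (h3 : {u : G | orderOf u = 2 ∧ u * x = x * u}.ncard ≤ 3) :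
    (∃ S : Sylow 2 G, (S : Subgroup G) ≤ Subgroup.centralizer ({x} : Set G)) ∧
      ∀ u v : G, orderOf u = 2 → orderOf v = 2 → IsConj u v := by
  classical
  have hxx := H5.Dihedral.mul_self hx
  set C := Subgroup.centralizer ({x} : Set G) with hC
  have hCmem : ∀ g : G, g ∈ C ↔ g * x = x * g := by
    intro g
    rw [hC, Subgroup.mem_centralizer_iff]
    constructor
    · intro h; exact (h x rfl).symm
    · rintro h _ rfl; exact h.symm
  have hxC : x ∈ C := (hCmem x).mpr rfl
  -- a Sylow subgroup of `C` containing `x`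
  have hxp : IsPGroup 2 (Subgroup.zpowers (⟨x, hxC⟩ : C)) := by
    rw [IsPGroup.iff_card]
    refine ⟨1, ?_⟩
    rw [Nat.card_zpowers, ← Subgroup.orderOf_coe]
    simpa using hx
  obtain ⟨T0, hT0⟩ := hxp.exists_le_sylow
  have hPp : IsPGroup 2 ((T0 : Subgroup C).map C.subtype) := T0.isPGroup'.map _
  obtain ⟨S, hS⟩ := hPp.exists_le_sylow
  have hST : ∀ s ∈ S, ∀ hs : s ∈ C, (⟨s, hs⟩ : C) ∈ T0 := by
    intro s hs hsC
    have h1 : IsPGroup 2 ((S : Subgroup G).subgroupOf C) := S.isPGroup'.comap_subtype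
    have h2 : (T0 : Subgroup C) ≤ (S : Subgroup G).subgroupOf C := by
      intro t ht
      exact hS ⟨t, ht, rfl⟩
    have h3 := T0.is_maximal' h1 h2
    have h4 : (⟨s, hsC⟩ : C) ∈ (S : Subgroup G).subgroupOf C := hs
    rw [h3] at h4
    exact h4
  have hxS : x ∈ S := hS ⟨⟨x, hxC⟩, hT0 (Subgroup.mem_zpowers _), rfl⟩
  have hSC : (S : Subgroup G) ≤ C := by
    by_contra hSC
    -- normalizers grow
    haveI hnil : Group.IsNilpotent S := S.isPGroup'.isNilpotent
    obtain ⟨n, hnS, hnC, hnT⟩ : ∃ n ∈ S, n ∉ C ∧ ∀ t ∈ S, t ∈ C → n * t * n⁻¹ ∈ C := by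
      have h1 : C.subgroupOf (S : Subgroup G) < ⊤ := by
        rw [lt_top_iff_ne_top, Ne, Subgroup.subgroupOf_eq_top]
        exact hSC
      have h2 := (Group.normalizerCondition_of_isNilpotent (G := S)) _ h1
      obtain ⟨n, hn, hnC⟩ := Set.exists_of_ssubset h2
      refine ⟨n, n.2, hnC, fun t htS htC => ?_⟩
      have := (Subgroup.mem_normalizer_iff.mp hn ⟨t, htS⟩).mp htC
      exact this
    -- a central involution of `S`
    obtain ⟨y, hyS, hy, hyc⟩ : ∃ y ∈ S, orderOf y = 2 ∧ ∀ s ∈ S, y * s = s * y := by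
      haveI hnt : Nontrivial S := ⟨⟨⟨x, hxS⟩, 1, fun h => H5.Dihedral.ne_one hx (congrArg Subtype.val h)⟩⟩
      have hcn : Nontrivial (Subgroup.center S) := S.isPGroup'.center_nontrivial
      have hcp : IsPGroup 2 (Subgroup.center S) := S.isPGroup'.to_subgroup _
      have h2 : 2 ∣ Nat.card (Subgroup.center S) := by
        obtain ⟨k, hk⟩ := IsPGroup.iff_card.mp hcp
        have h1 : 1 < Nat.card (Subgroup.center S) := Finite.one_lt_card
        rw [hk] at h1 ⊢
        exact dvd_pow_self 2 (by rintro rfl; simp at h1)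
      obtain ⟨z, hz⟩ := exists_prime_orderOf_dvd_card' 2 h2
      refine ⟨((z : S) : G), (z : S).2, ?_, ?_⟩
      · rw [Subgroup.orderOf_coe, Subgroup.orderOf_coe, hz]
      · intro s hs
        have := Subgroup.mem_center_iff.mp z.2 ⟨s, hs⟩
        exact (congrArg Subtype.val this).symm
    have hyy := H5.Dihedral.mul_self hy
    -- `x` and `y` are not conjugate
    have hxy : ∀ g : G, g * x * g⁻¹ ≠ y := by
      intro g hg
      have h1 : ∀ s ∈ S, g⁻¹ * s * g ∈ C := by
        intro s hs
        rw [hCmem]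
        have h2 := hyc s hs
        rw [← hg] at h2
        calc g⁻¹ * s * g * x = g⁻¹ * (s * (g * x * g⁻¹)) * g := by group
          _ = g⁻¹ * ((g * x * g⁻¹) * s) * g := by rw [h2]
          _ = x * (g⁻¹ * s * g) := by group
      let f : S →* C := { toFun := fun s => ⟨g⁻¹ * s * g, h1 s s.2⟩
                          map_one' := by apply Subtype.ext; simp
                          map_mul' := by
                            intro a b
                            apply Subtype.ext
                            show g⁻¹ * ((a : G) * b) * g = g⁻¹ * a * g * (g⁻¹ * b * g)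
                            group }
      have hf : Function.Injective f := by
        intro a b hab
        have h2 : g⁻¹ * (a : G) * g = g⁻¹ * b * g := congrArg Subtype.val hab
        apply Subtype.ext
        simpa using h2
      have hfp : IsPGroup 2 f.range := S.isPGroup'.of_surjective f.rangeRestrict f.rangeRestrict_surjective
      obtain ⟨Q, hQ⟩ := hfp.exists_le_sylow
      have h2 : Nat.card S ≤ Nat.card Q := by
        rw [Nat.card_congr (MonoidHom.ofInjective hf).toEquiv]
        exact Subgroup.card_le_of_le hQ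
      have h3 : Nat.card Q = Nat.card T0 := Nat.card_congr (Q.equiv T0).toEquiv
      have h4 : Nat.card ((T0 : Subgroup C).map C.subtype) = Nat.card T0 :=
        (Nat.card_congr ((T0 : Subgroup C).equivMapOfInjective C.subtype C.subtype_injective).toEquiv).symm
      have h5 : (T0 : Subgroup C).map C.subtype = S := by
        apply Subgroup.eq_of_le_of_card_ge hS
        rw [h4, ← h3]
        exact h2
      apply hSC
      rw [← h5]
      exact Subgroup.map_subtype_le _
    have hyC : y ∈ C := (hCmem y).mpr (hyc x hxS)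
    set x' := n * x * n⁻¹ with hx'
    have hx'o : orderOf x' = 2 := by rw [hx', H5.Dihedral.orderOf_conj]; exact hx
    have hx'C : x' ∈ C := hnT x hxS hxC
    have hx'x : x' ≠ x := by
      intro h
      apply hnC
      rw [hCmem]
      rw [hx', mul_inv_eq_iff_eq_mul] at h
      exact h
    have hyx : y ≠ x := fun h => hxy 1 (by rw [h]; group)
    have hx'y : x' ≠ y := hxy n
    have hI : ∀ u : G, orderOf u = 2 → u ∈ C → orderOf u = 2 ∧ u * x = x * u := fun u h1 h2 => ⟨h1, (hCmem u).mp h2⟩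
    have hxyC : x * y ∈ C := C.mul_mem hxC hyC
    have hcxy : x * y = y * x := (hyc x hxS).symm
    have hxyo : orderOf (x * y) = 2 := by
      apply H5.Dihedral.orderOf_eq_two
      · calc x * y * (x * y) = x * (y * x) * y := by group
          _ = (x * x) * (y * y) := by rw [← hcxy]; group
          _ = 1 := by rw [hxx, hyy, one_mul]
      · intro h
        apply hyx
        calc y = x⁻¹ * (x * y) := by group
          _ = x := by rw [h, mul_one, H5.Dihedral.inv_eq_self hx]
    have hxyx' : x * y = x' := by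
      rcases four h3 (hI x hx hxC) (hI y hy hyC) (hI x' hx'o hx'C) (hI (x * y) hxyo hxyC) hyx.symm hx'x.symm hx'y.symm with h | h | h
      · exfalso; exact H5.Dihedral.ne_one hy (by simpa using h)
      · exfalso; exact H5.Dihedral.ne_one hx (by simpa using h)
      · exact h
    -- all involutions centralizing a conjugate of `x`
    have hcl : ∀ (g : G) (u : G), orderOf u = 2 → u * (g * x * g⁻¹) = (g * x * g⁻¹) * u →
        u = g * x * g⁻¹ ∨ u = g * y * g⁻¹ ∨ u = g * (x * y) * g⁻¹ := by
      intro g u hu huc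
      refine four' h3 g ⟨by rw [H5.Dihedral.orderOf_conj]; exact hx, rfl⟩
        ⟨by rw [H5.Dihedral.orderOf_conj]; exact hy, ?_⟩ ⟨by rw [H5.Dihedral.orderOf_conj]; exact hxyo, ?_⟩ ⟨hu, huc⟩ ?_ ?_ ?_
      · calc g * y * g⁻¹ * (g * x * g⁻¹) = g * (y * x) * g⁻¹ := by group
          _ = g * x * g⁻¹ * (g * y * g⁻¹) := by rw [← hcxy]; group
      · calc g * (x * y) * g⁻¹ * (g * x * g⁻¹) = g * x * (y * x) * g⁻¹ := by group
          _ = g * x * g⁻¹ * (g * (x * y) * g⁻¹) := by rw [← hcxy]; group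
      · exact (MulAut.conj g).injective.ne hyx.symm
      · refine (MulAut.conj g).injective.ne ?_
        intro h
        exact H5.Dihedral.ne_one hy (by simpa using h.symm)
      · refine (MulAut.conj g).injective.ne ?_
        intro h
        exact H5.Dihedral.ne_one hx (by simpa using h.symm)
    -- all conjugates of `y` commute with `y`
    apply hab
    apply abelian_of_commuting y (H5.Dihedral.ne_one hy)
    intro g
    have hodd : ¬ Odd (orderOf (y * (g * x * g⁻¹))) := by
      intro h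
      have hgx : (g * x * g⁻¹) * (g * x * g⁻¹) = 1 := H5.Dihedral.mul_self (by rw [H5.Dihedral.orderOf_conj]; exact hx)
      obtain ⟨d, -, hd⟩ := H5.Dihedral.conj_of_odd hyy hgx h
      apply hxy (d⁻¹ * g)
      calc d⁻¹ * g * x * (d⁻¹ * g)⁻¹ = d⁻¹ * (g * x * g⁻¹) * d := by group
        _ = d⁻¹ * (d * y * d⁻¹) * d := by rw [hd]
        _ = y := by group
    obtain ⟨z, hz, hzy, hzx⟩ := exists_commuting hy (by rw [H5.Dihedral.orderOf_conj]; exact hx : orderOf (g * x * g⁻¹) = 2) hodd
    -- `y` commuting with a conjugate of `x` is the associated central one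
    have hfin : ∀ k : G, y * (k * x * k⁻¹) = (k * x * k⁻¹) * y → y = k * y * k⁻¹ := by
      intro k hk
      rcases hcl k y hy hk with h | h | h
      · exact absurd h.symm (hxy k)
      · exact h
      · exfalso
        apply hxy (k * n)
        rw [h, hxyx', hx']
        group
    rcases hcl g z hz hzx with h | h | h
    · rw [h] at hzy
      rw [← hfin g hzy.symm]
    · rw [h] at hzy
      exact hzy.symm
    · have h1 : z = (g * n) * x * (g * n)⁻¹ := by rw [h, hxyx', hx']; group
      rw [h1] at hzy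
      have h2 := hfin (g * n) hzy.symm
      have h3 : (g * n) * y * (g * n)⁻¹ = g * y * g⁻¹ := by
        calc (g * n) * y * (g * n)⁻¹ = g * (n * y) * n⁻¹ * g⁻¹ := by group
          _ = g * y * g⁻¹ := by rw [← hyc n hnS]; group
      rw [h3] at h2
      rw [← h2]
  refine ⟨⟨S, hSC⟩, ?_⟩
  -- all involutions of `S` are conjugate
  have hSI : ∀ u ∈ S, orderOf u = 2 → orderOf u = 2 ∧ u * x = x * u := fun u hu h => ⟨h, (hCmem u).mp (hSC hu)⟩
  have hJ : ∀ u ∈ S, ∀ v ∈ S, orderOf u = 2 → orderOf v = 2 → IsConj u v := by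
    intro u huS v hvS hu hv
    by_contra hne
    obtain ⟨g, hg, hgu⟩ := exists_conj hab S u hu
    obtain ⟨k, hk, hkv⟩ := exists_conj hab S v hv
    have hgo : orderOf (g * u * g⁻¹) = 2 := by rw [H5.Dihedral.orderOf_conj]; exact hu
    have hko : orderOf (k * v * k⁻¹) = 2 := by rw [H5.Dihedral.orderOf_conj]; exact hv
    have c1 : IsConj u (g * u * g⁻¹) := isConj_iff.mpr ⟨g, rfl⟩
    have c2 : IsConj v (k * v * k⁻¹) := isConj_iff.mpr ⟨k, rfl⟩
    rcases four h3 (hSI u huS hu) (hSI _ hg hgo) (hSI v hvS hv) (hSI _ hk hko) hgu.symm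
      (fun h => hne (by rw [h])) (fun h => hne (by rw [← h]; exact c1)) with h | h | h
    · exact hne (by rw [h] at c2; exact c2.symm)
    · exact hne (c1.trans (by rw [h] at c2; exact c2.symm))
    · exact hkv h
  have hconjS : ∀ u : G, orderOf u = 2 → ∃ u' ∈ S, orderOf u' = 2 ∧ IsConj u u' := by
    intro u hu
    have hup : IsPGroup 2 (Subgroup.zpowers u) := by
      rw [IsPGroup.iff_card]
      exact ⟨1, by rw [Nat.card_zpowers, hu]; rfl⟩
    obtain ⟨Q, hQ⟩ := hup.exists_le_sylow
    obtain ⟨g, hg⟩ := MulAction.exists_smul_eq G Q S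
    refine ⟨g * u * g⁻¹, ?_, by rw [H5.Dihedral.orderOf_conj]; exact hu, isConj_iff.mpr ⟨g, rfl⟩⟩
    rw [← hg]
    exact Subgroup.smul_mem_pointwise_smul _ (MulAut.conj g) _ (hQ (Subgroup.mem_zpowers u))
  intro u v hu hv
  obtain ⟨u', hu'S, hu', hcu⟩ := hconjS u hu
  obtain ⟨v', hv'S, hv', hcv⟩ := hconjS v hv
  exact hcu.trans ((hJ u' hu'S v' hv'S hu' hv').trans hcv.symm)

end H98.FewInvol
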