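import Mathlib
import Cfsg.Prelude.Def_Blocks
import Cfsg.Agent.Lib.H79.PPrime
import Cfsg.Agent.Lib.H81.PrincPSolv
import Cfsg.Agent.Lib.H28.RelHall
import Cfsg.Agent.S4444
import Cfsg.Agent.S0897
import Cfsg.Agent.Lib.H1.Coprime2
import Cfsg.Agent.Lib.H27.Gen

set_option autoImplicit false

/-! `p'`-degree characters and invariant characters. -/

namespace H98.PqA

open Cfsg Subgroup H31.Clifford H18.CharBasic H18.CharOrtho H18.CharQuot H18.CharInd H81.DegNormal

universe u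

variable {G : Type u} [Group G] [Finite G] {p q : ℕ}

/-- all characters of degree prime to `p` have degree prime to `q` -/
def FF (p q : ℕ) (G : Type u) [Group G] : Prop :=
  ∀ χ : IrrCharacter G, ¬ p ∣ charDegree (χ : G → ℂ) → ¬ q ∣ charDegree (χ : G → ℂ)

/-- the same for the characters trivial on `O_{p'}(G)` -/
def Cond (p q : ℕ) (G : Type u) [Group G] : Prop :=
  ∀ χ : IrrCharacter G, (∀ n ∈ pPrimeCore p G, (χ : G → ℂ) n = (χ : G → ℂ) 1) →
    ¬ p ∣ charDegree (χ : G → ℂ) → ¬ q ∣ charDegree (χ : G → ℂ)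

theorem FF.quotient (h : FF p q G) (N : Subgroup G) [N.Normal] : FF p q (G ⧸ N) :=
  fun χ h1 => h (H20.NormQ.infl N χ) h1

theorem Cond.quotient (h : Cond p q G) (N : Subgroup G) [N.Normal] : Cond p q (G ⧸ N) := by
  intro χ hχ h1
  refine h (H20.NormQ.infl N χ) ?_ h1
  intro n hn
  have h2 := H1.Cores.map_pPrimeCore_le p (QuotientGroup.mk' N) (QuotientGroup.mk'_surjective N)
  exact hχ _ (h2 ⟨n, hn, rfl⟩)

theorem Cond.ff (h : Cond p q G) (hG : pPrimeCore p G = ⊥) : FF p q G := by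
  intro χ h1
  refine h χ ?_ h1
  intro n hn
  rw [hG, Subgroup.mem_bot] at hn
  rw [hn]

theorem inertia_index_dvd (N : Subgroup G) [N.Normal] [Fintype N] (χ : IrrCharacter G) {θ : N → ℂ} (hθ : IsIrrCharacter N θ)
    (hne : classInner (fun n : N => (χ : G → ℂ) n) θ ≠ 0) : (inertia N θ).index ∣ charDegree (χ : G → ℂ) := by
  letI := Fintype.ofFinite G
  have h1 := degree_eq N χ.2 hθ hne
  obtain ⟨m, hm⟩ := inner_char_natCast (isCharacter_restrict N (isCharacter_of_isIrr χ.2)) (isCharacter_of_isIrr hθ)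
  refine ⟨m * charDegree θ, ?_⟩
  have h2 : (charDegree (χ : G → ℂ) : ℂ) = ((inertia N θ).index : ℂ) * (m * charDegree θ) := by
    rw [← H81.DegreeCount.irr_one_eq χ, h1, hm, ← H81.DegreeCount.irr_one_eq ⟨θ, hθ⟩]
    ring
  exact_mod_cast h2

/-- going over: if the restriction of `β ∈ Irr(H)` to `N ≤ H` is `θ` then everything over `β` is over `θ` -/
theorem over_trans {H N : Subgroup G} [Fintype H] [Fintype N] (hNH : N ≤ H) {χ : G → ℂ} (hχ : IsCharacter G χ) {β : H → ℂ}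
    (hβ : IsIrrCharacter H β) {θ : N → ℂ} (hθ : IsIrrCharacter N θ) (hres : ∀ n : N, β ⟨n, hNH n.2⟩ = θ n)
    (hne : classInner (fun x : H => χ x) β ≠ 0) : classInner (fun x : N => χ x) θ ≠ 0 := by
  have h1 := isCharacter_sub_constituent (isCharacter_restrict H hχ) hβ hne
  have h2 : IsCharacter N (fun n : N => ((fun x : H => χ x) - β) ⟨n, hNH n.2⟩) := isCharacter_comp (Subgroup.inclusion hNH) h1
  obtain ⟨m, hm⟩ := inner_char_natCast h2 (isCharacter_of_isIrr hθ)
  have h3 : (fun x : N => χ x) = (fun n : N => ((fun x : H => χ x) - β) ⟨n, hNH n.2⟩) + θ := by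
    funext n
    show χ n = (χ n - β ⟨n, hNH n.2⟩) + θ n
    rw [hres]; ring
  rw [h3, H18.CharOrtho.inner_add_left, hm, inner_irr_self hθ]
  intro h4
  have h5 : ((m + 1 : ℕ) : ℂ) = 0 := by push_cast; exact h4
  exact absurd (Nat.cast_eq_zero.mp h5) (by omega)

/-- the inertia index is prime to `q` when `θ` extends to a subgroup of `p'`-index -/
theorem inertia_of_ext [hp : Fact p.Prime] (hF : FF p q G) (N H : Subgroup G) [N.Normal] [Fintype N] [Fintype H] (hNH : N ≤ H)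
    (hH : ¬ p ∣ H.index) {β : H → ℂ} (hβ : IsIrrCharacter H β) {e : ℕ} (he : ¬ p ∣ e) (hβe : β 1 = e) {θ : N → ℂ}
    (hθ : IsIrrCharacter N θ) (hres : ∀ n : N, β ⟨n, hNH n.2⟩ = θ n) : ¬ q ∣ (inertia N θ).index := by
  letI := Fintype.ofFinite G
  obtain ⟨χ, hχ, ⟨d, hd, hχd⟩, hne⟩ := H79.PPrime.exists_over_pprime hp.out H hH hβ he hβe
  have h1 : ¬ p ∣ charDegree ((⟨χ, hχ⟩ : IrrCharacter G) : G → ℂ) := by
    rw [H79.Deg.charDegree_of_natCast hχd]; exact hd
  have h2 := hF ⟨χ, hχ⟩ h1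
  intro h3
  exact h2 (h3.trans (inertia_index_dvd N ⟨χ, hχ⟩ hθ (over_trans hNH (isCharacter_of_isIrr hχ) hβ hθ hres hne)))

/-- coprime extension to `JP` -/
theorem exists_ext [hp : Fact p.Prime] (J P : Subgroup G) [hJ : J.Normal] (hJp : ¬ p ∣ Nat.card J) (hP : IsPGroup p P)
    {θ : J → ℂ} (hθ : IsIrrCharacter J θ) (hinv : P ≤ inertia J θ) :
    ∃ β : (J ⊔ P : Subgroup G) → ℂ, IsIrrCharacter (J ⊔ P : Subgroup G) β ∧ ∀ n : J, β ⟨n, (le_sup_left : J ≤ J ⊔ P) n.2⟩ = θ n := by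
  classical
  set H : Subgroup G := J ⊔ P with hH
  have hJH : J ≤ H := le_sup_left
  have hPH : P ≤ H := le_sup_right
  letI : Fintype H := Fintype.ofFinite H
  letI : Fintype G := Fintype.ofFinite G
  let N := J.subgroupOf H
  haveI hN : N.Normal := hJ.subgroupOf H
  have hind : ∃ k : ℕ, N.index = p ^ k := by
    obtain ⟨k, hk⟩ := IsPGroup.iff_card.mp hP
    have h1 : J.relIndex H ∣ Nat.card P := by
      have h2 : J.relIndex H = J.relIndex P := by
        rw [hH, sup_comm]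
        exact H28.RelHall.relIndex_sup_eq (Subgroup.le_normalizer_of_normal)
      rw [h2]
      exact Subgroup.relIndex_dvd_card J P
    rw [hk] at h1
    obtain ⟨j, -, hj⟩ := (Nat.dvd_prime_pow hp.out).mp h1
    exact ⟨j, hj⟩
  have hNcard : Nat.card N = Nat.card J := Nat.card_congr (Subgroup.subgroupOfEquivOfLe hJH).toEquiv
  obtain ⟨S⟩ : Nonempty (Sylow p H) := inferInstance
  have hSN : (S : Subgroup H) ⊓ N = ⊥ := by
    apply Disjoint.eq_bot
    apply Subgroup.disjoint_of_coprime_natCard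
    obtain ⟨k, hk⟩ := IsPGroup.iff_card.mp S.isPGroup'
    rw [hk, hNcard]
    exact Nat.Coprime.pow_left k ((Nat.Prime.coprime_iff_not_dvd hp.out).mpr hJp)
  let e : N →* J :=
    { toFun := fun x => ⟨((x : H) : G), Subgroup.mem_subgroupOf.1 x.2⟩
      map_one' := rfl
      map_mul' := fun _ _ => rfl }
  have he : Function.Surjective e := fun y => ⟨⟨⟨y, hJH y.2⟩, Subgroup.mem_subgroupOf.2 y.2⟩, rfl⟩
  have hθ' : IsIrrCharacter N (fun x => θ (e x)) := isIrrCharacter_comp e he hθ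
  have hHI : H ≤ inertia J θ := sup_le (le_inertia J (isClassFunction_of_isIrr hθ)) hinv
  obtain ⟨χ, hχ, hχN⟩ := Cfsg.Agent.S0897.result (G := H) p N hind S
    (by
      intro x hx y _
      rw [hSN, Subgroup.mem_bot] at hx
      rw [hx, one_mul, mul_one])
    (by
      intro lam _ hlam1
      refine ⟨fun _ => 1, isCharacter_of_isIrr (H81.DegreeCount.oneIrr (S : Subgroup H)).2, rfl, ?_⟩
      intro x
      have hx : x = 1 := by
        apply Subtype.ext
        have h5 : (S : Subgroup H) ⊓ N ≤ ⊥ := hSN.le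
        exact Subgroup.mem_bot.mp (h5 x.2)
      rw [hx, hlam1])
    (fun x => θ (e x)) hθ' (by
      intro g n
      have h1 := (mem_inertia_iff J).mp (hHI g.2) (e n)
      exact h1)
  refine ⟨χ, hχ, ?_⟩
  intro n
  exact hχN ⟨⟨n, hJH n.2⟩, Subgroup.mem_subgroupOf.2 n.2⟩

end H98.PqA
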