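import Mathlib
import Cfsg.Agent.Lib.H98.PqA

set_option autoImplicit false

/-! Uniqueness of the invariant Sylow `q`-subgroup. -/

namespace H98.PqB

open Cfsg Subgroup H31.Clifford H18.CharBasic H18.CharOrtho H18.CharQuot H18.CharInd H81.DegNormal H98.PqA H1.Coprime

universe u

variable {G : Type u} [Group G] [Finite G] {p q : ℕ}

theorem not_dvd_of_relIndex {I K : Subgroup G} [hK : K.Normal] (h : ¬ q ∣ I.index) : ¬ q ∣ I.relIndex K := by
  intro h1
  apply h
  have h2 := H28.RelHall.relIndex_sup_eq' (H := I) (N := K) Subgroup.le_normalizer_of_normal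
  rw [← h2] at h1
  exact h1.trans ⟨(I ⊔ K).index, (Subgroup.relIndex_mul_index (le_sup_left : I ≤ I ⊔ K)).symm⟩

/-- `P`-invariant characters are `Q`-invariant -/
theorem q_le_inertia [hp : Fact p.Prime] [hq : Fact q.Prime] (hF : FF p q G) (J P Q : Subgroup G) [hJ : J.Normal]
    (hJp : ¬ p ∣ Nat.card J) (hP : IsPGroup p P) (hPi : ¬ p ∣ P.index) (hQ : IsPGroup q Q) (hK : (J ⊔ Q).Normal)
    {θ : J → ℂ} (hθ : IsIrrCharacter J θ) (hinv : P ≤ inertia J θ) : Q ≤ inertia J θ := by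
  classical
  letI := Fintype.ofFinite J
  letI := Fintype.ofFinite G
  obtain ⟨β, hβ, hres⟩ := exists_ext J P hJp hP hθ hinv
  letI := Fintype.ofFinite (J ⊔ P : Subgroup G)
  obtain ⟨e, he⟩ := exists_degree (isCharacter_of_isIrr hθ)
  have hep : ¬ p ∣ e := by
    intro h
    apply hJp
    have h1 := H79.Deg.charDegree_dvd_card hθ
    rw [H79.Deg.charDegree_of_natCast he] at h1
    exact h.trans h1
  have hβe : β 1 = e := by
    rw [← he, ← hres 1]; rfl
  have hHi : ¬ p ∣ (J ⊔ P).index := by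
    intro h
    exact hPi (h.trans (Subgroup.index_dvd_of_le le_sup_right))
  have h1 := inertia_of_ext hF J (J ⊔ P) le_sup_left hHi hβ hep hβe hθ hres
  set I := inertia J θ with hI
  have hJI : J ≤ I := le_inertia J (isClassFunction_of_isIrr hθ)
  have h2 : ¬ q ∣ I.relIndex (J ⊔ Q) := not_dvd_of_relIndex h1
  have h3 : I.relIndex (J ⊔ Q) ∣ Nat.card Q := by
    have h4 : I.relIndex (J ⊔ Q) ∣ J.relIndex (J ⊔ Q) := Subgroup.relIndex_dvd_of_le_left _ hJI
    have h5 : J.relIndex (J ⊔ Q) = J.relIndex Q := by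
      rw [sup_comm]
      exact H28.RelHall.relIndex_sup_eq (Subgroup.le_normalizer_of_normal)
    rw [h5] at h4
    exact h4.trans (Subgroup.relIndex_dvd_card J Q)
  obtain ⟨k, hk⟩ := IsPGroup.iff_card.mp hQ
  rw [hk] at h3
  obtain ⟨j, -, hj⟩ := (Nat.dvd_prime_pow hq.out).mp h3
  have h6 : I.relIndex (J ⊔ Q) = 1 := by
    rcases Nat.eq_zero_or_pos j with h7 | h7
    · rw [hj, h7, pow_zero]
    · exact absurd (by rw [hj]; exact dvd_pow_self q h7.ne') h2
  exact le_sup_right.trans (Subgroup.relIndex_eq_one.mp h6)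

/-- `Q` centralizes `C_J(P)` -/
theorem q_centralizes [hp : Fact p.Prime] [hq : Fact q.Prime] (hF : FF p q G) (J P Q : Subgroup G) [hJ : J.Normal]
    (hJp : ¬ p ∣ Nat.card J) (hJq : ¬ q ∣ Nat.card J) (hP : IsPGroup p P) (hPi : ¬ p ∣ P.index) (hQ : IsPGroup q Q)
    (hK : (J ⊔ Q).Normal) (hPQ : Q ≤ centralizer (P : Set G)) :
    J ⊓ centralizer (P : Set G) ≤ centralizer (Q : Set G) := by
  classical
  letI : Fintype G := Fintype.ofFinite G
  letI : Fintype J := Fintype.ofFinite J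
  set C : Subgroup G := J ⊓ centralizer (P : Set G) with hC
  letI : Fintype C := Fintype.ofFinite C
  have hCJ : C ≤ J := inf_le_left
  have hcopP : (Nat.card J).Coprime (Nat.card P) := by
    obtain ⟨k, hk⟩ := IsPGroup.iff_card.mp hP
    rw [hk]
    exact (Nat.Coprime.pow_left k ((Nat.Prime.coprime_iff_not_dvd hp.out).mpr hJp)).symm
  have hcopQ : (Nat.card Q).Coprime (Nat.card C) := by
    obtain ⟨k, hk⟩ := IsPGroup.iff_card.mp hQ
    rw [hk]
    exact (Nat.Coprime.pow_left k ((Nat.Prime.coprime_iff_not_dvd hq.out).mpr (fun h => hJq (h.trans (Subgroup.card_dvd_of_le hCJ)))))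
  have hQC : Q ≤ normalizer (C : Set G) := by
    apply H1.Coprime.le_normalizer_of_conj_mem
    intro y hy c hc
    refine Subgroup.mem_inf.mpr ⟨hJ.conj_mem c (hCJ hc) y, ?_⟩
    rw [mem_centralizer_iff]
    intro x hx
    have h1 := (mem_centralizer_iff.mp hc.2) x hx
    have h2 := (mem_centralizer_iff.mp (hPQ hy)) x hx
    have h3 := (mem_centralizer_iff.mp (inv_mem (hPQ hy))) x hx
    calc x * (y * c * y⁻¹) = (x * y) * c * y⁻¹ := by group
      _ = y * (x * c) * y⁻¹ := by rw [h2]; group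
      _ = y * c * (x * y⁻¹) := by rw [h1]; group
      _ = y * c * y⁻¹ * x := by rw [h3]; group
  obtain ⟨g1, -, -, g4⟩ := Cfsg.Agent.S4444.result (Γ := G) J P (fun s _ g hg => hJ.conj_mem g hg s) hcopP p hp.out hP C hC hCJ
  -- all irreducible characters of `C` are `Q`-invariant
  have hinv : ∀ (β : IrrCharacter C) (y : G) (hy : y ∈ Q) (c : C), (β : C → ℂ) ⟨y * c * y⁻¹, conj_mem_of_le_normalizer hQC hy c.2⟩ = (β : C → ℂ) c := by
    intro β y hy
    obtain ⟨χ, hχP, m, hm, hpm⟩ := g4 β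
    obtain ⟨β₀, -, huniq⟩ := g1 χ hχP
    have e1 : β = β₀ := huniq β ⟨m, hm, hpm⟩
    let σ : C ≃* C :=
      { toFun := fun c => ⟨y * c * y⁻¹, conj_mem_of_le_normalizer hQC hy c.2⟩
        invFun := fun c => ⟨y⁻¹ * c * y, conj_mem_of_le_normalizer' hQC hy c.2⟩
        left_inv := fun c => Subtype.ext (by show y⁻¹ * (y * c * y⁻¹) * y = c; group)
        right_inv := fun c => Subtype.ext (by show y * (y⁻¹ * c * y) * y⁻¹ = c; group)
        map_mul' := fun a b => Subtype.ext (by show y * (a * b) * y⁻¹ = (y * a * y⁻¹) * (y * b * y⁻¹); group) }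
    have hβ' : IsIrrCharacter C (fun c => (β : C → ℂ) (σ c)) := isIrrCharacter_comp σ.toMonoidHom σ.surjective β.2
    have hχQ : Q ≤ inertia J (χ : J → ℂ) := by
      apply q_le_inertia hF J P Q hJp hP hPi hQ hK χ.2
      intro s hs
      rw [mem_inertia_iff]
      intro h
      exact hχP s hs h _ rfl
    have e2 : (⟨fun c => (β : C → ℂ) (σ c), hβ'⟩ : IrrCharacter C) = β₀ := by
      apply huniq
      refine ⟨m, ?_, hpm⟩
      rw [← hm]
      have h1 : (fun c : C => (χ : J → ℂ) ⟨c, hCJ c.2⟩) = fun c : C => (fun c : C => (χ : J → ℂ) ⟨c, hCJ c.2⟩) (σ.toMonoidHom c) := by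
        funext c
        exact ((mem_inertia_iff J).mp (hχQ hy) ⟨c, hCJ c.2⟩).symm
      have h2 := H79.Ovr.inner_comp_surj (π := σ.toMonoidHom) σ.surjective (fun c : C => (χ : J → ℂ) ⟨c, hCJ c.2⟩) (β : C → ℂ)
      exact (congrArg (fun F' => classInner F' (fun c => (β : C → ℂ) (σ c))) h1).trans h2
    intro c
    have e3 : (⟨fun c => (β : C → ℂ) (σ c), hβ'⟩ : IrrCharacter C) = β := e2.trans e1.symm
    exact congrFun (congrArg Subtype.val e3) c
  -- conjugacy
  have hconj : ∀ (c : C) (y : G) (hy : y ∈ Q), ∃ k : C, (k : G) * c * (k : G)⁻¹ = y * c * y⁻¹ := by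
    intro c y hy
    have h1 : IsConj c ⟨y * c * y⁻¹, conj_mem_of_le_normalizer hQC hy c.2⟩ := by
      rw [isConj_iff_char]
      intro β
      exact (hinv β y hy c).symm
    obtain ⟨k, hk⟩ := isConj_iff.mp h1
    exact ⟨k, congrArg Subtype.val hk⟩
  letI act : MulAction G G := MulAction.compHom G (MulAut.conj : G →* MulAut G)
  have hcov : (centralizer (Q : Set G)).subgroupOf C = ⊤ := by
    apply H70.Cover.eq_top_of_cover
    intro c
    obtain ⟨k, hk, hfix⟩ := @H1.Coprime.glauberman_exists G _ _ G act Q C hQC hcopQ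
      (Or.inl (by haveI := hQ.isNilpotent; infer_instance)) (c : G) (by
        intro a ha
        obtain ⟨k, hk⟩ := hconj c a ha
        exact ⟨k, k.2, hk⟩)
    refine ⟨⟨k, hk⟩⁻¹, ?_⟩
    rw [Subgroup.mem_subgroupOf, mem_centralizer_iff]
    intro y hy
    have h1 : y * (k * c * k⁻¹) * y⁻¹ = k * c * k⁻¹ := hfix y hy
    have h2 : ((⟨k, hk⟩⁻¹ : C)⁻¹ * c * (⟨k, hk⟩⁻¹ : C) : C).1 = k * c * k⁻¹ := by
      rw [inv_inv]; rfl
    rw [h2]
    exact (mul_inv_eq_iff_eq_mul.mp h1)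
  exact Subgroup.subgroupOf_eq_top.mp hcov

end H98.PqB
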