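import Mathlib
import Cfsg.Agent.Lib.H98.PqB
import Cfsg.Agent.Lib.H28.Sec10h1

set_option autoImplicit false

/-! Commuting Sylow subgroups. -/

namespace H98.PqC

open scoped Pointwise commutatorElement
open Cfsg Subgroup H31.Clifford H18.CharBasic H18.CharOrtho H18.CharQuot H18.CharInd H81.DegNormal H98.PqA H98.PqB H1.Coprime H1.Coprime2

universe u

variable {G : Type u} [Group G] [Finite G] {p q : ℕ}

theorem not_dvd_core [hp : Fact p.Prime] : ¬ p ∣ Nat.card (pPrimeCore p G) := by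
  have h1 := H1.Cores.coprime_card_pPrimeCore (G := G) p
  exact (Nat.Prime.coprime_iff_not_dvd hp.out).1 h1.symm

theorem normal_QL [hp : Fact p.Prime] [hq : Fact q.Prime] (hF : FF p q G) (hqs : IsPSolvable q G) (Q : Sylow q G)
    (L : Subgroup G) [L.Normal] (hL : ¬ p ∣ L.index) : ((Q : Subgroup G) ⊔ L).Normal := by
  have h1 : NoDeg q (G ⧸ L) := by
    intro χ
    apply hF.quotient L χ
    intro h
    have h2 := h.trans (H79.Deg.charDegree_dvd_card χ.2)
    exact hL h2
  have h2 := sylow_normal (H37.PSolv.quotient hqs L) h1 (Q.mapSurjective (QuotientGroup.mk'_surjective L))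
  have h3 : (Q : Subgroup G) ⊔ L = (((Q.mapSurjective (QuotientGroup.mk'_surjective L) : Sylow q (G ⧸ L)) : Subgroup (G ⧸ L))).comap (QuotientGroup.mk' L) := by
    show (Q : Subgroup G) ⊔ L = ((Q : Subgroup G).map (QuotientGroup.mk' L)).comap (QuotientGroup.mk' L)
    rw [Subgroup.comap_map_eq, QuotientGroup.ker_mk']
  rw [h3]
  exact h2.comap _

/-- the `P`-invariant Sylow `q`-subgroup is unique -/
theorem unique_inv [hp : Fact p.Prime] [hq : Fact q.Prime] (hF : FF p q G) (hqs : IsPSolvable q G)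
    (P : Sylow p G) (Q : Sylow q G) (hPQ : (Q : Subgroup G) ≤ centralizer ((P : Subgroup G) : Set G))
    (h1 : ¬ q ∣ (pPrimeCore p G).index) (h2 : ¬ p ∣ (pPrimeCore q G).index) (Q2 : Sylow q G)
    (hn : (P : Subgroup G) ≤ normalizer ((Q2 : Subgroup G) : Set G)) : (Q2 : Subgroup G) = Q := by
  set K := pPrimeCore p G with hK
  set L := pPrimeCore q G with hL
  set J := K ⊓ L with hJ
  haveI hJn : J.Normal := inferInstance
  have hQK : (Q : Subgroup G) ≤ K := H28.Sec10h1.isPGroup_le_of_not_dvd_index K h1 Q.isPGroup'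
  have hJp : ¬ p ∣ Nat.card J := fun h => not_dvd_core (G := G) (p := p) (h.trans (Subgroup.card_dvd_of_le inf_le_left))
  have hJq : ¬ q ∣ Nat.card J := fun h => not_dvd_core (G := G) (p := q) (h.trans (Subgroup.card_dvd_of_le inf_le_right))
  haveI hQL : ((Q : Subgroup G) ⊔ L).Normal := normal_QL hF hqs Q L h2
  have hK0 : J ⊔ (Q : Subgroup G) = ((Q : Subgroup G) ⊔ L) ⊓ K := by
    apply le_antisymm
    · exact sup_le (le_inf (inf_le_right.trans le_sup_right) inf_le_left) (le_inf le_sup_left hQK)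
    · rintro x ⟨hx, hxK⟩
      obtain ⟨y, hy, l, hl, rfl⟩ := Subgroup.mem_sup_of_normal_right.mp hx
      have h5 : l ∈ K := by
        have := K.mul_mem (K.inv_mem (hQK hy)) hxK
        rwa [inv_mul_cancel_left] at this
      exact Subgroup.mul_mem _ ((le_sup_right : (Q : Subgroup G) ≤ J ⊔ (Q : Subgroup G)) hy)
        ((le_sup_left : J ≤ J ⊔ (Q : Subgroup G)) ⟨h5, hl⟩)
  haveI hK0n : (J ⊔ (Q : Subgroup G)).Normal := by rw [hK0]; infer_instance
  have hPi : ¬ p ∣ (P : Subgroup G).index := P.not_dvd_index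
  have hC := q_centralizes hF J P Q hJp hJq P.isPGroup' hPi Q.isPGroup' hK0n hPQ
  -- `Q2` is conjugate to `Q` in `JQ`
  obtain ⟨g, hg⟩ := MulAction.exists_smul_eq G Q Q2
  have hQ2le : (Q2 : Subgroup G) ≤ J ⊔ (Q : Subgroup G) := by
    rw [← hg, Sylow.coe_subgroup_smul]
    intro x hx
    rw [Subgroup.mem_pointwise_smul_iff_inv_smul_mem] at hx
    have h3 : g⁻¹ * x * g ∈ J ⊔ (Q : Subgroup G) := by
      apply (le_sup_right : (Q : Subgroup G) ≤ J ⊔ (Q : Subgroup G))
      have h4 : (MulAut.conj g)⁻¹ • x = g⁻¹ * x * g := by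
        rw [← map_inv, MulAut.smul_def, MulAut.conj_apply, inv_inv]
      rw [← h4]; exact hx
    have h5 := hK0n.conj_mem _ h3 g
    have h6 : g * (g⁻¹ * x * g) * g⁻¹ = x := by group
    rwa [h6] at h5
  have hcardeq : ∀ S : Sylow q G, (S : Subgroup G) ≤ J ⊔ (Q : Subgroup G) → H1.Coprime2.IsSylIn q (J ⊔ (Q : Subgroup G)) S := by
    intro S hS
    refine ⟨hS, ?_⟩
    apply Nat.dvd_antisymm
    · obtain ⟨k, hk⟩ := IsPGroup.iff_card.mp S.isPGroup'
      rw [hk]
      apply pow_dvd_pow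
      have h3 := Subgroup.card_dvd_of_le hS
      rw [hk] at h3
      exact (Nat.Prime.pow_dvd_iff_le_factorization hq.out Nat.card_pos.ne').mp h3
    · rw [S.card_eq_multiplicity]
      apply pow_dvd_pow
      exact (Nat.factorization_le_iff_dvd Nat.card_pos.ne' Nat.card_pos.ne').mpr (Subgroup.card_subgroup_dvd_card _) q
  obtain ⟨k, hk, hkQ⟩ := (hcardeq Q le_sup_right).conj (hcardeq Q2 hQ2le)
  rw [Subgroup.mem_sup_of_normal_left] at hk
  obtain ⟨j, hj, y, hy, rfl⟩ := hk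
  have hyQ : MulAut.conj y • (Q : Subgroup G) = Q := by
    apply Subgroup.conj_smul_eq_self_of_mem hy
  rw [map_mul, mul_smul, hyQ] at hkQ
  have hcop : (Nat.card (P : Subgroup G)).Coprime (Nat.card J) := by
    obtain ⟨k, hk⟩ := IsPGroup.iff_card.mp P.isPGroup'
    rw [hk]
    exact Nat.Coprime.pow_left k ((Nat.Prime.coprime_iff_not_dvd hp.out).mpr hJp)
  obtain ⟨c, hc, hcQ⟩ := conj_of_invariant (P : Subgroup G) J (Subgroup.le_normalizer_of_normal) hcop
    (Or.inl (by haveI := P.isPGroup'.isNilpotent; infer_instance)) Q Q2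
    ((Subgroup.le_centralizer_iff.mp hPQ).trans (Subgroup.centralizer_le_normalizer _)) hn j hj hkQ
  rw [← hcQ]
  have hcc := hC hc
  ext x
  rw [Subgroup.mem_pointwise_smul_iff_inv_smul_mem]
  have h4 : (MulAut.conj c)⁻¹ • x = c⁻¹ * x * c := by
    rw [← map_inv, MulAut.smul_def, MulAut.conj_apply, inv_inv]
  rw [h4]
  constructor
  · intro hx
    have h5 := (mem_centralizer_iff.mp hcc) _ hx
    have h6 : c * (c⁻¹ * x * c) * c⁻¹ = x := by group
    rw [← h5, mul_inv_cancel_right] at h6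
    rw [← h6]; exact hx
  · intro hx
    have h5 := (mem_centralizer_iff.mp hcc) x hx
    rw [mul_assoc, h5, inv_mul_cancel_left]
    exact hx

theorem inf_eq_bot_of [hp : Fact p.Prime] {S L : Subgroup G} (hS : IsPGroup p S) (hL : ¬ p ∣ Nat.card L) : S ⊓ L = ⊥ := by
  apply Disjoint.eq_bot
  apply Subgroup.disjoint_of_coprime_natCard
  obtain ⟨k, hk⟩ := IsPGroup.iff_card.mp hS
  rw [hk]
  exact Nat.Coprime.pow_left k ((Nat.Prime.coprime_iff_not_dvd hp.out).mpr hL)

/-- commuting Sylow subgroups: the cores -/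
theorem of_commute [hp : Fact p.Prime] [hq : Fact q.Prime] (hpq : p ≠ q) (hps : IsPSolvable p G) (P : Sylow p G) (Q : Sylow q G)
    (hPQ : (Q : Subgroup G) ≤ centralizer ((P : Subgroup G) : Set G)) : ¬ q ∣ (pPrimeCore p G).index := by
  set N := pPrimeCore p G with hN
  have h1 : (Q : Subgroup G) ≤ N := by
    intro y hy
    have h2 : QuotientGroup.mk' N y ∈ centralizer (pCore p (G ⧸ N) : Set (G ⧸ N)) := by
      rw [mem_centralizer_iff]
      intro z hz
      have h3 := H1.Cores.pCore_le_sylow (P.mapSurjective (QuotientGroup.mk'_surjective N)) hz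
      obtain ⟨x, hx, rfl⟩ : z ∈ (P : Subgroup G).map (QuotientGroup.mk' N) := h3
      rw [← map_mul, ← map_mul, (mem_centralizer_iff.mp (hPQ hy)) x hx]
    have h3 := H19.PSolv.centralizer_pCore_le (H37.PSolv.quotient hps N) (H1.Cores.pPrimeCore_quotient_pPrimeCore p) h2
    obtain ⟨k, hk⟩ := IsPGroup.iff_card.mp (H1.Cores.isPGroup_pCore (G := G ⧸ N) p)
    have h4 : orderOf (QuotientGroup.mk' N y) ∣ p ^ k := by
      rw [← hk]; exact Subgroup.orderOf_dvd_natCard _ h3
    obtain ⟨j, hj⟩ := IsPGroup.iff_card.mp Q.isPGroup'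
    have h5 : orderOf (QuotientGroup.mk' N y) ∣ q ^ j := by
      rw [← hj]; exact (orderOf_map_dvd _ _).trans (Subgroup.orderOf_dvd_natCard _ hy)
    have h6 := Nat.eq_one_of_dvd_coprimes (Nat.Coprime.pow k j ((Nat.coprime_primes hp.out hq.out).mpr hpq)) h4 h5
    exact (QuotientGroup.eq_one_iff y).mp (orderOf_eq_one_iff.mp h6)
  intro h
  exact Q.not_dvd_index (h.trans (Subgroup.index_dvd_of_le h1))

/-- a Sylow subgroup of a subgroup of index prime to `q` is a Sylow subgroup -/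
theorem exists_sylow_of [hq : Fact q.Prime] {H S : Subgroup G} (hH : ¬ q ∣ H.index) (hS : IsSylIn q H S) :
    ∃ S' : Sylow q G, (S' : Subgroup G) = S := by
  have h1 : Nat.card S = q ^ (Nat.card G).factorization q := by
    rw [hS.2, ← Subgroup.card_mul_index H, Nat.factorization_mul Nat.card_pos.ne' Subgroup.index_ne_zero_of_finite,
      Finsupp.add_apply, Nat.factorization_eq_zero_of_not_dvd hH, add_zero]
  exact ⟨Sylow.ofCard S h1, Sylow.coe_ofCard _ _⟩

theorem to_commute [hp : Fact p.Prime] [hq : Fact q.Prime] (h1 : ¬ q ∣ (pPrimeCore p G).index) (h2 : ¬ p ∣ (pPrimeCore q G).index)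
    (P : Sylow p G) : ∃ Q : Sylow q G, (Q : Subgroup G) ≤ centralizer ((P : Subgroup G) : Set G) := by
  set K := pPrimeCore p G with hK
  set L := pPrimeCore q G with hL
  have hPL : (P : Subgroup G) ≤ L := H28.Sec10h1.isPGroup_le_of_not_dvd_index L h2 P.isPGroup'
  have hcop : (Nat.card (P : Subgroup G)).Coprime (Nat.card K) := by
    obtain ⟨k, hk⟩ := IsPGroup.iff_card.mp P.isPGroup'
    rw [hk]
    exact Nat.Coprime.pow_left k ((Nat.Prime.coprime_iff_not_dvd hp.out).mpr (not_dvd_core (G := G) (p := p)))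
  obtain ⟨S, hS, hPS⟩ := exists_invariant_sylow (P : Subgroup G) K Subgroup.le_normalizer_of_normal hcop
    (Or.inl (by haveI := P.isPGroup'.isNilpotent; infer_instance)) q
  obtain ⟨Q, hQ⟩ := exists_sylow_of h1 hS
  refine ⟨Q, ?_⟩
  rw [← hQ] at hPS
  intro y hy
  rw [mem_centralizer_iff]
  intro x hx
  have h3 : x * y * x⁻¹ * y⁻¹ ∈ (Q : Subgroup G) ⊓ L := by
    refine ⟨(Q : Subgroup G).mul_mem (conj_mem_of_le_normalizer hPS hx hy) ((Q : Subgroup G).inv_mem hy), ?_⟩
    have h4 : x * y * x⁻¹ * y⁻¹ = x * (y * x⁻¹ * y⁻¹) := by group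
    rw [h4]
    exact L.mul_mem (hPL hx) ((inferInstance : L.Normal).conj_mem _ (L.inv_mem (hPL hx)) y)
  rw [inf_eq_bot_of Q.isPGroup' (not_dvd_core (G := G) (p := q)), Subgroup.mem_bot] at h3
  exact mul_inv_eq_iff_eq_mul.mp (mul_inv_eq_one.mp h3)

/-- the final step: triviality of the action -/
theorem trivial_action [hp : Fact p.Prime] [hq : Fact q.Prime] (hpq : p ≠ q) (P Q N : Subgroup G) (hP : IsPGroup p P) (hQ : IsPGroup q Q)
    (hNP : N ≤ P) (hPQ : ∀ x ∈ P, ∀ y ∈ Q, x * y * x⁻¹ * y⁻¹ ∈ N)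
    (hν : ∀ (ν : P →* ℂˣ) (y : G), y ∈ Q → ∀ (n : G) (hn : n ∈ N) (hn' : y * n * y⁻¹ ∈ P), ν ⟨y * n * y⁻¹, hn'⟩ = ν ⟨n, hNP hn⟩) :
    P ≤ centralizer (Q : Set G) := by
  have hQP : Q ≤ normalizer (P : Set G) := by
    apply H1.Coprime.le_normalizer_of_conj_mem
    intro y hy x hx
    have h1 := hNP (hPQ x hx y hy)
    have h2 : y * x * y⁻¹ = (x * y * x⁻¹ * y⁻¹)⁻¹ * x := by group
    rw [h2]
    exact P.mul_mem (P.inv_mem h1) hx
  have hcop : (Nat.card Q).Coprime (Nat.card P) := by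
    obtain ⟨k, hk⟩ := IsPGroup.iff_card.mp hP
    obtain ⟨j, hj⟩ := IsPGroup.iff_card.mp hQ
    rw [hk, hj]
    exact Nat.Coprime.pow j k ((Nat.coprime_primes hq.out hp.out).mpr (Ne.symm hpq))
  have hsolv : Group.IsSolvable Q ∨ Group.IsSolvable P := Or.inl (by haveI := hQ.isNilpotent; infer_instance)
  have h1 : ⁅P, Q⁆ ≤ N := by
    rw [Subgroup.commutator_le]
    intro x hx y hy
    exact hPQ x hx y hy
  have h2 : ⁅N, Q⁆ ≤ (commutator P).map P.subtype := by
    rw [Subgroup.commutator_le]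
    intro n hn y hy
    have hnP : n ∈ P := hNP hn
    have hn' : y * n⁻¹ * y⁻¹ ∈ P := conj_mem_of_le_normalizer hQP hy (P.inv_mem hnP)
    have hmem : (⟨n, hnP⟩ * ⟨y * n⁻¹ * y⁻¹, hn'⟩ : P) ∈ commutator P := by
      by_contra hcon
      obtain ⟨ν, hν1⟩ := exists_hom_ne_one hcon
      apply hν1
      rw [map_mul, hν ν y hy n⁻¹ (N.inv_mem hn) hn']
      have h3 : (⟨n⁻¹, hNP (N.inv_mem hn)⟩ : P) = (⟨n, hnP⟩ : P)⁻¹ := rfl
      rw [h3, map_inv, mul_inv_cancel]
    refine ⟨_, hmem, ?_⟩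
    show n * (y * n⁻¹ * y⁻¹) = ⁅n, y⁆
    rw [commutatorElement_def]; group
  have h3 : ⁅P, Q⁆ ≤ (commutator P).map P.subtype := by
    rw [← commutator_commutator_eq Q P hQP hcop hsolv]
    exact (Subgroup.commutator_mono h1 le_rfl).trans h2
  have h4 : (centralizer (Q : Set G)).subgroupOf P ⊔ commutator P = ⊤ := by
    rw [eq_top_iff]
    rintro ⟨x, hx⟩ -
    obtain ⟨a, ha, c, hc, hxa⟩ := exists_mul_of_mem Q P hQP hcop hsolv hx
    obtain ⟨d, hd, hda⟩ := h3 ha
    have h5 : (⟨x, hx⟩ : P) = d * ⟨c, hc.1⟩ := by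
      apply Subtype.ext
      show x = (d : G) * c
      rw [hxa, ← hda]; rfl
    rw [h5]
    exact Subgroup.mul_mem _ ((le_sup_right : commutator P ≤ (centralizer (Q : Set G)).subgroupOf P ⊔ commutator P) hd)
      ((le_sup_left : (centralizer (Q : Set G)).subgroupOf P ≤ (centralizer (Q : Set G)).subgroupOf P ⊔ commutator P)
        (Subgroup.mem_subgroupOf.mpr hc.2))
  haveI := hP.isNilpotent
  exact Subgroup.subgroupOf_eq_top.mp (H27.Gen.eq_top_of_sup_commutator _ h4)

/-- linear characters of `P` are `Q`-invariant on `N` -/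
theorem lin_inv [hp : Fact p.Prime] [hq : Fact q.Prime] (hF : FF p q G) (hqs : IsPSolvable q G) (N : Subgroup G) [hN : N.Normal]
    (P : Sylow p G) (hNP : N ≤ P) (hNq : IsPGroup p N) (Qb : Sylow q (G ⧸ N))
    (hPQ : (Qb : Subgroup (G ⧸ N)) ≤ centralizer (((P.mapSurjective (QuotientGroup.mk'_surjective N) : Sylow p (G ⧸ N)) : Subgroup (G ⧸ N)) : Set (G ⧸ N)))
    (h1 : ¬ q ∣ (pPrimeCore p (G ⧸ N)).index) (h2 : ¬ p ∣ (pPrimeCore q (G ⧸ N)).index) (ν : (P : Subgroup G) →* ℂˣ) (y : G)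
    (hy : QuotientGroup.mk' N y ∈ (Qb : Subgroup (G ⧸ N))) (n : G) (hn : n ∈ N) (hn' : y * n * y⁻¹ ∈ (P : Subgroup G)) :
    ν ⟨y * n * y⁻¹, hn'⟩ = ν ⟨n, hNP hn⟩ := by
  classical
  letI := Fintype.ofFinite G
  letI := Fintype.ofFinite N
  letI := Fintype.ofFinite (P : Subgroup G)
  set Pb : Sylow p (G ⧸ N) := P.mapSurjective (QuotientGroup.mk'_surjective N) with hPb
  let μ : N → ℂ := fun n => ((ν.comp (Subgroup.inclusion hNP)) n : ℂˣ)
  have hμ : IsIrrCharacter N μ := isIrrCharacter_of_hom _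
  have hβ : IsIrrCharacter (P : Subgroup G) (fun x => (ν x : ℂ)) := isIrrCharacter_of_hom _
  have h3 : ¬ q ∣ (inertia N μ).index :=
    inertia_of_ext hF N P hNP P.not_dvd_index hβ (e := 1) (fun h => hp.out.one_lt.ne' (Nat.dvd_one.mp h)) (by simp) hμ (fun _ => rfl)
  set I := inertia N μ with hI
  have hNI : N ≤ I := le_inertia N (isClassFunction_of_isIrr hμ)
  have hPI : (P : Subgroup G) ≤ I := by
    intro x hx
    rw [hI, mem_inertia_iff]
    intro m
    show ((ν ⟨x * m * x⁻¹, _⟩ : ℂˣ) : ℂ) = ((ν ⟨m, _⟩ : ℂˣ) : ℂ)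
    have h4 : (⟨x * m * x⁻¹, hNP (hN.conj_mem m m.2 x)⟩ : (P : Subgroup G)) = ⟨x, hx⟩ * ⟨m, hNP m.2⟩ * ⟨x, hx⟩⁻¹ := rfl
    rw [h4, map_mul, map_mul, map_inv, mul_comm (ν ⟨x, hx⟩), mul_inv_cancel_right]
  set Ib := I.map (QuotientGroup.mk' N) with hIb
  have hIbi : Ib.index = I.index := by
    rw [hIb]
    exact Subgroup.index_map_eq I (QuotientGroup.mk'_surjective N) (by rw [QuotientGroup.ker_mk']; exact hNI)
  set K := pPrimeCore p (G ⧸ N) with hK
  have hHi : ¬ q ∣ (Ib ⊓ K).index := by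
    intro h
    rw [← Subgroup.relIndex_mul_index (inf_le_left : Ib ⊓ K ≤ Ib), Subgroup.inf_relIndex_left] at h
    rcases (Nat.Prime.dvd_mul hq.out).mp h with h4 | h4
    · exact h1 (h4.trans (Subgroup.relIndex_dvd_index_of_normal K Ib))
    · rw [hIbi] at h4; exact h3 h4
  have hPbI : (Pb : Subgroup (G ⧸ N)) ≤ Ib := Subgroup.map_mono hPI
  have hPbn : (Pb : Subgroup (G ⧸ N)) ≤ normalizer ((Ib ⊓ K : Subgroup (G ⧸ N)) : Set (G ⧸ N)) :=
    le_normalizer_inf (hPbI.trans Subgroup.le_normalizer) Subgroup.le_normalizer_of_normal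
  have hcop : (Nat.card (Pb : Subgroup (G ⧸ N))).Coprime (Nat.card (Ib ⊓ K : Subgroup (G ⧸ N))) := by
    obtain ⟨k, hk⟩ := IsPGroup.iff_card.mp Pb.isPGroup'
    rw [hk]
    exact Nat.Coprime.pow_left k ((Nat.Prime.coprime_iff_not_dvd hp.out).mpr (fun h => not_dvd_core (G := G ⧸ N) (p := p)
      (h.trans (Subgroup.card_dvd_of_le inf_le_right))))
  obtain ⟨S, hS, hPS⟩ := exists_invariant_sylow (Pb : Subgroup (G ⧸ N)) (Ib ⊓ K) hPbn hcop
    (Or.inl (by haveI := Pb.isPGroup'.isNilpotent; infer_instance)) q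
  obtain ⟨S', hS'⟩ := exists_sylow_of hHi hS
  have h5 := unique_inv (hF.quotient N) (H37.PSolv.quotient hqs N) Pb Qb hPQ h1 h2 S' (by rw [hS']; exact hPS)
  have h6 : QuotientGroup.mk' N y ∈ Ib := by
    have h7 : QuotientGroup.mk' N y ∈ S := by rw [← hS', h5]; exact hy
    exact (hS.1 h7).1
  obtain ⟨i, hi, hiy⟩ := h6
  have h7 : y ∈ I := by
    have h8 : i⁻¹ * y ∈ N := QuotientGroup.eq.mp hiy
    have h9 := I.mul_mem hi (hNI h8)
    rwa [mul_inv_cancel_left] at h9
  have h8 := (mem_inertia_iff N).mp h7 ⟨n, hn⟩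
  exact Units.ext h8

/-- **The main theorem.** -/
theorem main (n : ℕ) : ∀ (p q : ℕ) [Fact p.Prime] [Fact q.Prime], p ≠ q → ∀ (G : Type u) [Group G] [Finite G],
    Nat.card G = n → IsPSolvable p G → IsPSolvable q G → Cond p q G → Cond q p G → ¬ q ∣ (pPrimeCore p G).index := by
  induction n using Nat.strong_induction_on with
  | _ n ih =>
    intro p q hp hq hpq G _ _ hn hps hqs hc1 hc2
    have hlt : ∀ L : Subgroup G, L.Normal → L ≠ ⊥ → Nat.card (G ⧸ L) < n := by
      intro L _ hL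
      rw [← hn, ← L.index_mul_card]
      have h1 : 0 < L.index := Nat.pos_of_ne_zero Subgroup.index_ne_zero_of_finite
      have h2 : 1 < Nat.card L := by
        rw [Finite.one_lt_card_iff_nontrivial]
        exact (Subgroup.nontrivial_iff_ne_bot L).2 hL
      show L.index < L.index * Nat.card L
      nlinarith
    by_cases hK : pPrimeCore p G = ⊥
    swap
    · have h1 := ih _ (hlt (pPrimeCore p G) inferInstance hK) p q hpq (G ⧸ pPrimeCore p G) rfl (H37.PSolv.quotient hps _)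
        (H37.PSolv.quotient hqs _) (hc1.quotient _) (hc2.quotient _)
      rw [H1.Cores.pPrimeCore_quotient_pPrimeCore, Subgroup.index_bot] at h1
      exact h1
    · rw [hK, Subgroup.index_bot]
      intro hqG
      haveI : Nontrivial G := by
        rw [← Finite.one_lt_card_iff_nontrivial]
        exact lt_of_lt_of_le hq.out.one_lt (Nat.le_of_dvd Nat.card_pos hqG)
      have hN := (H37.PSolv.core_ne_bot hps).resolve_right (fun h => h hK)
      set N := pCore p G with hNdef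
      have hi1 := ih _ (hlt N inferInstance hN) p q hpq (G ⧸ N) rfl (H37.PSolv.quotient hps _)
        (H37.PSolv.quotient hqs _) (hc1.quotient _) (hc2.quotient _)
      have hi2 := ih _ (hlt N inferInstance hN) q p (Ne.symm hpq) (G ⧸ N) rfl (H37.PSolv.quotient hqs _)
        (H37.PSolv.quotient hps _) (hc2.quotient _) (hc1.quotient _)
      have hF : FF p q G := hc1.ff hK
      obtain ⟨P⟩ : Nonempty (Sylow p G) := inferInstance
      have hNP : N ≤ P := H1.Cores.pCore_le_sylow P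
      obtain ⟨Qb, hQb⟩ := to_commute hi1 hi2 (P.mapSurjective (QuotientGroup.mk'_surjective N))
      obtain ⟨Q0⟩ : Nonempty (Sylow q G) := inferInstance
      obtain ⟨gb, hgb⟩ := MulAction.exists_smul_eq (G ⧸ N) (Q0.mapSurjective (QuotientGroup.mk'_surjective N)) Qb
      obtain ⟨g, rfl⟩ := QuotientGroup.mk'_surjective N gb
      have hQ : ∀ y ∈ ((g • Q0 : Sylow q G) : Subgroup G), QuotientGroup.mk' N y ∈ (Qb : Subgroup (G ⧸ N)) := by
        intro y hy
        rw [← hgb, Sylow.coe_subgroup_smul, Subgroup.mem_pointwise_smul_iff_inv_smul_mem]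
        rw [Sylow.coe_subgroup_smul, Subgroup.mem_pointwise_smul_iff_inv_smul_mem] at hy
        exact ⟨_, hy, by
          rw [← map_inv, ← map_inv, MulAut.smul_def, MulAut.smul_def, MulAut.conj_apply, MulAut.conj_apply]; simp only [map_mul, map_inv]⟩
      set Q := g • Q0 with hQdef
      have h3 : (P : Subgroup G) ≤ centralizer ((Q : Subgroup G) : Set G) := by
        apply trivial_action hpq P Q N P.isPGroup' Q.isPGroup' hNP
        · intro x hx y hy
          rw [← QuotientGroup.eq_one_iff]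
          have h4 := (mem_centralizer_iff.mp (hQb (hQ y hy))) (QuotientGroup.mk' N x) ⟨x, hx, rfl⟩
          show QuotientGroup.mk' N (x * y * x⁻¹ * y⁻¹) = 1
          rw [map_mul, map_mul, map_mul, map_inv, map_inv, h4]; group
        · intro ν y hy n hn hn'
          exact lin_inv hF hqs N P hNP (H1.Cores.isPGroup_pCore p) Qb hQb hi1 hi2 ν y (hQ y hy) n hn hn'
      have h4 : (Q : Subgroup G) ≤ N := by
        have h5 : (Q : Subgroup G) ≤ centralizer (N : Set G) := by
          intro y hy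
          rw [mem_centralizer_iff]
          intro m hm
          exact ((mem_centralizer_iff.mp (h3 (hNP hm))) y hy).symm
        exact h5.trans (H19.PSolv.centralizer_pCore_le hps hK)
      have h5 : Nat.card (Q : Subgroup G) = 1 := by
        obtain ⟨k, hk⟩ := IsPGroup.iff_card.mp (H1.Cores.isPGroup_pCore (G := G) p)
        obtain ⟨j, hj⟩ := IsPGroup.iff_card.mp Q.isPGroup'
        have h6 := Subgroup.card_dvd_of_le h4
        rw [hj, hk] at h6
        rw [hj]
        exact Nat.Coprime.eq_one_of_dvd (Nat.Coprime.pow j k ((Nat.coprime_primes hq.out hp.out).mpr (Ne.symm hpq))) h6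
      have h6 := Q.dvd_card_of_dvd_card hqG
      rw [h5] at h6
      exact hq.out.one_lt.ne' (Nat.dvd_one.mp h6)

end H98.PqC
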