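import Mathlib

set_option autoImplicit false

/-! Second maximal subgroups below a maximal subgroup of odd index whose action is alternating or symmetric. -/

namespace H98.SecondMax

open Equiv MulAction
open scoped Pointwise

theorem coatom_subgroupOf_iff {G : Type*} [Group G] {H K : Subgroup G} (h : H ≤ K) :
    IsCoatom (H.subgroupOf K) ↔ H ≠ K ∧ ∀ L : Subgroup G, H ≤ L → L ≤ K → L = H ∨ L = K := by
  constructor
  · rintro ⟨h1, h2⟩
    refine ⟨fun h3 => h1 (by rw [h3, Subgroup.subgroupOf_self]), fun L hL hLK => ?_⟩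
    rcases eq_or_lt_of_le hL with h3 | h3
    · exact Or.inl h3.symm
    · right
      have h4 : H.subgroupOf K < L.subgroupOf K := by
        refine lt_of_le_of_ne (Subgroup.subgroupOf_mono K hL) fun h5 => h3.ne ?_
        rw [Subgroup.subgroupOf_inj, inf_eq_left.mpr h, inf_eq_left.mpr hLK] at h5
        exact h5
      have h5 := h2 _ h4
      rw [Subgroup.subgroupOf_eq_top] at h5
      exact le_antisymm hLK h5
  · rintro ⟨h1, h2⟩
    refine ⟨fun h3 => h1 ?_, fun L hL => ?_⟩
    · rw [Subgroup.subgroupOf_eq_top] at h3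
      exact le_antisymm h h3
    · have h3 : H ≤ L.map K.subtype := by
        intro x hx
        exact ⟨⟨x, h hx⟩, hL.le (Subgroup.mem_subgroupOf.mpr hx), rfl⟩
      rcases h2 _ h3 (Subgroup.map_subtype_le L) with h4 | h4
      · exfalso
        apply hL.ne
        rw [← h4]
        exact (Subgroup.comap_map_eq_self_of_injective K.subtype_injective L)
      · rw [eq_top_iff]
        intro x _
        have : (x : G) ∈ L.map K.subtype := by rw [h4]; exact x.2
        obtain ⟨y, hy, hyx⟩ := this
        rwa [← Subtype.ext hyx]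

/-- a three-cycle `a → b → c → a` -/
def cyc {X : Type*} [DecidableEq X] (a b c : X) : Perm X := swap a b * swap b c

section cyc

variable {X : Type*} [DecidableEq X] {a b c : X}

theorem cyc_sign [Fintype X] (hab : a ≠ b) (hbc : b ≠ c) : Perm.sign (cyc a b c) = 1 := by
  rw [cyc, Perm.sign_mul, Perm.sign_swap hab, Perm.sign_swap hbc]; rfl

theorem cyc_a (hab : a ≠ b) (hac : a ≠ c) : cyc a b c a = b := by
  rw [cyc, Perm.mul_apply, swap_apply_of_ne_of_ne hab hac, swap_apply_left]

theorem cyc_b (hac : a ≠ c) (hbc : b ≠ c) : cyc a b c b = c := by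
  rw [cyc, Perm.mul_apply, swap_apply_left, swap_apply_of_ne_of_ne hac.symm hbc.symm]

theorem cyc_c : cyc a b c c = a := by
  rw [cyc, Perm.mul_apply, swap_apply_right, swap_apply_right]

theorem cyc_ne {x : X} (ha : x ≠ a) (hb : x ≠ b) (hc : x ≠ c) : cyc a b c x = x := by
  rw [cyc, Perm.mul_apply, swap_apply_of_ne_of_ne hb hc, swap_apply_of_ne_of_ne ha hb]

end cyc

variable {G X : Type*} [Group G] [Finite G] [MulAction G X] [Fintype X] [DecidableEq X]

omit [Finite G] [DecidableEq X] in
theorem mem_stab {Z : Set X} {g : G} (h : ∀ x ∈ Z, g • x ∈ Z) : g ∈ stabilizer G Z := by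
  rw [mem_stabilizer_set_iff_smul_set_subset (Set.toFinite Z)]
  rintro _ ⟨x, hx, rfl⟩
  exact h x hx

theorem core (hodd : Odd (Fintype.card X)) (x0 : X)
    (hpre : IsPreprimitive G X)
    (halt : ∀ σ : Perm X, Perm.sign σ = 1 → ∃ g : G, ∀ x, g • x = σ x)
    (M H K : Subgroup G) (hMx : ∀ g, g ∈ M ↔ g • x0 = x0) (hM : IsCoatom M) (hHM : H ≤ M) (hHne : H ≠ M)
    (hmax : ∀ L : Subgroup G, H ≤ L → L ≤ M → L = H ∨ L = M) (hK : IsCoatom K) (hHK : H ≤ K) :
    IsCoatom (H.subgroupOf K) := by
  classical
  by_cases hKM : K = M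
  · rw [hKM]
    exact (coatom_subgroupOf_iff hHM).mpr ⟨hHne, hmax⟩
  have hMK : ¬ M ≤ K := by
    intro h
    rcases eq_or_lt_of_le h with h1 | h1
    · exact hKM h1.symm
    · exact hK.1 (hM.2 _ h1)
  have hKM' : ¬ K ≤ M := by
    intro h
    rcases eq_or_lt_of_le h with h1 | h1
    · exact hKM h1
    · exact hM.1 (hK.2 _ h1)
  have hH : H = K ⊓ M := by
    rcases hmax (K ⊓ M) (le_inf hHK hHM) inf_le_right with h | h
    · exact h.symm
    · exact absurd (inf_eq_right.mp h) hMK
  have hXn : Nontrivial X := by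
    by_contra hnt
    rw [not_nontrivial_iff_subsingleton] at hnt
    apply hM.1
    rw [eq_top_iff]
    intro g _
    rw [hMx]
    exact Subsingleton.elim _ _
  by_cases htr : IsPretransitive K X
  · by_cases hp : IsPreprimitive K X
    · have h1 := IsPreprimitive.isCoatom_stabilizer_of_isPreprimitive K x0
      have h2 : stabilizer K x0 = H.subgroupOf K := by
        ext k
        rw [mem_stabilizer_iff, Subgroup.mem_subgroupOf, hH, Subgroup.mem_inf, hMx]
        exact ⟨fun h => ⟨k.2, h⟩, fun h => h.2⟩
      rwa [h2] at h1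
    · exfalso
      -- a nontrivial block containing `x0`
      have hB : ∃ B : Set X, x0 ∈ B ∧ IsBlock K B ∧ ¬ IsTrivialBlock B := by
        by_contra hcon
        push Not at hcon
        exact hp (IsPreprimitive.of_isTrivialBlock_base x0 (fun {B} hB hBl => hcon B hB hBl))
      obtain ⟨D, hx0, hD, hDt⟩ := hB
      have hDns : ¬ D.Subsingleton := fun h => hDt (Or.inl h)
      have hDnu : D ≠ Set.univ := fun h => hDt (Or.inr h)
      have hdvd : D.ncard ∣ Fintype.card X := by
        rw [← Nat.card_eq_fintype_card]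
        exact hD.ncard_dvd_card ⟨x0, hx0⟩
      have hD1 : 1 < D.ncard := by
        rw [Set.one_lt_ncard_iff_nontrivial]
        exact Set.not_subsingleton_iff.mp hDns
      have hDodd : Odd D.ncard := Odd.of_dvd_nat hodd hdvd
      have hD3 : 3 ≤ D.ncard := by
        rcases hDodd with ⟨t, ht⟩
        omega
      have hDlt : 3 * D.ncard ≤ Fintype.card X := by
        obtain ⟨b, hb⟩ := hdvd
        have hbodd : Odd b := by
          rw [hb] at hodd
          exact (Nat.odd_mul.mp hodd).2
        have hb1 : b ≠ 1 := by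
          rintro rfl
          apply hDnu
          rw [Set.eq_univ_iff_ncard, Nat.card_eq_fintype_card, hb, mul_one]
        have hb3 : 3 ≤ b := by
          rcases hbodd with ⟨t, ht⟩
          omega
        rw [hb, mul_comm]
        exact Nat.mul_le_mul_left _ hb3
      obtain ⟨y1, hy1⟩ : ∃ y, y ∉ D := by
        by_contra hcon
        push Not at hcon
        exact hDnu (Set.eq_univ_of_forall hcon)
      obtain ⟨k, hk⟩ : ∃ k : K, k • x0 = y1 := htr.exists_smul_eq x0 y1
      have hy1' : y1 ∈ k • D := by rw [← hk]; exact Set.smul_mem_smul_set hx0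
      have hcardk : (k • D).ncard = D.ncard := Set.ncard_smul_set k D
      have hdisj : Disjoint D (k • D) := by
        rcases hD.smul_eq_or_disjoint k with h | h
        · exact absurd (h ▸ hy1') hy1
        · exact h.symm
      obtain ⟨y2, hy2, hy21⟩ : ∃ y ∈ k • D, y ≠ y1 := by
        have : (k • D).Nontrivial := by
          rw [← Set.one_lt_ncard_iff_nontrivial, hcardk]; exact hD1
        exact this.exists_ne y1
      obtain ⟨y4, hy4, hy41, hy42⟩ : ∃ y ∈ k • D, y ≠ y1 ∧ y ≠ y2 := by
        by_contra hcon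
        push Not at hcon
        have hsub : k • D ⊆ {y1, y2} := by
          intro y hy
          by_cases h : y = y1
          · simp [h]
          · simp [hcon y hy h]
        have := Set.ncard_le_ncard hsub (Set.toFinite _)
        have h2 : ({y1, y2} : Set X).ncard ≤ 2 := Set.ncard_insert_le _ _ |>.trans (by simp)
        omega
      obtain ⟨y3, hy3, hy3'⟩ : ∃ y, y ∉ D ∧ y ∉ k • D := by
        by_contra hcon
        push Not at hcon
        have hsub : (Set.univ : Set X) ⊆ D ∪ k • D := by
          intro y _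
          by_cases h : y ∈ D
          · exact Or.inl h
          · exact Or.inr (hcon y h)
        have h1 := Set.ncard_le_ncard hsub (Set.toFinite _)
        have h2 := Set.ncard_union_le D (k • D)
        rw [Set.ncard_univ, Nat.card_eq_fintype_card] at h1
        omega
      have hy2D : y2 ∉ D := fun h => Set.disjoint_left.mp hdisj h hy2
      have hy4D : y4 ∉ D := fun h => Set.disjoint_left.mp hdisj h hy4
      have hy31 : y3 ≠ y1 := fun h => hy3' (h ▸ hy1')
      have hy32 : y3 ≠ y2 := fun h => hy3' (h ▸ hy2)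
      have hy34 : y3 ≠ y4 := fun h => hy3' (h ▸ hy4)
      -- the set stabiliser
      let L : Subgroup G := M ⊓ stabilizer G D
      have hHL : H ≤ L := by
        intro h hh
        refine ⟨hHM hh, ?_⟩
        have h1 : (⟨h, hHK hh⟩ : K) • D = D := by
          refine hD.smul_eq_of_mem hx0 ?_
          have : (⟨h, hHK hh⟩ : K) • x0 = x0 := (hMx h).mp (hHM hh)
          rw [this]; exact hx0
        exact h1
      rcases hmax L hHL inf_le_left with hL | hL
      · obtain ⟨g, hg⟩ := halt (cyc y1 y2 y3) (cyc_sign hy21.symm hy32.symm)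
        have hgD : ∀ x ∈ D, g • x = x := by
          intro x hx
          rw [hg]
          exact cyc_ne (fun h => hy1 (h ▸ hx)) (fun h => hy2D (h ▸ hx)) (fun h => hy3 (h ▸ hx))
        have hgL : g ∈ L := by
          refine ⟨(hMx g).mpr (hgD x0 hx0), ?_⟩
          refine mem_stab (G := G) fun x hx => ?_
          rw [hgD x hx]; exact hx
        have hgK : g ∈ K := hHK (hL ▸ hgL)
        have h4 : g • y4 = y4 := by
          rw [hg]; exact cyc_ne hy41 hy42 hy34.symm
        have h2 : g • y2 = y3 := by
          rw [hg]; exact cyc_b hy31.symm hy32.symm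
        have hbk : IsBlock K (k • D) := hD.translate k
        have h5 : (⟨g, hgK⟩ : K) • (k • D) = k • D := hbk.smul_eq_of_mem hy4 (by
          show g • y4 ∈ k • D
          rw [h4]; exact hy4)
        have h6 : g • y2 ∈ (⟨g, hgK⟩ : K) • (k • D) := Set.smul_mem_smul_set (a := (⟨g, hgK⟩ : K)) hy2
        rw [h5, h2] at h6
        exact hy3' h6
      · obtain ⟨d, hd, hdx⟩ : ∃ d ∈ D, d ≠ x0 := by
          have : D.Nontrivial := Set.not_subsingleton_iff.mp hDns
          exact this.exists_ne x0
        have hdy1 : d ≠ y1 := fun h => hy1 (h ▸ hd)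
        have hdy3 : d ≠ y3 := fun h => hy3 (h ▸ hd)
        obtain ⟨g, hg⟩ := halt (cyc d y1 y3) (cyc_sign hdy1 hy31.symm)
        have hgM : g ∈ M := by
          rw [hMx, hg]
          exact cyc_ne hdx.symm (fun h => hy1 (h ▸ hx0)) (fun h => hy3 (h ▸ hx0))
        rw [← hL] at hgM
        have h1 : g • D = D := hgM.2
        have h2 : g • d ∈ g • D := Set.smul_mem_smul_set hd
        rw [h1, hg, cyc_a hdy1 hdy3] at h2
        exact hy1 h2
  · -- intransitive case
    set Z : Set X := orbit K x0 with hZ
    have hx0Z : x0 ∈ Z := mem_orbit_self x0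
    have hZnu : Z ≠ Set.univ := by
      intro h
      apply htr
      rw [isPretransitive_iff_base x0]
      intro y
      have : y ∈ Z := by rw [h]; exact Set.mem_univ y
      exact this
    have hKS : K ≤ stabilizer G Z := by
      intro k hk
      refine mem_stab (G := G) ?_
      rintro _ ⟨k', rfl⟩
      exact ⟨⟨k, hk⟩ * k', mul_smul (⟨k, hk⟩ : K) k' x0⟩
    have hStop : stabilizer G Z ≠ ⊤ := by
      intro h
      apply hZnu
      refine Set.eq_univ_of_forall fun y => ?_
      obtain ⟨g, hg⟩ := hpre.toIsPretransitive.exists_smul_eq x0 y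
      have h1 : g • Z = Z := by
        have : g ∈ stabilizer G Z := by rw [h]; exact Subgroup.mem_top _
        exact this
      rw [← hg, ← h1]
      exact Set.smul_mem_smul_set hx0Z
    have hKeq : K = stabilizer G Z := by
      rcases eq_or_lt_of_le hKS with h | h
      · exact h
      · exact absurd (hK.2 _ h) hStop
    have key : ∀ y z : X, y ∈ Z → z ∈ Z → y ≠ x0 → z ≠ x0 → ∃ g ∈ H, g • y = z := by
      intro y z hy hz hyx hzx
      by_cases hyz : y = z
      · exact ⟨1, H.one_mem, by rw [one_smul, hyz]⟩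
      have hfin : ∀ σ : Perm X, Perm.sign σ = 1 → σ x0 = x0 → (∀ x ∈ Z, σ x ∈ Z) → σ y = z → ∃ g ∈ H, g • y = z := by
        intro σ h1 h2 h3 h4
        obtain ⟨g, hg⟩ := halt σ h1
        refine ⟨g, ?_, by rw [hg, h4]⟩
        rw [hH]
        refine ⟨?_, ?_⟩
        · show g ∈ K
          rw [hKeq]
          refine mem_stab fun x hx => ?_
          rw [hg]; exact h3 x hx
        · show g ∈ M
          rw [hMx, hg, h2]
      by_cases hw : ∃ w ∈ Z, w ≠ x0 ∧ w ≠ y ∧ w ≠ z
      · obtain ⟨w, hw, hwx, hwy, hwz⟩ := hw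
        refine hfin (cyc y z w) (cyc_sign hyz hwz.symm) (cyc_ne hyx.symm hzx.symm hwx.symm) ?_ (cyc_a hyz hwy.symm)
        intro x hx
        by_cases h1 : x = y
        · rw [h1, cyc_a hyz hwy.symm]; exact hz
        by_cases h2 : x = z
        · rw [h2, cyc_b hwy.symm hwz.symm]; exact hw
        by_cases h3 : x = w
        · rw [h3, cyc_c]; exact hy
        rw [cyc_ne h1 h2 h3]; exact hx
      · push Not at hw
        have hZ3 : Z = {x0, y, z} := by
          ext x
          constructor
          · intro hx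
            by_cases h1 : x = x0
            · simp [h1]
            by_cases h2 : x = y
            · simp [h2]
            simp [hw x hx h1 h2]
          · rintro (rfl | rfl | rfl)
            exacts [hx0Z, hy, hz]
        have hZc : Z.ncard = 3 := by
          rw [hZ3]
          exact Set.ncard_eq_three.mpr ⟨x0, y, z, hyx.symm, hzx.symm, hyz, rfl⟩
        have hcompl : 2 ≤ Zᶜ.ncard := by
          have h1 := Set.ncard_add_ncard_compl Z
          rw [hZc, Nat.card_eq_fintype_card] at h1
          have h2 : Zᶜ.ncard ≠ 0 := by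
            rw [Ne, Set.ncard_eq_zero (Set.toFinite _), Set.compl_empty_iff]
            exact hZnu
          rcases hodd with ⟨t, ht⟩
          omega
        obtain ⟨u, v, hu, hv, huv⟩ := (Set.one_lt_ncard_iff (Set.toFinite _)).mp (by omega : 1 < Zᶜ.ncard)
        have hu' : u ∉ Z := hu
        have hv' : v ∉ Z := hv
        have hne : ∀ w ∈ Z, swap u v w = w := fun w hw =>
          swap_apply_of_ne_of_ne (by rintro rfl; exact hu' hw) (by rintro rfl; exact hv' hw)
        refine hfin (swap y z * swap u v) ?_ ?_ ?_ ?_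
        · rw [Perm.sign_mul, Perm.sign_swap hyz, Perm.sign_swap huv]; rfl
        · rw [Perm.mul_apply, hne x0 hx0Z, swap_apply_of_ne_of_ne hyx.symm hzx.symm]
        · intro x hx
          rw [Perm.mul_apply, hne x hx]
          by_cases h1 : x = y
          · rw [h1, swap_apply_left]; exact hz
          by_cases h2 : x = z
          · rw [h2, swap_apply_right]; exact hy
          rw [swap_apply_of_ne_of_ne h1 h2]; exact hx
        · rw [Perm.mul_apply, hne y hy, swap_apply_left]
    rw [coatom_subgroupOf_iff hHK]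
    refine ⟨fun h => hKM' (h ▸ hHM), fun L hHL hLK => ?_⟩
    by_cases hLH : L ≤ H
    · exact Or.inl (le_antisymm hLH hHL)
    right
    refine le_antisymm hLK fun k hk => ?_
    obtain ⟨l, hl, hlH⟩ := Set.not_subset.mp hLH
    have hkH : ∀ g : G, g ∈ K → g • x0 = x0 → g ∈ L := by
      intro g hg hgx
      apply hHL
      rw [hH]
      exact ⟨hg, (hMx g).mpr hgx⟩
    by_cases hkx : k • x0 = x0
    · exact hkH k hk hkx
    have hlx : l • x0 ≠ x0 := by
      intro h
      apply hlH
      show l ∈ H
      rw [hH]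
      exact ⟨hLK hl, (hMx l).mpr h⟩
    obtain ⟨g, hg, hgy⟩ := key (l • x0) (k • x0) ⟨⟨l, hLK hl⟩, rfl⟩ ⟨⟨k, hk⟩, rfl⟩ hlx hkx
    have h1 : (g * l)⁻¹ * k ∈ L := by
      refine hkH _ (K.mul_mem (K.inv_mem (K.mul_mem (hHK hg) (hLK hl))) hk) ?_
      rw [mul_smul, ← hgy, smul_smul g l x0, inv_smul_smul]
    have h2 := L.mul_mem (L.mul_mem (hHL hg) hl) h1
    rwa [mul_inv_cancel_left] at h2

end H98.SecondMax
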