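import Mathlib

/-!
Derived length of finite 2-groups of matrices in odd characteristic: upper bound.
-/

set_option autoImplicit false
open scoped commutatorElement

namespace H98.SpDLA

/-- iterated commutator subgroups -/
def DS {G : Type*} [Group G] : ℕ → Subgroup G → Subgroup G
  | 0, P => P
  | n + 1, P => DS n ⁅P, P⁆

theorem DS_zero {G : Type*} [Group G] (P : Subgroup G) : DS 0 P = P := rfl
theorem DS_succ {G : Type*} [Group G] (n : ℕ) (P : Subgroup G) : DS (n + 1) P = DS n ⁅P, P⁆ := rfl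

theorem DS_mono {G : Type*} [Group G] (n : ℕ) : ∀ {P Q : Subgroup G}, P ≤ Q → DS n P ≤ DS n Q := by
  induction n with
  | zero => intro P Q h; exact h
  | succ n ih => intro P Q h; exact ih (Subgroup.commutator_mono h h)

theorem DS_succ' {G : Type*} [Group G] (n : ℕ) : ∀ (P : Subgroup G), DS (n + 1) P = ⁅DS n P, DS n P⁆ := by
  induction n with
  | zero => intro P; rfl
  | succ n ih => intro P; rw [DS_succ, ih, ← DS_succ]

theorem DS_le {G : Type*} [Group G] (n : ℕ) : ∀ (P : Subgroup G), DS n P ≤ P := by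
  induction n with
  | zero => intro P; exact le_refl _
  | succ n ih => intro P; exact (ih _).trans (Subgroup.commutator_le_self _)

theorem DS_map {G H : Type*} [Group G] [Group H] (f : G →* H) (n : ℕ) : ∀ (P : Subgroup G),
    (DS n P).map f = DS n (P.map f) := by
  induction n with
  | zero => intro P; rfl
  | succ n ih => intro P; rw [DS_succ, ih, Subgroup.map_commutator, ← DS_succ]

theorem DS_top {G : Type*} [Group G] (n : ℕ) : DS n (⊤ : Subgroup G) = derivedSeries G n := by
  induction n with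
  | zero => rfl
  | succ n ih => rw [DS_succ', ih, derivedSeries_succ]

theorem map_derivedSeries {G : Type*} [Group G] (R : Subgroup G) (n : ℕ) :
    (derivedSeries R n).map R.subtype = DS n R := by
  rw [← DS_top, DS_map, ← MonoidHom.range_eq_map, Subgroup.range_subtype]

theorem derivedSeries_eq_bot_iff {G : Type*} [Group G] (R : Subgroup G) (n : ℕ) :
    derivedSeries R n = ⊥ ↔ DS n R = ⊥ := by
  rw [← map_derivedSeries, Subgroup.map_eq_bot_iff_of_injective _ R.subtype_injective]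

theorem pick {P : Type*} [Group P] [Finite P] (hP : IsPGroup 2 P) (S : Subgroup P) [S.Normal] (hS : S ≠ ⊤) :
    ∃ b, b ∉ S ∧ b * b ∈ S ∧ ∀ g, ⁅b, g⁆ ∈ S := by
  haveI : Fact (Nat.Prime 2) := ⟨Nat.prime_two⟩
  have hQ : IsPGroup 2 (P ⧸ S) := hP.to_quotient S
  haveI : Nontrivial (P ⧸ S) := by
    rw [QuotientGroup.nontrivial_iff]
    exact hS
  have hc := hQ.center_nontrivial
  have hd : 2 ∣ Nat.card (Subgroup.center (P ⧸ S)) := by
    obtain ⟨k, hk⟩ := (IsPGroup.iff_card).mp (hQ.to_subgroup (Subgroup.center (P ⧸ S)))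
    have h1 : 1 < Nat.card (Subgroup.center (P ⧸ S)) := Finite.one_lt_card
    rw [hk] at h1 ⊢
    rcases k with _ | k
    · simp at h1
    · exact dvd_pow_self 2 (by omega)
  obtain ⟨z, hz⟩ := exists_prime_orderOf_dvd_card' 2 hd
  obtain ⟨b, hb⟩ := QuotientGroup.mk_surjective (z : P ⧸ S)
  refine ⟨b, ?_, ?_, ?_⟩
  · intro h
    rw [(QuotientGroup.eq_one_iff b).mpr h] at hb
    have : z = 1 := Subtype.ext hb.symm
    rw [this, orderOf_one] at hz
    omega
  · rw [← QuotientGroup.eq_one_iff, QuotientGroup.mk_mul, hb]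
    have := pow_orderOf_eq_one z
    rw [hz, pow_two] at this
    exact congrArg Subtype.val this
  · intro g
    rw [← QuotientGroup.eq_one_iff]
    have h1 : ((⁅b, g⁆ : P) : P ⧸ S) = ⁅(b : P ⧸ S), (g : P ⧸ S)⁆ := map_commutatorElement (QuotientGroup.mk' S) b g
    rw [h1, commutatorElement_eq_one_iff_mul_comm, hb]
    exact ((Subgroup.mem_center_iff.mp z.2) _).symm

variable {K V G : Type*} [Field K] [AddCommGroup V] [Module K V] [Group G]

/-- the elements of `P` acting as scalars on `W` -/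
def Sc (ρ : G →* Module.End K V) (W : Submodule K V) (P : Subgroup G) : Subgroup P where
  carrier := {g | ∃ c : K, c ≠ 0 ∧ ∀ w ∈ W, ρ (g : G) w = c • w}
  one_mem' := ⟨1, one_ne_zero, by intro w hw; simp⟩
  mul_mem' := by
    rintro a b ⟨c, hc, h1⟩ ⟨d, hd, h2⟩
    refine ⟨c * d, mul_ne_zero hc hd, fun w hw => ?_⟩
    rw [Subgroup.coe_mul, map_mul, Module.End.mul_apply, h2 w hw, map_smul, h1 w hw, smul_smul, mul_comm]
  inv_mem' := by
    rintro a ⟨c, hc, h1⟩
    refine ⟨c⁻¹, inv_ne_zero hc, fun w hw => ?_⟩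
    have h2 : ρ ((a : G)⁻¹) (ρ (a : G) w) = w := by
      rw [← Module.End.mul_apply, ← map_mul, inv_mul_cancel, map_one]; rfl
    rw [h1 w hw, map_smul] at h2
    rw [Subgroup.coe_inv]
    calc ρ ((a : G)⁻¹) w = c⁻¹ • (c • ρ ((a : G)⁻¹) w) := by rw [smul_smul, inv_mul_cancel₀ hc, one_smul]
      _ = c⁻¹ • w := by rw [h2]

theorem Sc_normal (ρ : G →* Module.End K V) (W : Submodule K V) (P : Subgroup G)
    (hW : ∀ g ∈ P, ∀ w ∈ W, ρ g w ∈ W) : (Sc ρ W P).Normal := by
  constructor
  rintro a ⟨c, hc, h1⟩ g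
  refine ⟨c, hc, fun w hw => ?_⟩
  rw [Subgroup.coe_mul, Subgroup.coe_mul, map_mul, map_mul, Module.End.mul_apply, Module.End.mul_apply,
    h1 _ (hW _ (g⁻¹).2 w hw), map_smul, ← Module.End.mul_apply, ← map_mul, Subgroup.coe_inv, mul_inv_cancel, map_one]
  rfl

theorem rho_inv (ρ : G →* Module.End K V) (g : G) (v : V) : ρ g⁻¹ (ρ g v) = v := by
  rw [← Module.End.mul_apply, ← map_mul, inv_mul_cancel, map_one]; rfl

theorem rho_inv' (ρ : G →* Module.End K V) (g : G) (v : V) : ρ g (ρ g⁻¹ v) = v := by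
  rw [← Module.End.mul_apply, ← map_mul, mul_inv_cancel, map_one]; rfl

theorem rho_ne (ρ : G →* Module.End K V) (g : G) {v : V} (hv : v ≠ 0) : ρ g v ≠ 0 := by
  intro h
  apply hv
  rw [← rho_inv ρ g v, h, map_zero]

/-- the part of `W` where `b` acts as `l` -/
def Eg (ρ : G →* Module.End K V) (W : Submodule K V) (b : G) (l : K) : Submodule K V where
  carrier := {w | w ∈ W ∧ ρ b w = l • w}
  zero_mem' := ⟨W.zero_mem, by simp⟩
  add_mem' := by
    rintro x y ⟨h1, h2⟩ ⟨h3, h4⟩
    exact ⟨W.add_mem h1 h3, by rw [map_add, h2, h4, smul_add]⟩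
  smul_mem' := by
    rintro c x ⟨h1, h2⟩
    exact ⟨W.smul_mem c h1, by rw [map_smul, h2, smul_comm]⟩

theorem mem_Eg {ρ : G →* Module.End K V} {W : Submodule K V} {b : G} {l : K} {w : V} :
    w ∈ Eg ρ W b l ↔ w ∈ W ∧ ρ b w = l • w := Iff.rfl

/-- the main induction -/
theorem up (h2 : (2 : K) ≠ 0) (hsq : ∀ x : K, ∃ y, y * y = x) (ρ : G →* Module.End K V) (d : ℕ) :
    ∀ (k : ℕ) (W : Submodule K V) (P : Subgroup G), FiniteDimensional K W → Finite P → IsPGroup 2 P →
      (∀ g ∈ P, ∀ w ∈ W, ρ g w ∈ W) → Module.finrank K W = d → d < 2 ^ (k + 1) →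
      ∀ g ∈ DS (k + 1) P, ∀ w ∈ W, ρ g w = w := by
  induction d using Nat.strong_induction_on with
  | _ d ih =>
  intro k W P hfd hfin hP hW hd hdk
  by_cases hS : Sc ρ W P = ⊤
  · -- all scalars
    have h3 : ∀ g ∈ ⁅P, P⁆, ∀ w ∈ W, ρ g w = w := by
      intro g hg
      refine Subgroup.closure_induction ?_ ?_ ?_ ?_ hg
      · rintro _ ⟨x, hx, y, hy, rfl⟩ w hw
        have hx' : (⟨x, hx⟩ : P) ∈ Sc ρ W P := hS ▸ Subgroup.mem_top _
        have hy' : (⟨y, hy⟩ : P) ∈ Sc ρ W P := hS ▸ Subgroup.mem_top _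
        have hxi := (Sc ρ W P).inv_mem hx'
        have hyi := (Sc ρ W P).inv_mem hy'
        obtain ⟨c, hc, h1⟩ := hx'
        obtain ⟨e, he, h4⟩ := hy'
        have h1i : ∀ w ∈ W, ρ x⁻¹ w = c⁻¹ • w := by
          intro w hw
          have := rho_inv ρ x w
          rw [h1 w hw, map_smul] at this
          rw [← this, smul_smul, inv_mul_cancel₀ hc, one_smul, this]
        have h4i : ∀ w ∈ W, ρ y⁻¹ w = e⁻¹ • w := by
          intro w hw
          have := rho_inv ρ y w
          rw [h4 w hw, map_smul] at this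
          rw [← this, smul_smul, inv_mul_cancel₀ he, one_smul, this]
        rw [commutatorElement_def, map_mul, map_mul, map_mul, Module.End.mul_apply, Module.End.mul_apply,
          Module.End.mul_apply, h4i w hw, map_smul, h1i w hw, map_smul, map_smul, map_smul]
        have h5 : ρ y w = e • w := h4 w hw
        have h6 : ρ x w = c • w := h1 w hw
        rw [map_smul, h5, map_smul, h6, smul_smul, smul_smul, smul_smul]
        have : e⁻¹ * (c⁻¹ * (e * c)) = 1 := by field_simp
        first | rw [this, one_smul] | (rw [show e⁻¹ * c⁻¹ * e * c = 1 by field_simp, one_smul])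
      · intro w hw; simp
      · intro x y _ _ h1 h4 w hw
        rw [map_mul, Module.End.mul_apply, h4 w hw, h1 w hw]
      · intro x _ h1 w hw
        have := rho_inv ρ x w
        rwa [h1 w hw] at this
    intro g hg w hw
    refine h3 g ?_ w hw
    exact DS_le k ⁅P, P⁆ hg
  · -- not all scalar
    have hSn := Sc_normal ρ W P hW
    obtain ⟨b, hb, hbb, hbg⟩ := pick hP (Sc ρ W P) hS
    obtain ⟨μ, hμ, hbμ⟩ := hbb
    have hbW : ∀ w ∈ W, ρ (b : G) w ∈ W := hW _ b.2
    have hbμ' : ∀ w ∈ W, ρ (b : G) (ρ (b : G) w) = μ • w := by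
      intro w hw
      rw [← hbμ w hw, Subgroup.coe_mul, map_mul]; rfl
    obtain ⟨l, hl⟩ := hsq μ
    have hl0 : l ≠ 0 := by rintro rfl; apply hμ; rw [← hl, zero_mul]
    -- decomposition
    have hdec : ∀ w ∈ W, ∃ u ∈ Eg ρ W (b : G) l, ∃ v ∈ Eg ρ W (b : G) (-l), w = u + v := by
      intro w hw
      refine ⟨(2 * l)⁻¹ • (l • w + ρ (b : G) w), ⟨W.smul_mem _ (W.add_mem (W.smul_mem _ hw) (hbW w hw)), ?_⟩,
        (2 * l)⁻¹ • (l • w - ρ (b : G) w), ⟨W.smul_mem _ (W.sub_mem (W.smul_mem _ hw) (hbW w hw)), ?_⟩, ?_⟩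
      · rw [map_smul, map_add, map_smul, hbμ' w hw, smul_comm l]
        congr 1
        rw [smul_add, smul_smul, hl, add_comm]
      · rw [map_smul, map_sub, map_smul, hbμ' w hw, smul_comm (-l)]
        congr 1
        rw [smul_sub, smul_smul, neg_mul, hl, neg_smul, neg_smul]
        abel
      · rw [← smul_add]
        have : l • w + ρ (b : G) w + (l • w - ρ (b : G) w) = (2 * l) • w := by
          rw [two_mul, add_smul]; abel
        rw [this, smul_smul, inv_mul_cancel₀ (mul_ne_zero h2 hl0), one_smul]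
    have hle1 : Eg ρ W (b : G) l ≤ W := fun w hw => hw.1
    have hle2 : Eg ρ W (b : G) (-l) ≤ W := fun w hw => hw.1
    have hne1 : Eg ρ W (b : G) l ≠ W := by
      intro h
      exact hb ⟨l, hl0, fun w hw => ((le_of_eq h.symm) hw).2⟩
    have hne2 : Eg ρ W (b : G) (-l) ≠ W := by
      intro h
      exact hb ⟨-l, neg_ne_zero.mpr hl0, fun w hw => ((le_of_eq h.symm) hw).2⟩
    have hf1 : FiniteDimensional K (Eg ρ W (b : G) l) := Submodule.finiteDimensional_of_le hle1
    have hf2 : FiniteDimensional K (Eg ρ W (b : G) (-l)) := Submodule.finiteDimensional_of_le hle2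
    have hlt1 : Module.finrank K (Eg ρ W (b : G) l) < Module.finrank K W :=
      Submodule.finrank_lt_finrank_of_lt (lt_of_le_of_ne hle1 hne1)
    have hlt2 : Module.finrank K (Eg ρ W (b : G) (-l)) < Module.finrank K W :=
      Submodule.finrank_lt_finrank_of_lt (lt_of_le_of_ne hle2 hne2)
    have hsup : Eg ρ W (b : G) l ⊔ Eg ρ W (b : G) (-l) = W := by
      apply le_antisymm (sup_le hle1 hle2)
      intro w hw
      obtain ⟨u, hu, v, hv, rfl⟩ := hdec w hw
      exact Submodule.add_mem_sup hu hv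
    have hinf : Eg ρ W (b : G) l ⊓ Eg ρ W (b : G) (-l) = ⊥ := by
      rw [eq_bot_iff]
      rintro w ⟨h3, h4⟩
      have h5 : l • w = (-l) • w := h3.2.symm.trans h4.2
      have h6 : (2 * l) • w = 0 := by
        rw [two_mul, add_smul]
        nth_rewrite 1 [h5]
        rw [neg_smul, neg_add_cancel]
      rw [Submodule.mem_bot]
      exact (smul_eq_zero.mp h6).resolve_left (mul_ne_zero h2 hl0)
    have hsum : Module.finrank K (Eg ρ W (b : G) l) + Module.finrank K (Eg ρ W (b : G) (-l)) = Module.finrank K W := by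
      have := Submodule.finrank_sup_add_finrank_inf_eq (Eg ρ W (b : G) l) (Eg ρ W (b : G) (-l))
      rw [hsup, hinf, finrank_bot, add_zero] at this
      exact this.symm
    -- the character
    have hch : ∀ g ∈ P, (∀ w ∈ W, ρ (b : G) (ρ g w) = ρ g (ρ (b : G) w)) ∨
        (∀ w ∈ W, ρ (b : G) (ρ g w) = - ρ g (ρ (b : G) w)) := by
      intro g hg
      obtain ⟨c, hc, h3⟩ := hbg ⟨g, hg⟩
      have h4 : ∀ w ∈ W, ρ (b : G) (ρ g w) = c • ρ g (ρ (b : G) w) := by
        intro w hw
        have h5 := h3 (ρ g (ρ (b : G) w)) (hW g hg _ (hbW w hw))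
        rw [← h5, commutatorElement_def]
        simp only [Subgroup.coe_mul, Subgroup.coe_inv, map_mul, Module.End.mul_apply]
        rw [rho_inv, rho_inv]
      by_cases hbot : W = ⊥
      · left
        intro w hw
        rw [hbot, Submodule.mem_bot] at hw
        rw [hw]; simp
      · obtain ⟨w, hw, hw0⟩ := (Submodule.ne_bot_iff W).mp hbot
        have h5 := hbμ' (ρ g w) (hW g hg w hw)
        rw [h4 w hw, map_smul, h4 _ (hbW w hw), hbμ' w hw, map_smul, smul_smul, smul_smul, ← sub_eq_zero, ← sub_smul] at h5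
        have h6 := (smul_eq_zero.mp h5).resolve_right (rho_ne ρ g hw0)
        have h7 : (c - 1) * (c + 1) = 0 := by
          have : ((c - 1) * (c + 1)) * μ = 0 := by linear_combination h6
          exact (mul_eq_zero.mp this).resolve_right hμ
        rcases mul_eq_zero.mp h7 with h8 | h8
        · left
          intro w hw
          rw [h4 w hw, sub_eq_zero.mp h8, one_smul]
        · right
          intro w hw
          rw [h4 w hw, eq_neg_of_add_eq_zero_left h8, neg_smul, one_smul]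
    by_cases hall : ∀ g ∈ P, ∀ w ∈ W, ρ (b : G) (ρ g w) = ρ g (ρ (b : G) w)
    · have hi1 : ∀ g ∈ P, ∀ w ∈ Eg ρ W (b : G) l, ρ g w ∈ Eg ρ W (b : G) l := by
        rintro g hg w ⟨hw, hw2⟩
        exact ⟨hW g hg w hw, by rw [hall g hg w hw, hw2, map_smul]⟩
      have hi2 : ∀ g ∈ P, ∀ w ∈ Eg ρ W (b : G) (-l), ρ g w ∈ Eg ρ W (b : G) (-l) := by
        rintro g hg w ⟨hw, hw2⟩
        exact ⟨hW g hg w hw, by rw [hall g hg w hw, hw2, map_smul]⟩
      have hr1 := ih _ (hd ▸ hlt1) k (Eg ρ W (b : G) l) P hf1 hfin hP hi1 rfl (by omega)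
      have hr2 := ih _ (hd ▸ hlt2) k (Eg ρ W (b : G) (-l)) P hf2 hfin hP hi2 rfl (by omega)
      intro g hg w hw
      obtain ⟨u, hu, v, hv, rfl⟩ := hdec w hw
      rw [map_add, hr1 g hg u hu, hr2 g hg v hv]
    · push Not at hall
      obtain ⟨g₀, hg₀, w₀, hw₀, hne⟩ := hall
      have hg₀' := (hch g₀ hg₀).resolve_left (fun h => hne (h w₀ hw₀))
      -- equal dimensions
      have hsw : ∀ m : K, ∀ w ∈ Eg ρ W (b : G) m, ρ g₀ w ∈ Eg ρ W (b : G) (-m) := by
        rintro m w ⟨hw, hw2⟩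
        exact ⟨hW g₀ hg₀ w hw, by rw [hg₀' w hw, hw2, map_smul, neg_smul]⟩
      have hinj : Function.Injective (ρ g₀) := by
        intro x y hxy
        rw [← rho_inv ρ g₀ x, hxy, rho_inv]
      have hle3 : Module.finrank K (Eg ρ W (b : G) l) ≤ Module.finrank K (Eg ρ W (b : G) (-l)) := by
        refine LinearMap.finrank_le_finrank_of_injective (f := (ρ g₀).restrict (hsw l)) ?_
        intro x y hxy
        exact Subtype.ext (hinj (congrArg Subtype.val hxy))
      have hle4 : Module.finrank K (Eg ρ W (b : G) (-l)) ≤ Module.finrank K (Eg ρ W (b : G) l) := by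
        have hsw' : ∀ w ∈ Eg ρ W (b : G) (-l), ρ g₀ w ∈ Eg ρ W (b : G) l := by
          intro w hw
          have := hsw (-l) w hw
          rwa [neg_neg] at this
        refine LinearMap.finrank_le_finrank_of_injective (f := (ρ g₀).restrict hsw') ?_
        intro x y hxy
        exact Subtype.ext (hinj (congrArg Subtype.val hxy))
      have hcomm : ∀ g ∈ ⁅P, P⁆, ∀ w ∈ W, ρ (b : G) (ρ g w) = ρ g (ρ (b : G) w) := by
        have hWi : ∀ g ∈ P, ∀ w ∈ W, ρ g⁻¹ w ∈ W := fun g hg w hw => hW _ (P.inv_mem hg) w hw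
        intro g hg
        refine Subgroup.closure_induction (p := fun g _ => ∀ w ∈ W, ρ (b : G) (ρ g w) = ρ g (ρ (b : G) w)) ?_ ?_ ?_ ?_ hg
        · rintro _ ⟨x, hx, y, hy, rfl⟩ w hw
          have hxi : ∀ w ∈ W, ∀ ε : K, (∀ w ∈ W, ρ (b : G) (ρ x w) = ε • ρ x (ρ (b : G) w)) → ε * ε = 1 →
            ρ (b : G) (ρ x⁻¹ w) = ε • ρ x⁻¹ (ρ (b : G) w) := by
            intro w hw ε h1 h2
            have h3 := h1 (ρ x⁻¹ w) (hWi x hx w hw)
            rw [rho_inv'] at h3
            rw [h3, map_smul, rho_inv, smul_smul, h2, one_smul]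
          have hyi : ∀ w ∈ W, ∀ ε : K, (∀ w ∈ W, ρ (b : G) (ρ y w) = ε • ρ y (ρ (b : G) w)) → ε * ε = 1 →
            ρ (b : G) (ρ y⁻¹ w) = ε • ρ y⁻¹ (ρ (b : G) w) := by
            intro w hw ε h1 h2
            have h3 := h1 (ρ y⁻¹ w) (hWi y hy w hw)
            rw [rho_inv'] at h3
            rw [h3, map_smul, rho_inv, smul_smul, h2, one_smul]
          obtain ⟨ε, hε, hε'⟩ : ∃ ε : K, ε * ε = 1 ∧ ∀ w ∈ W, ρ (b : G) (ρ x w) = ε • ρ x (ρ (b : G) w) := by
            rcases hch x hx with h | h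
            · exact ⟨1, by ring, fun w hw => by rw [h w hw, one_smul]⟩
            · exact ⟨-1, by ring, fun w hw => by rw [h w hw, neg_smul, one_smul]⟩
          obtain ⟨δ, hδ, hδ'⟩ : ∃ ε : K, ε * ε = 1 ∧ ∀ w ∈ W, ρ (b : G) (ρ y w) = ε • ρ y (ρ (b : G) w) := by
            rcases hch y hy with h | h
            · exact ⟨1, by ring, fun w hw => by rw [h w hw, one_smul]⟩
            · exact ⟨-1, by ring, fun w hw => by rw [h w hw, neg_smul, one_smul]⟩
          rw [commutatorElement_def]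
          simp only [map_mul, Module.End.mul_apply]
          have h1 := hWi y hy w hw
          have h2 := hWi x hx _ h1
          have h3 := hW y hy _ h2
          rw [hε' _ h3, hδ' _ h2, map_smul, hxi _ h1 ε hε' hε, map_smul, map_smul, hyi _ hw δ hδ' hδ, map_smul, map_smul,
            map_smul, smul_smul, smul_smul, smul_smul]
          have : ε * (δ * (ε * δ)) = 1 := by linear_combination δ * δ * hε + hδ
          first | rw [this, one_smul] | (rw [show ε * δ * ε * δ = 1 by linear_combination δ * δ * hε + hδ, one_smul])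
        · intro w hw; simp
        · intro x y hx hy h1 h4 w hw
          have hy' : y ∈ P := Subgroup.commutator_le_self P hy
          rw [map_mul, Module.End.mul_apply, Module.End.mul_apply, h1 _ (hW y hy' w hw), h4 w hw]
        · intro x hx h1 w hw
          have hx' : x ∈ P := Subgroup.commutator_le_self P hx
          have h3 := h1 (ρ x⁻¹ w) (hWi x hx' w hw)
          rw [rho_inv'] at h3
          rw [h3, rho_inv]
      have hi : ∀ m : K, ∀ g ∈ ⁅P, P⁆, ∀ w ∈ Eg ρ W (b : G) m, ρ g w ∈ Eg ρ W (b : G) m := by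
        rintro m g hg w ⟨hw, hw2⟩
        exact ⟨hW g (Subgroup.commutator_le_self P hg) w hw, by rw [hcomm g hg w hw, hw2, map_smul]⟩
      have hP' : IsPGroup 2 (⁅P, P⁆ : Subgroup G) := hP.to_le (Subgroup.commutator_le_self P)
      have hfin' : Finite (⁅P, P⁆ : Subgroup G) := Finite.of_injective _ (Subgroup.inclusion_injective (Subgroup.commutator_le_self P))
      have hk : ∃ j, k = j + 1 := by
        rcases k with _ | k
        · rw [zero_add, pow_one] at hdk
          omega
        · exact ⟨k, rfl⟩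
      obtain ⟨j, rfl⟩ := hk
      rw [pow_succ] at hdk
      have hr1 := ih _ (hd ▸ hlt1) j (Eg ρ W (b : G) l) ⁅P, P⁆ hf1 hfin' hP' (hi l) rfl (by omega)
      have hr2 := ih _ (hd ▸ hlt2) j (Eg ρ W (b : G) (-l)) ⁅P, P⁆ hf2 hfin' hP' (hi (-l)) rfl (by omega)
      intro g hg w hw
      rw [DS_succ] at hg
      obtain ⟨u, hu, v, hv, rfl⟩ := hdec w hw
      rw [map_add, hr1 g hg u hu, hr2 g hg v hv]

end H98.SpDLA
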