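import Mathlib
import Cfsg.Agent.Lib.H98.SpDLA

/-!
Derived length of finite 2-groups of symplectic matrices in odd characteristic: lower bound.
-/

set_option autoImplicit false
open scoped commutatorElement

namespace H98.SpDLB

open H98.SpDLA

theorem double {A B : Type*} [Group A] [Group B] (φ : A × A →* B) (hφ : Function.Injective φ) (τ : B)
    (hτ : τ * τ = 1) (hsw : ∀ a b, τ * φ (a, b) * τ = φ (b, a)) (S : Subgroup A) (hS : IsPGroup 2 S) (m : ℕ)
    (hD : DS m S ≠ ⊥) : ∃ P : Subgroup B, IsPGroup 2 P ∧ DS (m + 1) P ≠ ⊥ := by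
  haveI : Fact (Nat.Prime 2) := ⟨Nat.prime_two⟩
  have hτi : τ⁻¹ = τ := inv_eq_of_mul_eq_one_left hτ
  set N : Subgroup B := (S.prod S).map φ with hN
  have hN2 : IsPGroup 2 N := by
    refine IsPGroup.map ?_ φ
    rintro ⟨⟨a, b⟩, hab⟩
    rw [Subgroup.mem_prod] at hab
    obtain ⟨ha, hb⟩ := hab
    obtain ⟨k, hk⟩ := hS ⟨a, ha⟩
    obtain ⟨l, hl⟩ := hS ⟨b, hb⟩
    have hk' : a ^ 2 ^ k = 1 := congrArg Subtype.val hk
    have hl' : b ^ 2 ^ l = 1 := congrArg Subtype.val hl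
    refine ⟨k + l, Subtype.ext ?_⟩
    show (a, b) ^ 2 ^ (k + l) = 1
    rw [Prod.pow_mk, pow_add, pow_mul, hk', one_pow, mul_comm (2 ^ k), pow_mul, hl', one_pow]
    rfl
  have hτ2 : IsPGroup 2 (Subgroup.zpowers τ) := by
    rw [IsPGroup.iff_orderOf] 
    rintro ⟨x, hx⟩
    obtain ⟨j, rfl⟩ := Subgroup.mem_zpowers_iff.mp hx
    have : orderOf (⟨τ ^ j, hx⟩ : Subgroup.zpowers τ) ∣ 2 ^ 1 := by
      rw [pow_one, ← Subgroup.orderOf_coe]
      apply orderOf_dvd_of_pow_eq_one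
      show (τ ^ j) ^ 2 = 1
      rw [← zpow_natCast, ← _root_.zpow_mul, mul_comm, _root_.zpow_mul, zpow_natCast, pow_two, hτ, _root_.one_zpow]
    obtain ⟨i, _, hi⟩ := (Nat.dvd_prime_pow Nat.prime_two).mp this
    exact ⟨i, hi⟩
  have hnorm : Subgroup.zpowers τ ≤ Subgroup.normalizer (N : Set B) := by
    rw [Subgroup.zpowers_le, Subgroup.mem_normalizer_iff]
    have h1 : ∀ h, h ∈ N → τ * h * τ⁻¹ ∈ N := by
      rintro _ ⟨⟨a, b⟩, hab, rfl⟩
      rw [hτi, hsw]
      refine ⟨(b, a), ?_, rfl⟩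
      rw [SetLike.mem_coe, Subgroup.mem_prod] at hab ⊢
      exact ⟨hab.2, hab.1⟩
    intro h
    refine ⟨h1 h, fun h2 => ?_⟩
    have h3 := h1 _ h2
    rw [hτi] at h3
    have : τ * (τ * h * τ) * τ = h := by
      calc τ * (τ * h * τ) * τ = (τ * τ) * h * (τ * τ) := by group
        _ = h := by rw [hτ]; simp
    rwa [this] at h3
  refine ⟨Subgroup.zpowers τ ⊔ N, hτ2.to_sup_of_normal_right' hN2 hnorm, ?_⟩
  intro hbot
  apply hD
  set P := Subgroup.zpowers τ ⊔ N with hP
  set T : Subgroup (A × A) := (⁅P, P⁆ : Subgroup B).comap φ with hT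
  have h1 : S ≤ T.map (MonoidHom.snd A A) := by
    intro a ha
    refine ⟨(a⁻¹, a), ?_, rfl⟩
    show φ (a⁻¹, a) ∈ ⁅P, P⁆
    have h2 : ⁅τ, φ (a, 1)⁆ = φ (a⁻¹, a) := by
      rw [commutatorElement_def, hτi, hsw, ← map_inv, ← map_mul]
      simp
    rw [← h2]
    refine Subgroup.commutator_mem_commutator (Subgroup.mem_sup_left (Subgroup.mem_zpowers τ))
      (Subgroup.mem_sup_right ⟨(a, 1), ?_, rfl⟩)
    rw [SetLike.mem_coe, Subgroup.mem_prod]
    exact ⟨ha, S.one_mem⟩
  have h2 : (DS m T).map φ = ⊥ := by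
    rw [eq_bot_iff, ← hbot, DS_map, DS_succ]
    exact DS_mono m (Subgroup.map_comap_le _ _)
  rw [Subgroup.map_eq_bot_iff_of_injective _ hφ] at h2
  rw [eq_bot_iff]
  refine (DS_mono m h1).trans ?_
  rw [← DS_map, h2, Subgroup.map_bot]

theorem isPGroup_zpowers {G : Type*} [Group G] {p n : ℕ} (hp : p.Prime) {x : G} (h : x ^ p ^ n = 1) :
    IsPGroup p (Subgroup.zpowers x) := by
  haveI : Fact p.Prime := ⟨hp⟩
  rintro ⟨y, hy⟩
  obtain ⟨j, rfl⟩ := Subgroup.mem_zpowers_iff.mp hy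
  refine ⟨n, Subtype.ext ?_⟩
  show (x ^ j) ^ p ^ n = 1
  rw [← zpow_natCast, ← _root_.zpow_mul, mul_comm, _root_.zpow_mul, zpow_natCast, h, _root_.one_zpow]

theorem quat {G : Type*} [Group G] {i j z : G} (hii : i * i = z) (hjj : j * j = z) (hzz : z * z = 1)
    (hij : i * j = z * (j * i)) (hzne : z ≠ 1) : ∃ P : Subgroup G, IsPGroup 2 P ∧ DS 1 P ≠ ⊥ := by
  haveI : Fact (Nat.Prime 2) := ⟨Nat.prime_two⟩
  have hi4 : i ^ 2 ^ 2 = 1 := by
    calc i ^ 2 ^ 2 = (i * i) * (i * i) := by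
          rw [show (2 : ℕ) ^ 2 = 4 from rfl]; simp only [pow_succ, pow_zero, one_mul, mul_assoc]
      _ = 1 := by rw [hii, hzz]
  have hj4 : j ^ 2 ^ 2 = 1 := by
    calc j ^ 2 ^ 2 = (j * j) * (j * j) := by
          rw [show (2 : ℕ) ^ 2 = 4 from rfl]; simp only [pow_succ, pow_zero, one_mul, mul_assoc]
      _ = 1 := by rw [hjj, hzz]
  have hcz : i * j * i⁻¹ = j ^ 3 := by
    rw [mul_inv_eq_iff_eq_mul, hij]
    calc z * (j * i) = (j * j) * (j * i) := by rw [hjj]
      _ = j ^ 3 * i := by simp only [pow_succ, pow_zero, one_mul, mul_assoc]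
  have hnorm : Subgroup.zpowers i ≤ Subgroup.normalizer ((Subgroup.zpowers j : Subgroup _) : Set G) := by
    rw [Subgroup.zpowers_le, Subgroup.mem_normalizer_iff]
    have h3 : ∀ h, h ∈ Subgroup.zpowers j → i * h * i⁻¹ ∈ Subgroup.zpowers j := by
      intro h hh
      obtain ⟨k, rfl⟩ := Subgroup.mem_zpowers_iff.mp hh
      rw [← conj_zpow, hcz]
      exact (Subgroup.zpowers j).zpow_mem ((Subgroup.zpowers j).pow_mem (Subgroup.mem_zpowers j) 3) k
    intro h
    refine ⟨h3 h, fun h4 => ?_⟩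
    have h5 := h3 _ (h3 _ (h3 _ h4))
    have : i * (i * (i * (i * h * i⁻¹) * i⁻¹) * i⁻¹) * i⁻¹ = h := by
      calc i * (i * (i * (i * h * i⁻¹) * i⁻¹) * i⁻¹) * i⁻¹ = (i ^ 2 ^ 2) * h * (i ^ 2 ^ 2)⁻¹ := by
            rw [show (2 : ℕ) ^ 2 = 4 from rfl]
            simp only [pow_succ, pow_zero, one_mul, mul_assoc, mul_inv_rev]
        _ = h := by rw [hi4]; simp
    rwa [this] at h5
  refine ⟨Subgroup.zpowers i ⊔ Subgroup.zpowers j,
    (isPGroup_zpowers Nat.prime_two hi4).to_sup_of_normal_right' (isPGroup_zpowers Nat.prime_two hj4) hnorm, ?_⟩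
  intro hbot
  have h3 : ⁅i, j⁆ ∈ DS 1 (Subgroup.zpowers i ⊔ Subgroup.zpowers j) :=
    Subgroup.commutator_mem_commutator (Subgroup.mem_sup_left (Subgroup.mem_zpowers i))
      (Subgroup.mem_sup_right (Subgroup.mem_zpowers j))
  rw [hbot, Subgroup.mem_bot, commutatorElement_def, hcz] at h3
  apply hzne
  rw [← hjj]
  calc j * j = j ^ 3 * j⁻¹ := by rw [pow_succ, mul_inv_cancel_right, pow_two]
    _ = 1 := h3

open Matrix

variable {F : Type*} [Field F]

theorem J_sum (l m : Type*) [DecidableEq l] [DecidableEq m] :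
    J (l ⊕ m) F = (fromBlocks (J l F) 0 0 (J m F)).submatrix (Equiv.sumSumSumComm l l m m).symm
      (Equiv.sumSumSumComm l l m m).symm := by
  ext (i | i) (j | j) <;> rcases i with i | i <;> rcases j with j | j <;>
    simp [J, Equiv.sumSumSumComm, Matrix.one_apply]

theorem blk_mem (l m : Type*) [DecidableEq l] [DecidableEq m] [Fintype l] [Fintype m]
    (x : symplecticGroup l F) (y : symplecticGroup m F) :
    (fromBlocks (x : Matrix (l ⊕ l) (l ⊕ l) F) 0 0 (y : Matrix (m ⊕ m) (m ⊕ m) F)).submatrix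
      (Equiv.sumSumSumComm l l m m).symm (Equiv.sumSumSumComm l l m m).symm ∈ symplecticGroup (l ⊕ m) F := by
  rw [SymplecticGroup.mem_iff, J_sum, transpose_submatrix, submatrix_mul_equiv, submatrix_mul_equiv,
    fromBlocks_transpose, fromBlocks_multiply, fromBlocks_multiply]
  have h1 := SymplecticGroup.mem_iff.mp x.2
  have h2 := SymplecticGroup.mem_iff.mp y.2
  simp [h1, h2]

/-- block sums -/
def blk (l m : Type*) [DecidableEq l] [DecidableEq m] [Fintype l] [Fintype m] :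
    symplecticGroup l F × symplecticGroup m F →* symplecticGroup (l ⊕ m) F where
  toFun x := ⟨_, blk_mem l m x.1 x.2⟩
  map_one' := by
    apply Subtype.ext
    simp
  map_mul' x y := by
    apply Subtype.ext
    show (fromBlocks ((x.1 : Matrix (l ⊕ l) (l ⊕ l) F) * (y.1 : Matrix (l ⊕ l) (l ⊕ l) F)) 0 0
      ((x.2 : Matrix (m ⊕ m) (m ⊕ m) F) * (y.2 : Matrix (m ⊕ m) (m ⊕ m) F))).submatrix
      (Equiv.sumSumSumComm l l m m).symm (Equiv.sumSumSumComm l l m m).symm =
      (fromBlocks (x.1 : Matrix (l ⊕ l) (l ⊕ l) F) 0 0 (x.2 : Matrix (m ⊕ m) (m ⊕ m) F)).submatrix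
      (Equiv.sumSumSumComm l l m m).symm (Equiv.sumSumSumComm l l m m).symm *
      (fromBlocks (y.1 : Matrix (l ⊕ l) (l ⊕ l) F) 0 0 (y.2 : Matrix (m ⊕ m) (m ⊕ m) F)).submatrix
      (Equiv.sumSumSumComm l l m m).symm (Equiv.sumSumSumComm l l m m).symm
    rw [submatrix_mul_equiv, fromBlocks_multiply]
    simp

theorem blk_injective (l m : Type*) [DecidableEq l] [DecidableEq m] [Fintype l] [Fintype m] :
    Function.Injective (blk (F := F) l m) := by
  intro x y hxy
  have h1 : (fromBlocks (x.1 : Matrix (l ⊕ l) (l ⊕ l) F) 0 0 (x.2 : Matrix (m ⊕ m) (m ⊕ m) F)).submatrix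
      (Equiv.sumSumSumComm l l m m).symm (Equiv.sumSumSumComm l l m m).symm =
      (fromBlocks (y.1 : Matrix (l ⊕ l) (l ⊕ l) F) 0 0 (y.2 : Matrix (m ⊕ m) (m ⊕ m) F)).submatrix
      (Equiv.sumSumSumComm l l m m).symm (Equiv.sumSumSumComm l l m m).symm := congrArg Subtype.val hxy
  have h2 := congrArg (fun M => Matrix.submatrix M (Equiv.sumSumSumComm l l m m) (Equiv.sumSumSumComm l l m m)) h1
  simp only [submatrix_submatrix, Equiv.symm_comp_self, submatrix_id_id] at h2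
  rw [fromBlocks_inj] at h2
  exact Prod.ext (Subtype.ext h2.1) (Subtype.ext h2.2.2.2)

theorem J_rei {l m : Type*} [DecidableEq l] [DecidableEq m] (e : m ≃ l) :
    J m F = (J l F).submatrix (Equiv.sumCongr e e) (Equiv.sumCongr e e) := by
  ext (i | i) (j | j) <;> simp [J, Matrix.one_apply]

theorem rei_mem {l m : Type*} [DecidableEq l] [DecidableEq m] [Fintype l] [Fintype m] (e : m ≃ l)
    (x : symplecticGroup l F) :
    (x : Matrix (l ⊕ l) (l ⊕ l) F).submatrix (Equiv.sumCongr e e) (Equiv.sumCongr e e) ∈ symplecticGroup m F := by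
  have h1 := SymplecticGroup.mem_iff.mp x.2
  rw [SymplecticGroup.mem_iff, J_rei e, transpose_submatrix, submatrix_mul_equiv, submatrix_mul_equiv, h1]

/-- reindexing -/
def rei {l m : Type*} [DecidableEq l] [DecidableEq m] [Fintype l] [Fintype m] (e : m ≃ l) :
    symplecticGroup l F →* symplecticGroup m F where
  toFun x := ⟨_, rei_mem e x⟩
  map_one' := by
    apply Subtype.ext
    simp
  map_mul' x y := by
    apply Subtype.ext
    show ((x : Matrix (l ⊕ l) (l ⊕ l) F) * (y : Matrix (l ⊕ l) (l ⊕ l) F)).submatrix (Equiv.sumCongr e e) (Equiv.sumCongr e e) =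
      (x : Matrix (l ⊕ l) (l ⊕ l) F).submatrix (Equiv.sumCongr e e) (Equiv.sumCongr e e) *
      (y : Matrix (l ⊕ l) (l ⊕ l) F).submatrix (Equiv.sumCongr e e) (Equiv.sumCongr e e)
    rw [submatrix_mul_equiv]

theorem rei_injective {l m : Type*} [DecidableEq l] [DecidableEq m] [Fintype l] [Fintype m] (e : m ≃ l) :
    Function.Injective (rei (F := F) e) := by
  intro x y hxy
  have h1 : (x : Matrix (l ⊕ l) (l ⊕ l) F).submatrix (Equiv.sumCongr e e) (Equiv.sumCongr e e) =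
    (y : Matrix (l ⊕ l) (l ⊕ l) F).submatrix (Equiv.sumCongr e e) (Equiv.sumCongr e e) := congrArg Subtype.val hxy
  apply Subtype.ext
  ext i j
  have := congrFun (congrFun h1 ((Equiv.sumCongr e e).symm i)) ((Equiv.sumCongr e e).symm j)
  simpa using this

/-- the underlying permutation of the swap -/
def pi (l : Type*) : (l ⊕ l) ⊕ (l ⊕ l) ≃ (l ⊕ l) ⊕ (l ⊕ l) :=
  Equiv.sumCongr (Equiv.sumComm l l) (Equiv.sumComm l l)

theorem pi_pi (l : Type*) (x : (l ⊕ l) ⊕ (l ⊕ l)) : pi l (pi l x) = x := by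
  rcases x with (x | x) | (x | x) <;> rfl

/-- the swap matrix -/
def swM (F : Type*) [Field F] (l : Type*) [DecidableEq l] : Matrix ((l ⊕ l) ⊕ (l ⊕ l)) ((l ⊕ l) ⊕ (l ⊕ l)) F :=
  (1 : Matrix ((l ⊕ l) ⊕ (l ⊕ l)) ((l ⊕ l) ⊕ (l ⊕ l)) F).submatrix (pi l) id

theorem swM_mul {l : Type*} [DecidableEq l] [Fintype l] (M : Matrix ((l ⊕ l) ⊕ (l ⊕ l)) ((l ⊕ l) ⊕ (l ⊕ l)) F) :
    swM F l * M = M.submatrix (pi l) id := by
  ext i j
  simp [swM, Matrix.mul_apply, Matrix.one_apply]

theorem mul_swM {l : Type*} [DecidableEq l] [Fintype l] (M : Matrix ((l ⊕ l) ⊕ (l ⊕ l)) ((l ⊕ l) ⊕ (l ⊕ l)) F) :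
    M * swM F l = M.submatrix id (pi l) := by
  ext i j
  have : ∀ x, pi l x = j ↔ x = pi l j := by
    intro x
    constructor
    · rintro rfl; exact (pi_pi l x).symm
    · rintro rfl; exact pi_pi l j
  simp [swM, Matrix.mul_apply, Matrix.one_apply, this]

theorem swM_transpose {l : Type*} [DecidableEq l] : (swM F l)ᵀ = swM F l := by
  ext i j
  have : pi l j = i ↔ pi l i = j := by
    constructor
    · rintro rfl; exact pi_pi l j
    · rintro rfl; exact pi_pi l i
  simp [swM, Matrix.one_apply, this]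

theorem swM_mem {l : Type*} [DecidableEq l] [Fintype l] : swM F l ∈ symplecticGroup (l ⊕ l) F := by
  rw [SymplecticGroup.mem_iff, swM_transpose, swM_mul, mul_swM, submatrix_submatrix]
  have := J_rei (F := F) (Equiv.sumComm l l)
  exact this.symm

/-- the swap -/
def sw (F : Type*) [Field F] (l : Type*) [DecidableEq l] [Fintype l] : symplecticGroup (l ⊕ l) F := ⟨swM F l, swM_mem⟩

theorem sw_sw {l : Type*} [DecidableEq l] [Fintype l] : sw F l * sw F l = 1 := by
  apply Subtype.ext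
  show swM F l * swM F l = 1
  rw [swM_mul]
  ext i j
  simp [swM, Matrix.one_apply, pi_pi]

theorem sw_blk {l : Type*} [DecidableEq l] [Fintype l] (a b : symplecticGroup l F) :
    sw F l * blk l l (a, b) * sw F l = blk l l (b, a) := by
  apply Subtype.ext
  show swM F l * (fromBlocks (a : Matrix (l ⊕ l) (l ⊕ l) F) 0 0 (b : Matrix (l ⊕ l) (l ⊕ l) F)).submatrix
      (Equiv.sumSumSumComm l l l l).symm (Equiv.sumSumSumComm l l l l).symm * swM F l =
      (fromBlocks (b : Matrix (l ⊕ l) (l ⊕ l) F) 0 0 (a : Matrix (l ⊕ l) (l ⊕ l) F)).submatrix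
      (Equiv.sumSumSumComm l l l l).symm (Equiv.sumSumSumComm l l l l).symm
  rw [swM_mul, mul_swM, submatrix_submatrix, submatrix_submatrix]
  ext ((i | i) | (i | i)) ((j | j) | (j | j)) <;> simp [pi, Equiv.sumSumSumComm]

/-- scalar 2 x 2 matrices -/
theorem sc_mem (a b c d : F) (h : a * d - b * c = 1) :
    fromBlocks (a • (1 : Matrix (Fin 1) (Fin 1) F)) (b • (1 : Matrix (Fin 1) (Fin 1) F)) (c • (1 : Matrix (Fin 1) (Fin 1) F))
      (d • (1 : Matrix (Fin 1) (Fin 1) F)) ∈ symplecticGroup (Fin 1) F := by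
  rw [SymplecticGroup.mem_iff, Matrix.J, fromBlocks_transpose, fromBlocks_multiply, fromBlocks_multiply]
  ext (i | i) (j | j)
  · fin_cases i; fin_cases j
    simp
    ring
  · fin_cases i; fin_cases j
    simp
    linear_combination -h
  · fin_cases i; fin_cases j
    simp
    linear_combination h
  · fin_cases i; fin_cases j
    simp
    ring

/-- scalar 2 x 2 matrices -/
def sc (a b c d : F) (h : a * d - b * c = 1) : symplecticGroup (Fin 1) F := ⟨_, sc_mem a b c d h⟩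

theorem sc_mul (a b c d a' b' c' d' : F) (h : a * d - b * c = 1) (h' : a' * d' - b' * c' = 1)
    (h'' : (a * a' + b * c') * (c * b' + d * d') - (a * b' + b * d') * (c * a' + d * c') = 1) :
    sc a b c d h * sc a' b' c' d' h' = sc (a * a' + b * c') (a * b' + b * d') (c * a' + d * c') (c * b' + d * d') h'' := by
  apply Subtype.ext
  show fromBlocks _ _ _ _ * fromBlocks _ _ _ _ = fromBlocks _ _ _ _
  rw [fromBlocks_multiply]
  simp only [smul_mul_assoc, mul_smul_comm, Matrix.one_mul, smul_smul, ← add_smul]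
  congr 2 <;> ring

theorem sc_congr {a b c d a' b' c' d' : F} {h : a * d - b * c = 1} {h' : a' * d' - b' * c' = 1}
    (h1 : a = a') (h2 : b = b') (h3 : c = c') (h4 : d = d') : sc a b c d h = sc a' b' c' d' h' := by
  subst h1 h2 h3 h4
  rfl

theorem base (F : Type*) [Field F] [Finite F] (h2 : (2 : F) ≠ 0) :
    ∃ P : Subgroup (symplecticGroup (Fin 1) F), IsPGroup 2 P ∧ DS 1 P ≠ ⊥ := by
  haveI : Fact (Nat.Prime 2) := ⟨Nat.prime_two⟩
  obtain ⟨p, hp⟩ := CharP.exists F
  haveI : NeZero p := by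
    refine ⟨?_⟩
    rintro rfl
    have := CharP.char_ne_zero_of_finite F 0
    exact this rfl
  obtain ⟨a, b, hab⟩ := CharP.sq_add_sq F p (-1)
  push_cast at hab
  have h1 : (a : F) * (-a) - b * b = 1 := by linear_combination -hab
  set i : symplecticGroup (Fin 1) F := sc (a : F) b b (-a) h1 with hi
  set j : symplecticGroup (Fin 1) F := sc (0 : F) 1 (-1) 0 (by ring) with hj
  set z : symplecticGroup (Fin 1) F := sc (-1 : F) 0 0 (-1) (by ring) with hz
  have hii : i * i = z := by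
    rw [hi, sc_mul _ _ _ _ _ _ _ _ _ _ (by linear_combination (-(a : F) ^ 2 - b ^ 2 + 1) * (-hab) - 0 * hab)]
    exact sc_congr (by linear_combination hab) (by ring) (by ring) (by linear_combination hab)
  have hjj : j * j = z := by
    rw [hj, sc_mul _ _ _ _ _ _ _ _ _ _ (by ring)]
    exact sc_congr (by ring) (by ring) (by ring) (by ring)
  have hzz : z * z = 1 := by
    rw [hz, sc_mul _ _ _ _ _ _ _ _ _ _ (by ring)]
    apply Subtype.ext
    show fromBlocks _ _ _ _ = (1 : Matrix (Fin 1 ⊕ Fin 1) (Fin 1 ⊕ Fin 1) F)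
    simp
  have hij : i * j = z * (j * i) := by
    rw [hi, hj, hz, sc_mul _ _ _ _ _ _ _ _ _ _ (by linear_combination -hab), sc_mul _ _ _ _ _ _ _ _ _ _ (by linear_combination -hab),
      sc_mul _ _ _ _ _ _ _ _ _ _ (by linear_combination -hab)]
    exact sc_congr (by ring) (by ring) (by ring) (by ring)
  have hzne : z ≠ 1 := by
    intro h
    have h3 : fromBlocks ((-1 : F) • (1 : Matrix (Fin 1) (Fin 1) F)) ((0 : F) • (1 : Matrix (Fin 1) (Fin 1) F))
      ((0 : F) • (1 : Matrix (Fin 1) (Fin 1) F)) ((-1 : F) • (1 : Matrix (Fin 1) (Fin 1) F)) = 1 := congrArg Subtype.val h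
    have h4 := congrFun (congrFun h3 (Sum.inl 0)) (Sum.inl 0)
    simp at h4
    apply h2
    linear_combination -h4
  exact quat hii hjj hzz hij hzne

theorem log_step (n : ℕ) (hn : 2 ≤ n) : Nat.log 2 (2 * n) = Nat.log 2 (2 * (n / 2)) + 1 := by
  rw [Nat.log_of_one_lt_of_le (by norm_num) (by omega : 2 ≤ 2 * n)]
  rw [Nat.mul_div_cancel_left _ (by norm_num : 0 < 2)]
  rcases Nat.even_or_odd' n with ⟨m, rfl | rfl⟩
  · rw [Nat.mul_div_cancel_left _ (by norm_num : 0 < 2)]
  · have : (2 * m + 1) / 2 = m := by omega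
    rw [this, Nat.log_of_one_lt_of_le (by norm_num) (by omega : 2 ≤ 2 * m + 1), this,
      Nat.log_of_one_lt_of_le (by norm_num) (by omega : 2 ≤ 2 * m), Nat.mul_div_cancel_left _ (by norm_num : 0 < 2)]

theorem lower (F : Type*) [Field F] [Finite F] (h2 : (2 : F) ≠ 0) (n : ℕ) : 1 ≤ n →
    ∃ P : Subgroup (symplecticGroup (Fin n) F), IsPGroup 2 P ∧ DS (Nat.log 2 (2 * n)) P ≠ ⊥ := by
  induction n using Nat.strong_induction_on with
  | _ n ih =>
  intro hn
  rcases Nat.lt_or_ge n 2 with hn2 | hn2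
  · have : n = 1 := by omega
    subst this
    exact base F h2
  · obtain ⟨S, hS, hD⟩ := ih (n / 2) (by omega) (by omega)
    obtain ⟨P, hP, hPD⟩ := double (blk (Fin (n / 2)) (Fin (n / 2))) (blk_injective _ _) (sw F (Fin (n / 2)))
      sw_sw sw_blk S hS _ hD
    rw [← log_step n hn2] at hPD
    have hcard : Fintype.card (Fin n) = Fintype.card ((Fin (n / 2) ⊕ Fin (n / 2)) ⊕ Fin (n % 2)) := by
      simp
      omega
    let e := Fintype.equivOfCardEq hcard
    let f : symplecticGroup (Fin (n / 2) ⊕ Fin (n / 2)) F →* symplecticGroup (Fin n) F :=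
      ((rei e).comp (blk (Fin (n / 2) ⊕ Fin (n / 2)) (Fin (n % 2)))).comp (MonoidHom.inl _ _)
    have hf : Function.Injective f := by
      intro x y hxy
      have h3 := blk_injective _ _ (rei_injective e hxy)
      exact congrArg Prod.fst h3
    refine ⟨P.map f, hP.map f, ?_⟩
    rw [← DS_map]
    intro h
    exact hPD ((Subgroup.map_eq_bot_iff_of_injective _ hf).mp h)

end H98.SpDLB
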