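import Mathlib

/-!
Direct decomposability of Sylow 2-subgroups of alternating groups: abstract part.
-/

set_option autoImplicit false
open scoped commutatorElement
open Subgroup

namespace H98.SylAa

/-- decomposable groups -/
def Dec (T : Type*) [Group T] : Prop :=
  ∃ A B : Subgroup T, A ≠ ⊥ ∧ B ≠ ⊥ ∧ (∀ a ∈ A, ∀ b ∈ B, a * b = b * a) ∧ A ⊓ B = ⊥ ∧ A ⊔ B = ⊤

theorem Dec.of_equiv {T T' : Type*} [Group T] [Group T'] (e : T ≃* T') (h : Dec T) : Dec T' := by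
  obtain ⟨A, B, hA, hB, hc, hi, hs⟩ := h
  refine ⟨A.map e.toMonoidHom, B.map e.toMonoidHom, ?_, ?_, ?_, ?_, ?_⟩
  · rwa [ne_eq, Subgroup.map_eq_bot_iff_of_injective _ e.injective]
  · rwa [ne_eq, Subgroup.map_eq_bot_iff_of_injective _ e.injective]
  · rintro _ ⟨a, ha, rfl⟩ _ ⟨b, hb, rfl⟩
    rw [← map_mul, hc a ha b hb, map_mul]
  · rw [← Subgroup.map_inf _ _ _ e.injective, hi, Subgroup.map_bot]
  · rw [← Subgroup.map_sup, hs, ← MonoidHom.range_eq_map, MonoidHom.range_eq_top]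
    exact e.surjective

theorem dec_iff {T T' : Type*} [Group T] [Group T'] (e : T ≃* T') : Dec T ↔ Dec T' :=
  ⟨Dec.of_equiv e, Dec.of_equiv e.symm⟩

theorem exists_mul {P : Type*} [Group P] {X Y : Subgroup P} (hc : ∀ x ∈ X, ∀ y ∈ Y, x * y = y * x) (hs : X ⊔ Y = ⊤)
    (p : P) : ∃ x ∈ X, ∃ y ∈ Y, p = x * y := by
  have hle : X ⊔ Y ≤
    { carrier := {p | ∃ x ∈ X, ∃ y ∈ Y, p = x * y}
      one_mem' := ⟨1, X.one_mem, 1, Y.one_mem, by simp⟩
      mul_mem' := by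
        rintro _ _ ⟨x, hx, y, hy, rfl⟩ ⟨x', hx', y', hy', rfl⟩
        refine ⟨x * x', X.mul_mem hx hx', y * y', Y.mul_mem hy hy', ?_⟩
        calc x * y * (x' * y') = x * (y * x') * y' := by group
          _ = x * (x' * y) * y' := by rw [hc x' hx' y hy]
          _ = x * x' * (y * y') := by group
      inv_mem' := by
        rintro _ ⟨x, hx, y, hy, rfl⟩
        refine ⟨x⁻¹, X.inv_mem hx, y⁻¹, Y.inv_mem hy, ?_⟩
        rw [mul_inv_rev, hc x⁻¹ (X.inv_mem hx) y⁻¹ (Y.inv_mem hy)] } := by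
    apply sup_le
    · intro x hx
      exact ⟨x, hx, 1, Y.one_mem, by simp⟩
    · intro y hy
      exact ⟨1, X.one_mem, y, hy, by simp⟩
  exact hle (hs ▸ Subgroup.mem_top p)

/-- centrally indecomposable -/
def Cen (P : Type*) [Group P] : Prop :=
  ∀ X Y : Subgroup P, (∀ x ∈ X, ∀ y ∈ Y, x * y = y * x) → X ⊔ Y = ⊤ → X ≤ center P ∨ Y ≤ center P

/-- good signed groups -/
structure Good (P : Type*) [Group P] (ε : P →* ℤˣ) : Prop where
  g1 : ∀ z ∈ center P, z ∈ ⁅(⊤ : Subgroup P), ε.ker⁆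
  g2 : ∀ X Y : Subgroup P, (∀ x ∈ X, ∀ y ∈ Y, x * y = y * x) → X ⊔ Y = ⊤ → Y ≤ ε.ker → Y ≤ center P
  g3 : ∃ x, ε x = -1

theorem even_of_g1 {P : Type*} [Group P] {ε : P →* ℤˣ} (h : ∀ z ∈ center P, z ∈ ⁅(⊤ : Subgroup P), ε.ker⁆)
    {z : P} (hz : z ∈ center P) : ε z = 1 := by
  have h1 : ⁅(⊤ : Subgroup P), ε.ker⁆ ≤ ε.ker := Subgroup.commutator_le_right _ _
  exact h1 (h z hz)

theorem neg_one_ne_one : (-1 : ℤˣ) ≠ 1 := by decide

theorem good_of_cen {P : Type*} [Group P] {ε : P →* ℤˣ} (hC : Cen P) (g1 : ∀ z ∈ center P, z ∈ ⁅(⊤ : Subgroup P), ε.ker⁆)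
    (g3 : ∃ x, ε x = -1) : Good P ε := by
  refine ⟨g1, ?_, g3⟩
  intro X Y hc hs hY
  rcases hC X Y hc hs with h | h
  · exfalso
    obtain ⟨x, hx⟩ := g3
    obtain ⟨a, ha, b, hb, rfl⟩ := exists_mul hc hs x
    rw [map_mul, even_of_g1 g1 (h ha), (MonoidHom.mem_ker).mp (hY hb), one_mul] at hx
    exact neg_one_ne_one hx.symm
  · exact h

theorem map_comm {T P : Type*} [Group T] [Group P] (f : T →* P) {X Y : Subgroup T}
    (hc : ∀ x ∈ X, ∀ y ∈ Y, x * y = y * x) : ∀ x ∈ X.map f, ∀ y ∈ Y.map f, x * y = y * x := by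
  rintro _ ⟨a, ha, rfl⟩ _ ⟨b, hb, rfl⟩
  rw [← map_mul, hc a ha b hb, map_mul]

theorem map_sup_top {T P : Type*} [Group T] [Group P] {f : T →* P} (hf : Function.Surjective f) {X Y : Subgroup T}
    (hs : X ⊔ Y = ⊤) : X.map f ⊔ Y.map f = ⊤ := by
  rw [← Subgroup.map_sup, hs, ← MonoidHom.range_eq_map, MonoidHom.range_eq_top]
  exact hf

section prod
variable {P Q : Type*} [Group P] [Group Q] {ε : P →* ℤˣ} {δ : Q →* ℤˣ}

theorem center_prod {z : P × Q} : z ∈ center (P × Q) ↔ z.1 ∈ center P ∧ z.2 ∈ center Q := by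
  constructor
  · intro h
    rw [Subgroup.mem_center_iff] at h
    exact ⟨Subgroup.mem_center_iff.mpr fun x => congrArg Prod.fst (h (x, 1)),
      Subgroup.mem_center_iff.mpr fun x => congrArg Prod.snd (h (1, x))⟩
  · rintro ⟨h1, h2⟩
    rw [Subgroup.mem_center_iff] at h1 h2 ⊢
    intro x
    exact Prod.ext (h1 x.1) (h2 x.2)

theorem good_prod (hC : Cen P) (hP : Good P ε) (hQ : Good Q δ) : Good (P × Q) (ε.coprod δ) := by
  refine ⟨?_, ?_, ?_⟩
  · intro z hz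
    rw [center_prod] at hz
    have h1 : ⁅(⊤ : Subgroup P), ε.ker⁆ ≤ (⁅(⊤ : Subgroup (P × Q)), (ε.coprod δ).ker⁆).comap (MonoidHom.inl P Q) := by
      rw [Subgroup.commutator_le]
      intro x _ y hy
      rw [Subgroup.mem_comap, map_commutatorElement]
      refine Subgroup.commutator_mem_commutator (Subgroup.mem_top _) ?_
      rw [MonoidHom.mem_ker] at hy ⊢
      simpa using hy
    have h2 : ⁅(⊤ : Subgroup Q), δ.ker⁆ ≤ (⁅(⊤ : Subgroup (P × Q)), (ε.coprod δ).ker⁆).comap (MonoidHom.inr P Q) := by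
      rw [Subgroup.commutator_le]
      intro x _ y hy
      rw [Subgroup.mem_comap, map_commutatorElement]
      refine Subgroup.commutator_mem_commutator (Subgroup.mem_top _) ?_
      rw [MonoidHom.mem_ker] at hy ⊢
      simpa using hy
    have h3 := Subgroup.mul_mem _ (Subgroup.mem_comap.mp (h1 (hP.g1 _ hz.1))) (Subgroup.mem_comap.mp (h2 (hQ.g1 _ hz.2)))
    have h4 : (MonoidHom.inl P Q) z.1 * (MonoidHom.inr P Q) z.2 = z := by
      apply Prod.ext <;> simp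
    rwa [h4] at h3
  · intro X Y hc hs hY
    have hs1 := map_sup_top (f := MonoidHom.fst P Q) (fun x => ⟨(x, 1), rfl⟩) hs
    have hs2 := map_sup_top (f := MonoidHom.snd P Q) (fun x => ⟨(1, x), rfl⟩) hs
    have hc1 := map_comm (MonoidHom.fst P Q) hc
    have hc2 := map_comm (MonoidHom.snd P Q) hc
    rcases hC _ _ hc1 hs1 with h | h
    · exfalso
      obtain ⟨x, hx⟩ := hP.g3
      obtain ⟨a, ha, b, hb, hab⟩ := exists_mul hc hs ((x, 1) : P × Q)
      have e1 : x = a.1 * b.1 := congrArg Prod.fst hab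
      have e2 : 1 = a.2 * b.2 := congrArg Prod.snd hab
      have ea : ε a.1 = 1 := even_of_g1 hP.g1 (h ⟨a, ha, rfl⟩)
      have eb : ε b.1 = -1 := by rw [e1, map_mul, ea, one_mul] at hx; exact hx
      have ebk : ε b.1 * δ b.2 = 1 := by
        have := MonoidHom.mem_ker.mp (hY hb)
        simpa using this
      have hb2 : b.2 ∈ center Q := by
        have e3 : b.2 = (a.2)⁻¹ := (inv_eq_of_mul_eq_one_right e2.symm).symm
        rw [Subgroup.mem_center_iff]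
        intro q
        obtain ⟨u, hu, v, hv, rfl⟩ := exists_mul hc2 hs2 q
        have f1 := hc2 u hu b.2 ⟨b, hb, rfl⟩
        have f2 := hc2 (a.2)⁻¹ (Subgroup.inv_mem _ ⟨a, ha, rfl⟩) v hv
        rw [← e3] at f2
        rw [mul_assoc, ← f2, ← mul_assoc, f1, mul_assoc]
      rw [even_of_g1 hQ.g1 hb2, mul_one, eb] at ebk
      exact neg_one_ne_one ebk
    · have hY2 : Y.map (MonoidHom.snd P Q) ≤ δ.ker := by
        rintro _ ⟨y, hy, rfl⟩
        rw [MonoidHom.mem_ker]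
        have h1 := MonoidHom.mem_ker.mp (hY hy)
        have h2 : ε y.1 = 1 := even_of_g1 hP.g1 (h ⟨y, hy, rfl⟩)
        simpa [h2] using h1
      have h2 := hQ.g2 _ _ hc2 hs2 hY2
      intro y hy
      rw [center_prod]
      exact ⟨h ⟨y, hy, rfl⟩, h2 ⟨y, hy, rfl⟩⟩
  · obtain ⟨x, hx⟩ := hP.g3
    exact ⟨(x, 1), by simp [hx]⟩

theorem not_dec_aux (hP : Good P ε) (hQ : Good Q δ) (T : Subgroup (P × Q)) (hT : T = (ε.coprod δ).ker) (A B : Subgroup T)
    (hB : B ≠ ⊥) (hc : ∀ a ∈ A, ∀ b ∈ B, a * b = b * a) (hi : A ⊓ B = ⊥) (hs : A ⊔ B = ⊤)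
    (h : B.map ((MonoidHom.fst P Q).comp T.subtype) ≤ center P) : False := by
  have hmem : ∀ x : P × Q, x ∈ T ↔ ε x.1 * δ x.2 = 1 := fun x => by
    rw [hT, MonoidHom.mem_ker]; simp
  have hsq : ∀ u : ℤˣ, u * u = 1 := Int.units_mul_self
  have hPs : ∀ u : ℤˣ, ∃ x, ε x = u := by
    intro u
    rcases Int.units_eq_one_or u with rfl | rfl
    · exact ⟨1, map_one _⟩
    · exact hP.g3
  have hQs : ∀ u : ℤˣ, ∃ x, δ x = u := by
    intro u
    rcases Int.units_eq_one_or u with rfl | rfl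
    · exact ⟨1, map_one _⟩
    · exact hQ.g3
  have hsurj2 : Function.Surjective ((MonoidHom.snd P Q).comp T.subtype) := by
    intro x
    obtain ⟨y, hy⟩ := hPs (δ x)
    exact ⟨⟨(y, x), (hmem _).mpr (by rw [hy]; exact hsq _)⟩, rfl⟩
  have hY2 : B.map ((MonoidHom.snd P Q).comp T.subtype) ≤ δ.ker := by
    rintro _ ⟨y, hy, rfl⟩
    rw [MonoidHom.mem_ker]
    have h1 := (hmem _).mp y.2
    have h2 : ε (y : P × Q).1 = 1 := even_of_g1 hP.g1 (h ⟨y, hy, rfl⟩)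
    rw [h2, one_mul] at h1
    exact h1
  have h2 := hQ.g2 _ _ (map_comm _ hc) (map_sup_top hsurj2 hs) hY2
  have hBc : ∀ b ∈ B, ∀ t : T, t * b = b * t := by
    intro b hb t
    apply Subtype.ext
    apply Prod.ext
    · exact Subgroup.mem_center_iff.mp (h ⟨b, hb, rfl⟩) _
    · exact Subgroup.mem_center_iff.mp (h2 ⟨b, hb, rfl⟩) _
  have hTA : _root_.commutator T ≤ A := by
    rw [_root_.commutator_def, Subgroup.commutator_le]
    intro x _ y _
    obtain ⟨a, ha, b, hb, rfl⟩ := exists_mul hc hs x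
    obtain ⟨a', ha', b', hb', rfl⟩ := exists_mul hc hs y
    have e1 : ⁅a * b, a' * b'⁆ = ⁅a, a'⁆ := by
      rw [commutatorElement_def, commutatorElement_def]
      have f1 := hBc b hb
      have f2 := hBc b' hb'
      calc a * b * (a' * b') * (a * b)⁻¹ * (a' * b')⁻¹ = a * (b * (a' * b')) * b⁻¹ * a⁻¹ * (b'⁻¹ * a'⁻¹) := by group
        _ = a * ((a' * b') * b) * b⁻¹ * a⁻¹ * (b'⁻¹ * a'⁻¹) := by rw [f1]
        _ = a * a' * (b' * a⁻¹) * b'⁻¹ * a'⁻¹ := by group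
        _ = a * a' * (a⁻¹ * b') * b'⁻¹ * a'⁻¹ := by rw [f2]
        _ = a * a' * a⁻¹ * a'⁻¹ := by group
    rw [e1, commutatorElement_def]
    exact A.mul_mem (A.mul_mem (A.mul_mem ha ha') (A.inv_mem ha)) (A.inv_mem ha')
  -- the centers are in the commutator subgroup
  have hD1 : ⁅(⊤ : Subgroup P), ε.ker⁆ ≤ ((_root_.commutator T).map T.subtype).comap (MonoidHom.inl P Q) := by
    rw [Subgroup.commutator_le]
    intro x _ y hy
    obtain ⟨x', hx'⟩ := hQs (ε x)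
    rw [MonoidHom.mem_ker] at hy
    refine ⟨⁅(⟨(x, x'), (hmem _).mpr (by rw [hx']; exact hsq _)⟩ : T), (⟨(y, 1), (hmem _).mpr (by simp [hy])⟩ : T)⁆,
      Subgroup.commutator_mem_commutator (Subgroup.mem_top _) (Subgroup.mem_top _), ?_⟩
    rw [map_commutatorElement]
    simp [commutatorElement_def]
  have hD2 : ⁅(⊤ : Subgroup Q), δ.ker⁆ ≤ ((_root_.commutator T).map T.subtype).comap (MonoidHom.inr P Q) := by
    rw [Subgroup.commutator_le]
    intro x _ y hy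
    obtain ⟨x', hx'⟩ := hPs (δ x)
    rw [MonoidHom.mem_ker] at hy
    refine ⟨⁅(⟨(x', x), (hmem _).mpr (by rw [hx']; exact hsq _)⟩ : T), (⟨(1, y), (hmem _).mpr (by simp [hy])⟩ : T)⁆,
      Subgroup.commutator_mem_commutator (Subgroup.mem_top _) (Subgroup.mem_top _), ?_⟩
    rw [map_commutatorElement]
    simp [commutatorElement_def]
  apply hB
  rw [eq_bot_iff]
  intro b hb
  have e1 := Subgroup.mem_comap.mp (hD1 (hP.g1 _ (h ⟨b, hb, rfl⟩)))
  have e2 := Subgroup.mem_comap.mp (hD2 (hQ.g1 _ (h2 ⟨b, hb, rfl⟩)))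
  have e3 := Subgroup.mul_mem _ e1 e2
  have e4 : (MonoidHom.inl P Q) (((MonoidHom.fst P Q).comp T.subtype) b) * (MonoidHom.inr P Q) (((MonoidHom.snd P Q).comp T.subtype) b) = T.subtype b := by
    apply Prod.ext <;> simp
  rw [e4] at e3
  obtain ⟨c, hc1, hc2⟩ := e3
  have : c = b := T.subtype_injective hc2
  rw [← hi]
  exact ⟨hTA (this ▸ hc1), hb⟩

theorem not_dec_prod' (hC : Cen P) (hP : Good P ε) (hQ : Good Q δ) (T : Subgroup (P × Q)) (hT : T = (ε.coprod δ).ker) : ¬ Dec T := by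
  rintro ⟨A, B, hA, hB, hc, hi, hs⟩
  have hmem : ∀ x : P × Q, x ∈ T ↔ ε x.1 * δ x.2 = 1 := fun x => by
    rw [hT, MonoidHom.mem_ker]; simp
  have hsurj1 : Function.Surjective ((MonoidHom.fst P Q).comp T.subtype) := by
    intro x
    have : ∃ y, δ y = ε x := by
      rcases Int.units_eq_one_or (ε x) with h | h
      · exact ⟨1, by rw [h, map_one]⟩
      · rw [h]; exact hQ.g3
    obtain ⟨y, hy⟩ := this
    exact ⟨⟨(x, y), (hmem _).mpr (by rw [hy]; exact Int.units_mul_self _)⟩, rfl⟩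
  rcases hC _ _ (map_comm _ hc) (map_sup_top hsurj1 hs) with h | h
  · exact not_dec_aux hP hQ T hT B A hA (fun a ha b hb => (hc b hb a ha).symm) (by rw [inf_comm]; exact hi) (by rw [sup_comm]; exact hs) h
  · exact not_dec_aux hP hQ T hT A B hB hc hi hs h

theorem not_dec_prod (hC : Cen P) (hP : Good P ε) (hQ : Good Q δ) : ¬ Dec (ε.coprod δ).ker :=
  not_dec_prod' hC hP hQ _ rfl

end prod

theorem not_dec_of_center {T : Type*} [Group T] [Finite T] (hT : IsPGroup 2 T)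
    (h : ∀ z ∈ center T, ∀ z' ∈ center T, z ≠ 1 → z' ≠ 1 → z = z') : ¬ Dec T := by
  haveI : Fact (Nat.Prime 2) := ⟨Nat.prime_two⟩
  rintro ⟨A, B, hA, hB, hc, hi, hs⟩
  have key : ∀ (A B : Subgroup T), A ≠ ⊥ → (∀ a ∈ A, ∀ b ∈ B, a * b = b * a) → A ⊔ B = ⊤ → ∃ a ∈ A, a ≠ 1 ∧ a ∈ center T := by
    intro A B hA hc hs
    haveI : Nontrivial A := (Subgroup.nontrivial_iff_ne_bot A).mpr hA
    have h1 := (hT.to_subgroup A).center_nontrivial
    obtain ⟨⟨a, ha⟩, ha1⟩ := exists_ne (1 : center A)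
    refine ⟨a, a.2, ?_, ?_⟩
    · intro h2
      apply ha1
      apply Subtype.ext
      apply Subtype.ext
      exact h2
    · rw [Subgroup.mem_center_iff]
      intro t
      obtain ⟨x, hx, y, hy, rfl⟩ := exists_mul hc hs t
      have h2 : x * (a : T) = a * x := congrArg Subtype.val (Subgroup.mem_center_iff.mp ha ⟨x, hx⟩)
      have h3 := hc a a.2 y hy
      rw [mul_assoc, ← h3, ← mul_assoc, h2, mul_assoc]
  obtain ⟨a, ha, ha1, hac⟩ := key A B hA hc hs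
  obtain ⟨b, hb, hb1, hbc⟩ := key B A hB (fun a ha b hb => (hc b hb a ha).symm) (by rw [sup_comm]; exact hs)
  have hab := h a hac b hbc ha1 hb1
  apply ha1
  have : a ∈ A ⊓ B := ⟨ha, hab ▸ hb⟩
  rw [hi] at this
  exact Subgroup.mem_bot.mp this

end H98.SylAa
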