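import Mathlib
import Cfsg.Agent.Lib.H98.SylAa

/-!
Direct decomposability of Sylow 2-subgroups of alternating groups: wreath products.
-/

set_option autoImplicit false
open scoped commutatorElement
open Subgroup

namespace H98.SylAb

open H98.SylAa

/-- wreath product with a group of order two -/
structure WrData (P W : Type*) [Group P] [Group W] (ε : P →* ℤˣ) (δ : W →* ℤˣ) where
  φ : P × P →* W
  inj : Function.Injective φ
  τ : W
  hτ : τ * τ = 1
  hsw : ∀ a b, τ * φ (a, b) * τ = φ (b, a)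
  hcov : ∀ w, ∃ a b, w = φ (a, b) ∨ w = φ (a, b) * τ
  hnot : ∀ a b, φ (a, b) ≠ τ
  hδ : ∀ a b, δ (φ (a, b)) = ε a * ε b
  hδτ : δ τ = 1

variable {P W : Type*} [Group P] [Group W] {ε : P →* ℤˣ} {δ : W →* ℤˣ}

theorem WrData.sw (D : WrData P W ε δ) (a b : P) : D.τ * D.φ (a, b) = D.φ (b, a) * D.τ := by
  rw [← D.hsw a b, mul_assoc, mul_assoc, D.hτ, mul_one]

theorem WrData.mul1 (D : WrData P W ε δ) (a b c d : P) : D.φ (a, b) * D.φ (c, d) = D.φ (a * c, b * d) := by
  rw [← map_mul]; rfl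

theorem WrData.phi_inj (D : WrData P W ε δ) {a b c d : P} (h : D.φ (a, b) = D.φ (c, d)) : a = c ∧ b = d := by
  have := D.inj h
  exact ⟨congrArg Prod.fst this, congrArg Prod.snd this⟩

theorem WrData.ne (D : WrData P W ε δ) (a b c d : P) : D.φ (a, b) ≠ D.φ (c, d) * D.τ := by
  intro h
  apply D.hnot (c⁻¹ * a) (d⁻¹ * b)
  rw [← D.mul1, h, ← mul_assoc, D.mul1, inv_mul_cancel, inv_mul_cancel]
  have : D.φ ((1 : P), (1 : P)) = 1 := map_one _
  rw [this, one_mul]

theorem WrData.center_of (D : WrData P W ε δ) {z : P} (hz : z ∈ center P) : D.φ (z, z) ∈ center W := by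
  rw [Subgroup.mem_center_iff] at hz ⊢
  intro w
  obtain ⟨a, b, rfl | rfl⟩ := D.hcov w
  · rw [D.mul1, D.mul1, hz, hz]
  · rw [mul_assoc, D.sw, ← mul_assoc, D.mul1, hz, hz, ← mul_assoc, D.mul1]

theorem WrData.of_center [Nontrivial P] (D : WrData P W ε δ) {w : W} (hw : w ∈ center W) : ∃ z ∈ center P, w = D.φ (z, z) := by
  rw [Subgroup.mem_center_iff] at hw
  obtain ⟨a, b, rfl | rfl⟩ := D.hcov w
  · have h1 := hw D.τ
    rw [D.sw] at h1
    have h2 := D.phi_inj (mul_right_cancel h1)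
    refine ⟨a, ?_, ?_⟩
    · rw [Subgroup.mem_center_iff]
      intro x
      have h3 := hw (D.φ (x, 1))
      rw [D.mul1, D.mul1] at h3
      exact (D.phi_inj h3).1
    · rw [h2.1]
  · exfalso
    obtain ⟨x, hx⟩ := exists_ne (1 : P)
    have h3 := hw (D.φ (x, 1))
    rw [← mul_assoc, D.mul1, mul_assoc, D.sw, ← mul_assoc, D.mul1] at h3
    have h4 := (D.phi_inj (mul_right_cancel h3)).1
    apply hx
    rw [mul_one] at h4
    exact mul_eq_right.mp h4

/-- key step: a normal-like subgroup not in the base -/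
theorem WrData.cen_aux (D : WrData P W ε δ) {X Y : Subgroup W} (hc : ∀ x ∈ X, ∀ y ∈ Y, x * y = y * x) (hs : X ⊔ Y = ⊤)
    (hX : ∃ a b, D.φ (a, b) * D.τ ∈ X) (hY : ∀ a b, D.φ (a, b) * D.τ ∉ Y) : Y ≤ center W := by
  obtain ⟨a, b, hab⟩ := hX
  have hXn : ∀ w, ∀ x ∈ X, w * x * w⁻¹ ∈ X := by
    intro w x hx
    obtain ⟨x', hx', y', hy', rfl⟩ := exists_mul hc hs w
    have : x' * y' * x * (x' * y')⁻¹ = x' * x * x'⁻¹ := by
      calc x' * y' * x * (x' * y')⁻¹ = x' * (y' * x) * y'⁻¹ * x'⁻¹ := by group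
        _ = x' * (x * y') * y'⁻¹ * x'⁻¹ := by rw [hc x hx y' hy']
        _ = _ := by group
    rw [this]
    exact X.mul_mem (X.mul_mem hx' hx) (X.inv_mem hx')
  have hX1 : ∀ c : P, D.φ (c, b * c⁻¹ * b⁻¹) ∈ X := by
    intro c
    have h1 := X.mul_mem (hXn (D.φ (c, 1)) _ hab) (X.inv_mem hab)
    have h2 : D.φ (c, 1) * (D.φ (a, b) * D.τ) * (D.φ (c, 1))⁻¹ * (D.φ (a, b) * D.τ)⁻¹ = D.φ (c, b * c⁻¹ * b⁻¹) := by
      have e1 : (D.φ (c, 1))⁻¹ = D.φ (c⁻¹, 1) := by rw [← map_inv]; simp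
      have e2 : (D.φ (a, b) * D.τ)⁻¹ = D.τ * D.φ (a⁻¹, b⁻¹) := by
        rw [mul_inv_rev, ← map_inv, inv_eq_of_mul_eq_one_left D.hτ]; rfl
      rw [e1, e2]
      calc D.φ (c, 1) * (D.φ (a, b) * D.τ) * D.φ (c⁻¹, 1) * (D.τ * D.φ (a⁻¹, b⁻¹))
          = D.φ (c, 1) * D.φ (a, b) * (D.τ * D.φ (c⁻¹, 1) * D.τ) * D.φ (a⁻¹, b⁻¹) := by group
        _ = D.φ (c, b * c⁻¹ * b⁻¹) := by
          rw [D.hsw, D.mul1, D.mul1, D.mul1]
          congr 2
          · group
          · group
    rwa [h2] at h1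
  intro y hy
  obtain ⟨y1, y2, rfl | rfl⟩ := D.hcov y
  · have h1 : y1 ∈ center P := by
      rw [Subgroup.mem_center_iff]
      intro c
      have := hc _ (hX1 c) _ hy
      rw [D.mul1, D.mul1] at this
      exact (D.phi_inj this).1
    have h2 : y1 = y2 := by
      have := hc _ hab _ hy
      rw [mul_assoc, D.sw, ← mul_assoc, D.mul1, ← mul_assoc, D.mul1] at this
      have h3 := (D.phi_inj (mul_right_cancel this)).2
      rw [Subgroup.mem_center_iff] at h1
      rw [h1 b] at h3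
      have h4 := (D.phi_inj (mul_right_cancel this)).1
      rw [← h1 a] at h4
      exact (mul_left_cancel h4).symm
    rw [← h2]
    exact D.center_of h1
  · exact absurd hy (hY y1 y2)

theorem WrData.cen (D : WrData P W ε δ) [Nontrivial P] : Cen W := by
  intro X Y hc hs
  by_cases hX : ∃ a b, D.φ (a, b) * D.τ ∈ X
  · by_cases hY : ∃ a b, D.φ (a, b) * D.τ ∈ Y
    · exfalso
      -- both outside of the base
      obtain ⟨a, b, hab⟩ := hX
      obtain ⟨a', b', hab'⟩ := hY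
      have hXn : ∀ w, ∀ x ∈ X, w * x * w⁻¹ ∈ X := by
        intro w x hx
        obtain ⟨x', hx', y', hy', rfl⟩ := exists_mul hc hs w
        have : x' * y' * x * (x' * y')⁻¹ = x' * x * x'⁻¹ := by
          calc x' * y' * x * (x' * y')⁻¹ = x' * (y' * x) * y'⁻¹ * x'⁻¹ := by group
            _ = x' * (x * y') * y'⁻¹ * x'⁻¹ := by rw [hc x hx y' hy']
            _ = _ := by group
        rw [this]
        exact X.mul_mem (X.mul_mem hx' hx) (X.inv_mem hx')
      have hX1 : ∀ c : P, D.φ (c, b * c⁻¹ * b⁻¹) ∈ X := by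
        intro c
        have h1 := X.mul_mem (hXn (D.φ (c, 1)) _ hab) (X.inv_mem hab)
        have h2 : D.φ (c, 1) * (D.φ (a, b) * D.τ) * (D.φ (c, 1))⁻¹ * (D.φ (a, b) * D.τ)⁻¹ = D.φ (c, b * c⁻¹ * b⁻¹) := by
          have e1 : (D.φ (c, 1))⁻¹ = D.φ (c⁻¹, 1) := by rw [← map_inv]; simp
          have e2 : (D.φ (a, b) * D.τ)⁻¹ = D.τ * D.φ (a⁻¹, b⁻¹) := by
            rw [mul_inv_rev, ← map_inv, inv_eq_of_mul_eq_one_left D.hτ]; rfl
          rw [e1, e2]
          calc D.φ (c, 1) * (D.φ (a, b) * D.τ) * D.φ (c⁻¹, 1) * (D.τ * D.φ (a⁻¹, b⁻¹))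
              = D.φ (c, 1) * D.φ (a, b) * (D.τ * D.φ (c⁻¹, 1) * D.τ) * D.φ (a⁻¹, b⁻¹) := by group
            _ = D.φ (c, b * c⁻¹ * b⁻¹) := by
              rw [D.hsw, D.mul1, D.mul1, D.mul1]
              congr 2
              · group
              · group
        rwa [h2] at h1
      -- inversion is inner
      have hinv : ∀ c : P, c * (a' * b) = (a' * b) * c⁻¹ := by
        intro c
        have := hc _ (hX1 c) _ hab'
        rw [← mul_assoc, D.mul1, mul_assoc (D.φ (a', b')), D.sw, ← mul_assoc, D.mul1] at this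
        have h3 := (D.phi_inj (mul_right_cancel this)).1
        rw [← mul_assoc, h3]
        group
      have hab2 : ∀ c d : P, c * d = d * c := by
        intro c d
        have h1 := hinv (c * d)
        have h2 : c * d * (a' * b) = (a' * b) * (c⁻¹ * d⁻¹) := by
          rw [mul_assoc, hinv d, ← mul_assoc, hinv c, mul_assoc]
        rw [h2] at h1
        have h3 := mul_left_cancel h1
        rw [mul_inv_rev] at h3
        have h4 := congrArg (fun t => t⁻¹) h3
        simpa using h4.symm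
      have hxy := hc _ hab _ hab'
      have e1 : D.φ (a, b) * D.τ * (D.φ (a', b') * D.τ) = D.φ (a * b', b * a') := by
        rw [mul_assoc, ← mul_assoc D.τ, D.hsw, D.mul1]
      have e2 : D.φ (a', b') * D.τ * (D.φ (a, b) * D.τ) = D.φ (a' * b, b' * a) := by
        rw [mul_assoc, ← mul_assoc D.τ, D.hsw, D.mul1]
      rw [e1, e2] at hxy
      have h1 := (D.phi_inj hxy).1
      -- the product is central
      have hcen : D.φ (a, b) * D.τ * (D.φ (a', b') * D.τ) ∈ center W := by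
        rw [e1, hab2 b a', ← h1]
        apply D.center_of
        rw [Subgroup.mem_center_iff]
        intro g
        exact hab2 _ _
      have hcen2 : D.φ (a', b') * D.τ ∈ center W := by
        rw [Subgroup.mem_center_iff]
        intro g
        obtain ⟨u, hu, v, hv, rfl⟩ := exists_mul hc hs g
        have f1 : v * (D.φ (a', b') * D.τ) = (D.φ (a', b') * D.τ) * v := by
          have f2 := Subgroup.mem_center_iff.mp hcen v
          have f3 := hc _ hab v hv
          have f4 : (D.φ (a, b) * D.τ) * (v * (D.φ (a', b') * D.τ)) = (D.φ (a, b) * D.τ) * ((D.φ (a', b') * D.τ) * v) := by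
            rw [← mul_assoc (D.φ (a, b) * D.τ) v, f3, mul_assoc v, f2, mul_assoc]
          exact mul_left_cancel f4
        rw [mul_assoc, f1, ← mul_assoc, hc u hu _ hab', mul_assoc]
      obtain ⟨z, _, hz⟩ := D.of_center hcen2
      exact D.ne z z a' b' hz.symm
    · push Not at hY
      exact Or.inr (D.cen_aux hc hs hX hY)
  · by_cases hY : ∃ a b, D.φ (a, b) * D.τ ∈ Y
    · push Not at hX
      exact Or.inl (D.cen_aux (fun y hy x hx => (hc x hx y hy).symm) (by rw [sup_comm]; exact hs) hY hX)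
    · exfalso
      push Not at hX hY
      obtain ⟨x, hx, y, hy, hxy⟩ := exists_mul hc hs D.τ
      obtain ⟨a, b, rfl | rfl⟩ := D.hcov x
      · obtain ⟨c, d, rfl | rfl⟩ := D.hcov y
        · rw [D.mul1] at hxy
          exact D.hnot _ _ hxy.symm
        · exact hY c d hy
      · exact hX a b hx

theorem WrData.good (D : WrData P W ε δ) [Nontrivial P] (hE : ∀ z ∈ center P, z * z = 1) (hε : ∃ x, ε x = -1) :
    Good W δ := by
  apply good_of_cen D.cen
  · intro w hw
    obtain ⟨z, hz, rfl⟩ := D.of_center hw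
    have h1 : D.φ (z, z) = ⁅D.φ (z, 1), D.τ⁆ := by
      have e1 : (D.φ (z, 1))⁻¹ = D.φ (z⁻¹, 1) := by rw [← map_inv]; simp
      rw [commutatorElement_def, e1, inv_eq_of_mul_eq_one_left D.hτ, mul_assoc, mul_assoc, ← mul_assoc D.τ, D.hsw, D.mul1,
        mul_one, one_mul, inv_eq_of_mul_eq_one_left (hE z hz)]
    rw [h1]
    exact Subgroup.commutator_mem_commutator (Subgroup.mem_top _) D.hδτ
  · obtain ⟨x, hx⟩ := hε
    exact ⟨D.φ (x, 1), by rw [D.hδ, hx, map_one, mul_one]⟩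

theorem WrData.E (D : WrData P W ε δ) [Nontrivial P] (hE : ∀ z ∈ center P, z * z = 1) : ∀ z ∈ center W, z * z = 1 := by
  intro w hw
  obtain ⟨z, hz, rfl⟩ := D.of_center hw
  rw [D.mul1, hE z hz]
  exact map_one _

theorem WrData.U (D : WrData P W ε δ) [Nontrivial P] (hU : ∀ z ∈ center P, ∀ z' ∈ center P, z ≠ 1 → z' ≠ 1 → z = z') :
    ∀ z ∈ center W, ∀ z' ∈ center W, z ≠ 1 → z' ≠ 1 → z = z' := by
  intro w hw w' hw' h1 h1'
  obtain ⟨z, hz, rfl⟩ := D.of_center hw
  obtain ⟨z', hz', rfl⟩ := D.of_center hw'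
  rw [hU z hz z' hz' (by rintro rfl; exact h1 (map_one _)) (by rintro rfl; exact h1' (map_one _))]

theorem WrData.not_dec_ker (D : WrData P W ε δ) [Finite W] (hW : IsPGroup 2 W) [Nontrivial P]
    (hU : ∀ z ∈ center P, ∀ z' ∈ center P, z ≠ 1 → z' ≠ 1 → z = z')
    (hε : ∃ x, ε x = -1) (hk : ∃ x, x ≠ 1 ∧ ε x = 1) : ¬ Dec δ.ker := by
  have hmem : ∀ a b, ε a = ε b → D.φ (a, b) ∈ δ.ker := by
    intro a b h
    rw [MonoidHom.mem_ker, D.hδ, h]
    exact Int.units_mul_self _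
  have hcen : ∀ t ∈ center δ.ker, ∃ z ∈ center P, (t : W) = D.φ (z, z) := by
    intro t ht
    rw [Subgroup.mem_center_iff] at ht
    have ht' : ∀ w ∈ δ.ker, w * (t : W) = t * w := fun w hw => congrArg Subtype.val (ht ⟨w, hw⟩)
    obtain ⟨a, b, hab | hab⟩ := D.hcov (t : W)
    · rw [hab] at ht' ⊢
      have h1 := ht' D.τ D.hδτ
      rw [D.sw] at h1
      have h2 := D.phi_inj (mul_right_cancel h1)
      refine ⟨a, ?_, by rw [h2.1]⟩
      rw [Subgroup.mem_center_iff]
      intro x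
      have h3 := ht' (D.φ (x, x)) (hmem x x rfl)
      rw [D.mul1, D.mul1] at h3
      exact (D.phi_inj h3).1
    · exfalso
      rw [hab] at ht'
      obtain ⟨x, hx, hx1⟩ := hk
      have h3 := ht' (D.φ (x, 1)) (hmem x 1 (by rw [hx1, map_one]))
      rw [← mul_assoc, D.mul1, mul_assoc, D.sw, ← mul_assoc, D.mul1] at h3
      have h4 := (D.phi_inj (mul_right_cancel h3)).1
      apply hx
      rw [mul_one] at h4
      exact mul_eq_right.mp h4
  refine not_dec_of_center (hW.to_subgroup _) ?_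
  intro t ht t' ht' h1 h1'
  obtain ⟨z, hz, e⟩ := hcen t ht
  obtain ⟨z', hz', e'⟩ := hcen t' ht'
  apply Subtype.ext
  rw [e, e', hU z hz z' hz' (by rintro rfl; exact h1 (Subtype.ext (e.trans (map_one _))))
    (by rintro rfl; exact h1' (Subtype.ext (e'.trans (map_one _))))]

end H98.SylAb
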