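import Mathlib
import Cfsg.Agent.Lib.H98.SylAb

/-!
Direct decomposability of Sylow 2-subgroups of alternating groups: permutation models.
-/

set_option autoImplicit false
open scoped commutatorElement
open Subgroup

namespace H98.SylAc

open H98.SylAa H98.SylAb

/-- the exponent of 2 in `n!` -/
def ex (n : ℕ) : ℕ := padicValNat 2 n.factorial

instance : Fact (Nat.Prime 2) := ⟨Nat.prime_two⟩

theorem ex_two_mul (n : ℕ) : ex (2 * n) = ex n + n := padicValNat_factorial_mul n
theorem ex_two_mul_add_one (n : ℕ) : ex (2 * n + 1) = ex (2 * n) := padicValNat_factorial_mul_add n (by norm_num)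

theorem ex_zero : ex 0 = 0 := by simp [ex]
theorem ex_one : ex 1 = 0 := by simp [ex]

theorem ex_pow (k : ℕ) : ex (2 ^ k) + 1 = 2 ^ k := by
  induction k with
  | zero => simp [ex_one]
  | succ k ih => rw [pow_succ, mul_comm, ex_two_mul]; omega

theorem ex_add (k : ℕ) : ∀ b, b < 2 ^ k → ex (2 ^ k + b) = ex (2 ^ k) + ex b := by
  induction k with
  | zero =>
    intro b hb
    have : b = 0 := by simpa using hb
    subst this
    rw [ex_zero]; simp
  | succ k ih =>
    intro b hb
    rw [pow_succ] at hb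
    have h1 := ih (b / 2) (by omega)
    rcases Nat.even_or_odd' b with ⟨c, hc | hc⟩
    · have h2 : b / 2 = c := by omega
      rw [h2] at h1
      have h3 : 2 ^ (k + 1) + b = 2 * (2 ^ k + c) := by rw [pow_succ, hc]; ring
      rw [h3, ex_two_mul, h1, hc, ex_two_mul, pow_succ, mul_comm (2 ^ k) 2, ex_two_mul]
      ring
    · have h2 : b / 2 = c := by omega
      rw [h2] at h1
      have h3 : 2 ^ (k + 1) + b = 2 * (2 ^ k + c) + 1 := by rw [pow_succ, hc]; ring
      rw [h3, ex_two_mul_add_one, ex_two_mul, h1, hc, ex_two_mul_add_one, ex_two_mul, pow_succ, mul_comm (2 ^ k) 2, ex_two_mul]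
      ring

/-- a group with a sign, realised as a group of permutations of full 2-power order -/
def Model (n : ℕ) (P : Type) [Group P] (ε : P →* ℤˣ) : Prop :=
  ∃ f : P →* Equiv.Perm (Fin n), Function.Injective f ∧ (∀ x, Equiv.Perm.sign (f x) = ε x) ∧ Nat.card P = 2 ^ ex n

theorem Model.finite {n : ℕ} {P : Type} [Group P] {ε : P →* ℤˣ} (h : Model n P ε) : Finite P := by
  obtain ⟨f, hf, -, -⟩ := h
  exact Finite.of_injective f hf

theorem Model.isPGroup {n : ℕ} {P : Type} [Group P] {ε : P →* ℤˣ} (h : Model n P ε) : IsPGroup 2 P := by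
  obtain ⟨f, hf, -, h1⟩ := h
  exact IsPGroup.of_card h1

/-- permutations of a sum -/
def sumHom (a b : ℕ) : Equiv.Perm (Fin a) × Equiv.Perm (Fin b) →* Equiv.Perm (Fin (a + b)) :=
  (finSumFinEquiv.permCongrHom).toMonoidHom.comp (Equiv.Perm.sumCongrHom (Fin a) (Fin b))

theorem sumHom_injective (a b : ℕ) : Function.Injective (sumHom a b) := by
  intro x y h
  exact Equiv.Perm.sumCongrHom_injective ((finSumFinEquiv.permCongrHom).injective h)

theorem sign_sumHom (a b : ℕ) (x : Equiv.Perm (Fin a) × Equiv.Perm (Fin b)) :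
    Equiv.Perm.sign (sumHom a b x) = Equiv.Perm.sign x.1 * Equiv.Perm.sign x.2 := by
  show Equiv.Perm.sign (finSumFinEquiv.permCongr (Equiv.Perm.sumCongr x.1 x.2)) = _
  rw [Equiv.Perm.sign_permCongr, Equiv.Perm.sign_sumCongr]

theorem model_prod {a b : ℕ} {P Q : Type} [Group P] [Group Q] {ε : P →* ℤˣ} {δ : Q →* ℤˣ} (hP : Model a P ε)
    (hQ : Model b Q δ) (he : ex (a + b) = ex a + ex b) : Model (a + b) (P × Q) (ε.coprod δ) := by
  obtain ⟨f, hf, hs, hc⟩ := hP
  obtain ⟨g, hg, ht, hd⟩ := hQ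
  refine ⟨(sumHom a b).comp (f.prodMap g), ?_, ?_, ?_⟩
  · intro x y h
    have h1 := sumHom_injective a b h
    exact Prod.ext (hf (congrArg Prod.fst h1)) (hg (congrArg Prod.snd h1))
  · intro x
    show Equiv.Perm.sign (sumHom a b (f x.1, g x.2)) = _
    rw [sign_sumHom, hs, ht]
    simp
  · rw [Nat.card_prod, hc, hd, he, pow_add]

theorem model_add {a b : ℕ} {P : Type} [Group P] {ε : P →* ℤˣ} (hP : Model a P ε) (he : ex (a + b) = ex a) :
    Model (a + b) P ε := by
  obtain ⟨f, hf, hs, hc⟩ := hP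
  refine ⟨(sumHom a b).comp ((MonoidHom.inl _ _).comp f), ?_, ?_, ?_⟩
  · intro x y h
    have h1 := sumHom_injective a b h
    exact hf (congrArg Prod.fst h1)
  · intro x
    show Equiv.Perm.sign (sumHom a b (f x, 1)) = _
    rw [sign_sumHom, hs]
    simp
  · rw [hc, he]

/-- the generic wreath product subgroup -/
def mkW {P B : Type} [Group P] [Group B] (φ : P × P →* B) (τ : B) (hτ : τ * τ = 1)
    (hsw : ∀ a b, τ * φ (a, b) * τ = φ (b, a)) : Subgroup B where
  carrier := {w | ∃ a b, w = φ (a, b) ∨ w = φ (a, b) * τ}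
  one_mem' := ⟨1, 1, Or.inl (map_one φ).symm⟩
  mul_mem' := by
    have hs : ∀ a b, τ * φ (a, b) = φ (b, a) * τ := by
      intro a b
      rw [← hsw a b, mul_assoc, mul_assoc, hτ, mul_one]
    have hm : ∀ a b c d, φ (a, b) * φ (c, d) = φ (a * c, b * d) := fun a b c d => by rw [← map_mul]; rfl
    rintro _ _ ⟨a, b, rfl | rfl⟩ ⟨c, d, rfl | rfl⟩
    · exact ⟨_, _, Or.inl (hm _ _ _ _)⟩
    · exact ⟨_, _, Or.inr (by rw [← mul_assoc, hm])⟩
    · exact ⟨_, _, Or.inr (by rw [mul_assoc, hs, ← mul_assoc, hm])⟩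
    · exact ⟨_, _, Or.inl (by rw [mul_assoc, ← mul_assoc τ, hs, mul_assoc (φ (d, c)), hτ, mul_one, hm])⟩
  inv_mem' := by
    have hs : ∀ a b, τ * φ (a, b) = φ (b, a) * τ := by
      intro a b
      rw [← hsw a b, mul_assoc, mul_assoc, hτ, mul_one]
    rintro _ ⟨a, b, rfl | rfl⟩
    · exact ⟨a⁻¹, b⁻¹, Or.inl (by rw [← map_inv]; rfl)⟩
    · refine ⟨b⁻¹, a⁻¹, Or.inr ?_⟩
      rw [mul_inv_rev, inv_eq_of_mul_eq_one_left hτ, ← map_inv]
      exact hs _ _

/-- the swap of two halves -/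
def swp (n : ℕ) : Equiv.Perm (Fin (n + n)) := finSumFinEquiv.permCongr (Equiv.sumComm (Fin n) (Fin n))

theorem swp_swp (n : ℕ) : swp n * swp n = 1 := by
  show finSumFinEquiv.permCongrHom (Equiv.sumComm (Fin n) (Fin n)) * finSumFinEquiv.permCongrHom (Equiv.sumComm (Fin n) (Fin n)) = 1
  rw [← map_mul]
  have : (Equiv.sumComm (Fin n) (Fin n) : Equiv.Perm (Fin n ⊕ Fin n)) * Equiv.sumComm (Fin n) (Fin n) = 1 := by
    ext x; rcases x with x | x <;> rfl
  rw [this, map_one]

theorem swp_sum (n : ℕ) (a b : Equiv.Perm (Fin n)) : swp n * sumHom n n (a, b) * swp n = sumHom n n (b, a) := by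
  show finSumFinEquiv.permCongrHom (Equiv.sumComm (Fin n) (Fin n)) * finSumFinEquiv.permCongrHom (Equiv.Perm.sumCongr a b) *
    finSumFinEquiv.permCongrHom (Equiv.sumComm (Fin n) (Fin n)) = finSumFinEquiv.permCongrHom (Equiv.Perm.sumCongr b a)
  rw [← map_mul, ← map_mul]
  congr 1
  ext x; rcases x with x | x <;> rfl

theorem sign_swp (n : ℕ) (hn : Even n) : Equiv.Perm.sign (swp n) = 1 := by
  have h1 : Equiv.Perm.sign (swp n) = Equiv.Perm.sign (Equiv.sumComm (Fin n) (Fin n) : Equiv.Perm (Fin n ⊕ Fin n)) :=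
    Equiv.Perm.sign_permCongr _ _
  rw [h1]
  have h2 : (Equiv.sumComm (Fin n) (Fin n) : Equiv.Perm (Fin n ⊕ Fin n)) =
      (Equiv.boolProdEquivSum (Fin n)).permCongr (Equiv.prodCongrLeft (fun _ : Fin n => Equiv.swap false true)) := by
    ext x; rcases x with x | x <;> simp [Equiv.permCongr_apply]
  rw [h2, Equiv.Perm.sign_permCongr, Equiv.Perm.sign_prodCongrLeft]
  rw [Finset.prod_congr rfl (fun x _ => Equiv.Perm.sign_swap (by decide : false ≠ true)), Finset.prod_const, Finset.card_univ, Fintype.card_fin]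
  exact hn.neg_one_pow

theorem swp_ne (n : ℕ) (hn : 0 < n) (a b : Equiv.Perm (Fin n)) : sumHom n n (a, b) ≠ swp n := by
  intro h
  have h1 : Equiv.Perm.sumCongr a b = Equiv.sumComm (Fin n) (Fin n) := finSumFinEquiv.permCongrHom.injective h
  have h2 := congrArg (fun f : Equiv.Perm (Fin n ⊕ Fin n) => f (Sum.inl ⟨0, hn⟩)) h1
  simp at h2

theorem card_mkW {P B : Type} [Group P] [Finite P] [Group B] (φ : P × P →* B) (hφ : Function.Injective φ) (τ : B) (hτ : τ * τ = 1)
    (hsw : ∀ a b, τ * φ (a, b) * τ = φ (b, a)) (hnot : ∀ a b, φ (a, b) ≠ τ) :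
    Nat.card (mkW φ τ hτ hsw) = 2 * (Nat.card P * Nat.card P) := by
  have hm : ∀ a b c d, φ (a, b) * φ (c, d) = φ (a * c, b * d) := fun a b c d => by rw [← map_mul]; rfl
  have e : Bool × (P × P) ≃ mkW φ τ hτ hsw := Equiv.ofBijective
    (fun x => ⟨if x.1 then φ x.2 * τ else φ x.2, by
      refine ⟨x.2.1, x.2.2, ?_⟩
      rcases x with ⟨_ | _, x⟩
      · left; rfl
      · right; rfl⟩) ⟨by
      have hne : ∀ x y : P × P, φ x ≠ φ y * τ := by
        intro x y h
        apply hnot (y⁻¹ * x).1 (y⁻¹ * x).2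
        show φ (y⁻¹ * x) = τ
        rw [map_mul, h, ← mul_assoc, ← map_mul, inv_mul_cancel, map_one, one_mul]
      rintro ⟨_ | _, x⟩ ⟨_ | _, y⟩ h
      · have h1 : φ x = φ y := congrArg Subtype.val h
        rw [hφ h1]
      · have h1 : φ x = φ y * τ := congrArg Subtype.val h
        exact absurd h1 (hne x y)
      · have h1 : φ x * τ = φ y := congrArg Subtype.val h
        exact absurd h1.symm (hne y x)
      · have h1 : φ x * τ = φ y * τ := congrArg Subtype.val h
        rw [hφ (mul_right_cancel h1)], by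
      rintro ⟨w, a, b, rfl | rfl⟩
      · exact ⟨(false, (a, b)), rfl⟩
      · exact ⟨(true, (a, b)), rfl⟩⟩
  rw [← Nat.card_congr e, Nat.card_prod, Nat.card_prod]
  simp

theorem tower_step (k n : ℕ) (hn : n = 2 ^ k) (hk : 1 ≤ k) {P : Type} [Group P] {ε : P →* ℤˣ} (hM : Model n P ε) :
    ∃ (W : Type) (_ : Group W) (δ : W →* ℤˣ), Model (2 ^ (k + 1)) W δ ∧ Nonempty (WrData P W ε δ) := by
  haveI := hM.finite
  obtain ⟨f, hf, hs, hc⟩ := hM
  have hne : Even n := by
    rw [hn]
    exact (even_two).pow_of_ne_zero (by omega)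
  have hn0 : 0 < n := by rw [hn]; positivity
  let φ : P × P →* Equiv.Perm (Fin (n + n)) := (sumHom n n).comp (f.prodMap f)
  have hφ : Function.Injective φ := by
    intro x y h
    have h1 := sumHom_injective n n h
    exact Prod.ext (hf (congrArg Prod.fst h1)) (hf (congrArg Prod.snd h1))
  have hsw : ∀ a b, swp n * φ (a, b) * swp n = φ (b, a) := fun a b => swp_sum n (f a) (f b)
  have hnot : ∀ a b, φ (a, b) ≠ swp n := fun a b => swp_ne n hn0 (f a) (f b)
  let W := mkW φ (swp n) (swp_swp n) hsw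
  have hnn : n + n = 2 ^ (k + 1) := by rw [pow_succ, ← hn]; ring
  have hcardW : Nat.card W = 2 ^ ex (2 ^ (k + 1)) := by
    rw [card_mkW φ hφ (swp n) (swp_swp n) hsw hnot, hc, ← pow_add]
    rw [← pow_succ']
    congr 1
    have h1 := ex_pow k
    have h2 := ex_pow (k + 1)
    rw [← hn] at h1
    rw [pow_succ] at h2
    rw [← hn] at h2
    rw [pow_succ, ← hn]
    omega
  let δ : W →* ℤˣ := Equiv.Perm.sign.comp W.subtype
  refine ⟨W, inferInstance, δ, ?_, ⟨?_⟩⟩
  · rw [← hnn] at hcardW ⊢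
    exact ⟨W.subtype, W.subtype_injective, fun x => rfl, hcardW⟩
  · have hmem1 : ∀ x : P × P, φ x ∈ W := fun x => ⟨x.1, x.2, Or.inl rfl⟩
    have hmem2 : swp n ∈ W := ⟨1, 1, Or.inr (by
      have : φ ((1 : P), (1 : P)) = 1 := map_one φ
      rw [this, one_mul])⟩
    exact
      { φ := φ.codRestrict W hmem1
        inj := by
          intro x y h
          exact hφ (congrArg Subtype.val h)
        τ := ⟨swp n, hmem2⟩
        hτ := Subtype.ext (swp_swp n)
        hsw := fun a b => Subtype.ext (hsw a b)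
        hcov := by
          rintro ⟨w, a, b, hw | hw⟩
          · exact ⟨a, b, Or.inl (Subtype.ext hw)⟩
          · exact ⟨a, b, Or.inr (Subtype.ext hw)⟩
        hnot := fun a b h => hnot a b (congrArg Subtype.val h)
        hδ := by
          intro a b
          show Equiv.Perm.sign (sumHom n n (f a, f b)) = _
          rw [sign_sumHom, hs, hs]
        hδτ := sign_swp n hne }

theorem tower (k : ℕ) (hk : 1 ≤ k) : ∃ (P : Type) (_ : Group P) (ε : P →* ℤˣ), Model (2 ^ k) P ε ∧ Nontrivial P ∧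
    (∃ x, ε x = -1) ∧ (∀ z ∈ center P, z * z = 1) ∧ (∀ z ∈ center P, ∀ z' ∈ center P, z ≠ 1 → z' ≠ 1 → z = z') ∧
    (2 ≤ k → Cen P ∧ Good P ε ∧ ∃ x, x ≠ 1 ∧ ε x = 1) ∧ (3 ≤ k → ¬ Dec ε.ker) := by
  induction k with
  | zero => omega
  | succ k ih =>
    rcases Nat.eq_zero_or_pos k with h0 | h0
    · subst h0
      refine ⟨Equiv.Perm (Fin 2), inferInstance, Equiv.Perm.sign, ⟨MonoidHom.id _, fun _ _ h => h, fun _ => rfl, ?_⟩,
        inferInstance, ⟨Equiv.swap 0 1, by decide⟩, ?_, ?_, by omega, by omega⟩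
      · have h1 := ex_pow 1
        have : ex (2 ^ (0 + 1)) = 1 := by
          rw [show (0 + 1) = 1 from rfl]
          omega
        rw [this, Nat.card_eq_fintype_card]
        simp [Fintype.card_perm]
      · intro z _
        revert z
        decide
      · intro z _ z' _
        revert z z'
        decide
    · obtain ⟨P, _, ε, hM, hnt, hε, hE, hU, h2, h3⟩ := ih h0
      obtain ⟨W, _, δ, hMW, ⟨D⟩⟩ := tower_step k _ rfl h0 hM
      haveI := hMW.finite
      have hτ1 : D.τ ≠ 1 := by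
        intro h
        exact D.hnot 1 1 (by rw [h]; exact map_one _)
      have hg := D.good hE hε
      refine ⟨W, inferInstance, δ, hMW, ⟨D.τ, 1, hτ1⟩, hg.g3, D.E hE, D.U hU, fun _ => ⟨D.cen, hg, D.τ, hτ1, D.hδτ⟩, ?_⟩
      intro hk3
      obtain ⟨-, -, hx⟩ := h2 (by omega)
      exact D.not_dec_ker hMW.isPGroup hU hε hx

theorem final_iso {n : ℕ} (hn : 2 ≤ n) {P : Type} [Group P] {ε : P →* ℤˣ} (hM : Model n P ε) (hε : ∃ x, ε x = -1)
    (R : Sylow 2 (alternatingGroup (Fin n))) : Nonempty (R ≃* ε.ker) := by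
  haveI := hM.finite
  obtain ⟨f, hf, hs, hc⟩ := hM
  haveI : Nontrivial (Fin n) := Fin.nontrivial_iff_two_le.mpr hn
  let g : ε.ker →* alternatingGroup (Fin n) :=
    (f.comp ε.ker.subtype).codRestrict _ (by
      intro x
      rw [Equiv.Perm.mem_alternatingGroup]
      show Equiv.Perm.sign (f (x : P)) = 1
      rw [hs]
      exact x.2)
  have hg : Function.Injective g := by
    intro x y h
    exact Subtype.ext (hf (congrArg Subtype.val h))
  have hker : Nat.card ε.ker * 2 = Nat.card P := by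
    have h1 := ε.ker.card_mul_index
    rw [Subgroup.index_ker] at h1
    have h2 : Nat.card ε.range = 2 := by
      have : ε.range = ⊤ := by
        rw [MonoidHom.range_eq_top]
        intro u
        rcases Int.units_eq_one_or u with rfl | rfl
        · exact ⟨1, map_one _⟩
        · exact hε
      rw [this, Subgroup.card_top]
      simp
    rw [h2] at h1
    exact h1
  have hex1 : 1 ≤ ex n := by
    by_contra h
    have h0 : ex n = 0 := by omega
    rw [hc, h0] at hker
    omega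
  have hkc : Nat.card ε.ker = 2 ^ (ex n - 1) := by
    rw [hc] at hker
    obtain ⟨m, hm⟩ : ∃ m, ex n = m + 1 := ⟨ex n - 1, by omega⟩
    rw [hm, pow_succ] at hker
    rw [hm, Nat.add_sub_cancel]
    exact Nat.eq_of_mul_eq_mul_right (by norm_num) hker
  have hfac : (Nat.card (alternatingGroup (Fin n))).factorization 2 = ex n - 1 := by
    have h1 := two_mul_nat_card_alternatingGroup (α := Fin n)
    rw [Nat.card_perm, Nat.card_fin] at h1
    have h2 : (n.factorial).factorization 2 = ex n := Nat.factorization_def _ Nat.prime_two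
    rw [← h1, Nat.factorization_mul (by norm_num) Nat.card_pos.ne'] at h2
    rw [Finsupp.add_apply, Nat.Prime.factorization_self Nat.prime_two] at h2
    omega
  have hrange : Nat.card g.range = 2 ^ (Nat.card (alternatingGroup (Fin n))).factorization 2 := by
    rw [hfac, ← hkc]
    exact (Nat.card_congr (MonoidHom.ofInjective hg).toEquiv).symm
  let S := Sylow.ofCard g.range hrange
  exact ⟨(Sylow.equiv R S).trans (MonoidHom.ofInjective hg).symm⟩

/-- models for multiples of four -/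
theorem exists_model (m : ℕ) : 1 ≤ m → ∃ (P : Type) (_ : Group P) (ε : P →* ℤˣ), Model (4 * m) P ε ∧ Good P ε ∧ Nontrivial P := by
  induction m using Nat.strong_induction_on with
  | _ m ih =>
  intro hm
  set k := Nat.log 2 (4 * m) with hk
  have h1 : 2 ^ k ≤ 4 * m := Nat.pow_log_le_self 2 (by omega)
  have h2 : 4 * m < 2 ^ (k + 1) := Nat.lt_pow_succ_log_self (by norm_num) _
  have hk2 : 2 ≤ k := by
    by_contra h
    have : k + 1 ≤ 2 := by omega
    have h3 := Nat.pow_le_pow_right (show 0 < 2 by norm_num) this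
    omega
  obtain ⟨P, _, ε, hM, hnt, hε, -, -, h3, -⟩ := tower k (by omega)
  obtain ⟨hC, hG, -⟩ := h3 hk2
  have h4 : 4 ∣ 2 ^ k := by
    have := pow_dvd_pow 2 hk2
    exact this
  obtain ⟨a, ha⟩ := h4
  rcases Nat.eq_zero_or_pos (m - a) with hb | hb
  · have : 4 * m = 2 ^ k := by omega
    rw [this]
    exact ⟨P, inferInstance, ε, hM, hG, hnt⟩
  · have hpos : 0 < 2 ^ k := by positivity
    obtain ⟨Q, _, δ, hQ, hQG, hQn⟩ := ih (m - a) (by omega) hb
    have h5 : 4 * m = 2 ^ k + 4 * (m - a) := by omega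
    rw [h5]
    refine ⟨P × Q, inferInstance, ε.coprod δ, model_prod hM hQ (ex_add k _ ?_), good_prod hC hG hQG, inferInstance⟩
    rw [pow_succ] at h2
    omega

/-- the shape of models -/
theorem shape (m : ℕ) (hm : 1 ≤ m) (h : ∀ r : ℕ, 4 * m ≠ 2 ^ r) : ∃ (P : Type) (_ : Group P) (ε : P →* ℤˣ) (Q : Type) (_ : Group Q)
    (δ : Q →* ℤˣ), Model (4 * m) (P × Q) (ε.coprod δ) ∧ Cen P ∧ Good P ε ∧ Good Q δ ∧ Nontrivial P ∧ Nontrivial Q := by
  set k := Nat.log 2 (4 * m) with hk
  have h1 : 2 ^ k ≤ 4 * m := Nat.pow_log_le_self 2 (by omega)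
  have h2 : 4 * m < 2 ^ (k + 1) := Nat.lt_pow_succ_log_self (by norm_num) _
  have hk2 : 2 ≤ k := by
    by_contra h
    have : k + 1 ≤ 2 := by omega
    have h3 := Nat.pow_le_pow_right (show 0 < 2 by norm_num) this
    omega
  obtain ⟨P, _, ε, hM, hnt, hε, -, -, h3, -⟩ := tower k (by omega)
  obtain ⟨hC, hG, -⟩ := h3 hk2
  have h4 : 4 ∣ 2 ^ k := by
    have := pow_dvd_pow 2 hk2
    exact this
  obtain ⟨a, ha⟩ := h4
  have hne := h k
  obtain ⟨Q, _, δ, hQ, hQG, hQn⟩ := exists_model (m - a) (by omega)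
  have h5 : 4 * m = 2 ^ k + 4 * (m - a) := by omega
  refine ⟨P, inferInstance, ε, Q, inferInstance, δ, ?_, hC, hG, hQG, hnt, hQn⟩
  rw [h5]
  refine model_prod hM hQ (ex_add k _ ?_)
  rw [pow_succ] at h2
  omega

end H98.SylAc
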