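import Mathlib

set_option autoImplicit false

/-!
S3068: the abstract counting argument (an abelian group `A` acting on an abelian group `E`).
-/

namespace H98.TjA

section count

theorem card_fib {α β : Type*} [Finite α] (f : α → β) (n : ℕ) (h : ∀ a0, Nat.card {a // f a = f a0} ≤ n) :
    Nat.card α ≤ n * Nat.card (Set.range f) := by
  classical
  haveI := Fintype.ofFinite α
  rw [Nat.card_eq_fintype_card, ← Finset.card_univ]
  have h1 := Finset.card_le_mul_card_image (f := f) Finset.univ n (fun b hb => by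
    obtain ⟨a0, -, rfl⟩ := Finset.mem_image.1 hb
    have h2 := h a0
    rw [Nat.card_eq_fintype_card, Fintype.card_subtype] at h2
    exact h2)
  have h3 : Nat.card (Set.range f) = (Finset.univ.image f).card := by
    rw [← Set.image_univ, ← Finset.coe_univ, ← Finset.coe_image, Nat.card_coe_set_eq, Set.ncard_coe_finset]
  rw [h3]
  exact h1

end count

variable {A : Type*} [CommGroup A] [Finite A] {E : Type*} [AddCommGroup E] [Finite E] {R : Type*} [CommRing R]
  [Module R E] (φ : A →* R)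

/-- fixed points -/
def fx : AddSubgroup E where
  carrier := {x | ∀ a, (φ a - 1) • x = 0}
  zero_mem' := fun a => smul_zero _
  add_mem' := by
    intro x y hx hy a
    rw [smul_add, hx a, hy a, add_zero]
  neg_mem' := by
    intro x hx a
    rw [smul_neg, hx a, neg_zero]

theorem mem_fx {x : E} : x ∈ fx (E := E) φ ↔ ∀ a, (φ a - 1) • x = 0 := Iff.rfl

/-- `C_x` -/
def cx (x : E) : Subgroup A where
  carrier := {c | (φ c - 1) • x ∈ fx (E := E) φ}
  one_mem' := by
    simp only [Set.mem_setOf_eq, map_one, sub_self, zero_smul]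
    exact zero_mem _
  mul_mem' := by
    intro c d hc hd
    simp only [Set.mem_setOf_eq] at hc hd ⊢
    have e : (φ (c * d) - 1) • x = (φ c - 1) • ((φ d - 1) • x) + (φ c - 1) • x + (φ d - 1) • x := by
      rw [map_mul, smul_smul, ← add_smul, ← add_smul]
      congr 1
      ring
    rw [e, hd c, zero_add]
    exact add_mem hc hd
  inv_mem' := by
    intro c hc
    simp only [Set.mem_setOf_eq] at hc ⊢
    have e1 : φ c⁻¹ * φ c = 1 := by rw [← map_mul, inv_mul_cancel, map_one]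
    have e : (φ c⁻¹ - 1) • x = - ((φ c⁻¹ - 1) • ((φ c - 1) • x) + (φ c - 1) • x) := by
      rw [smul_smul, ← add_smul, ← neg_smul]
      congr 1
      linear_combination e1
    rw [e, hc c⁻¹, zero_add]
    exact neg_mem hc

theorem mem_cx {x : E} {c : A} : c ∈ cx φ x ↔ (φ c - 1) • x ∈ fx (E := E) φ := Iff.rfl

/-- `W_x` -/
def wx (x : E) : AddSubgroup E := AddSubgroup.closure {y | ∃ a, y = (φ a - 1) • x} ⊔ fx (E := E) φ

/-- the map `(a, e) ↦ δ_a x + e` -/
def gm (x : E) (q : A × fx (E := E) φ) : E := (φ q.1 - 1) • x + q.2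

theorem gm_mem (x : E) (q : A × fx (E := E) φ) : gm φ x q ∈ wx φ x := by
  unfold gm wx
  refine add_mem (AddSubgroup.mem_sup_left (AddSubgroup.subset_closure ⟨q.1, rfl⟩)) (AddSubgroup.mem_sup_right q.2.2)

theorem smul_fx {x : E} (hx : x ∈ fx (E := E) φ) (a : A) : φ a • x = x := by
  have := hx a
  rwa [sub_smul, one_smul, sub_eq_zero] at this

theorem card_gm (x : E) : Nat.card A * Nat.card (fx (E := E) φ) ≤ Nat.card (cx φ x) * Nat.card (Set.range (gm φ x)) := by
  rw [← Nat.card_prod]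
  apply card_fib
  intro q0
  apply Nat.card_le_card_of_injective (fun q : {q // gm φ x q = gm φ x q0} => (⟨q.1.1 * q0.1⁻¹, by
    rw [mem_cx]
    have h := q.2
    unfold gm at h
    have e1 : φ q0.1⁻¹ * φ q0.1 = 1 := by rw [← map_mul, inv_mul_cancel, map_one]
    have e2 : (φ (q.1.1 * q0.1⁻¹) - 1) • x = φ q0.1⁻¹ • ((φ q.1.1 - 1) • x - (φ q0.1 - 1) • x) := by
      rw [← sub_smul, smul_smul, map_mul]
      congr 1
      linear_combination e1
    have e3 : (φ q.1.1 - 1) • x - (φ q0.1 - 1) • x = ((q0.2 : E)) - q.1.2 := by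
      rw [sub_eq_sub_iff_add_eq_add, h, add_comm]
    rw [e2, e3, smul_fx φ (sub_mem q0.2.2 q.1.2.2)]
    exact sub_mem q0.2.2 q.1.2.2⟩ : cx φ x))
  rintro ⟨⟨a, e⟩, h⟩ ⟨⟨a', e'⟩, h'⟩ hh
  simp only [Subtype.mk.injEq, mul_left_inj] at hh
  subst hh
  have h3 : gm φ x (a, e) = gm φ x (a, e') := h.trans h'.symm
  unfold gm at h3
  simp only [add_right_inj] at h3
  have h4 : e = e' := Subtype.ext h3
  subst h4
  rfl

theorem card_le (x : E) : Nat.card A * Nat.card (fx (E := E) φ) ≤ Nat.card (cx φ x) * Nat.card (wx φ x) := by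
  refine (card_gm φ x).trans (Nat.mul_le_mul_left _ ?_)
  apply Nat.card_mono (Set.toFinite _)
  rintro _ ⟨q, rfl⟩
  exact gm_mem φ x q

theorem cx_wx (x : E) : ∀ c ∈ cx φ x, ∀ w ∈ wx φ x, (φ c - 1) • w = 0 := by
  intro c hc w hw
  have h : wx φ x ≤ (⟨⟨⟨{w | (φ c - 1) • w = 0}, by
      intro a b ha hb
      simp only [Set.mem_setOf_eq] at ha hb ⊢
      rw [smul_add, ha, hb, add_zero]⟩, by simp⟩, by
      intro a ha
      simp only [Set.mem_setOf_eq] at ha ⊢
      show (φ c - 1) • (-a) = 0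
      rw [smul_neg, ha, neg_zero]⟩ : AddSubgroup E) := by
    unfold wx
    rw [sup_le_iff]
    constructor
    · rw [AddSubgroup.closure_le]
      rintro _ ⟨a, rfl⟩
      show (φ c - 1) • (φ a - 1) • x = 0
      rw [smul_comm]
      exact hc a
    · intro e he
      exact he c
  exact h hw

/-- the hypotheses -/
structure Hyp (AQ : Subgroup A) : Prop where
  h1 : ∀ (C : Subgroup A) (W : AddSubgroup E), (∀ c ∈ C, ∀ w ∈ W, (φ c - 1) • w = 0) →
    Nat.card C * Nat.card W ≤ Nat.card A * Nat.card (fx (E := E) φ)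
  h2 : ∀ (C : Subgroup A) (W : AddSubgroup E), (∀ c ∈ C, ∀ w ∈ W, (φ c - 1) • w = 0) →
    Nat.card A * Nat.card (fx (E := E) φ) ≤ Nat.card C * Nat.card W → ¬ W ≤ fx (E := E) φ → C ≤ AQ

variable {φ}

theorem card_eq {AQ : Subgroup A} (h : Hyp (E := E) φ AQ) (x : E) :
    Nat.card (cx φ x) * Nat.card (wx φ x) = Nat.card A * Nat.card (fx (E := E) φ) :=
  le_antisymm (h.h1 _ _ (cx_wx φ x)) (card_le φ x)

theorem r0 {AQ : Subgroup A} (h : Hyp (E := E) φ AQ) (x : E) : ∀ w ∈ wx φ x, ∃ a, ∃ e ∈ fx (E := E) φ,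
    w = (φ a - 1) • x + e := by
  intro w hw
  have h1 : Set.range (gm φ x) = (wx φ x : Set E) := by
    apply Set.eq_of_subset_of_ncard_le _ _ (Set.toFinite _)
    · rintro _ ⟨q, rfl⟩
      exact gm_mem φ x q
    · have h2 := (card_eq h x).le.trans (card_gm φ x)
      have h3 := Nat.le_of_mul_le_mul_left h2 Nat.card_pos
      rw [← Nat.card_coe_set_eq, ← Nat.card_coe_set_eq]
      exact h3
  have h2 : w ∈ Set.range (gm φ x) := by rw [h1]; exact hw
  obtain ⟨q, rfl⟩ := h2
  exact ⟨q.1, q.2, q.2.2, rfl⟩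

theorem c0 {AQ : Subgroup A} (h : Hyp (E := E) φ AQ) {b : A} (hb : b ∉ AQ) {x : E}
    (hx : (φ b - 1) • x ∈ fx (E := E) φ) : ∀ a, (φ a - 1) • x ∈ fx (E := E) φ := by
  by_contra hcon
  push Not at hcon
  obtain ⟨a, ha⟩ := hcon
  have h1 := h.h2 _ _ (cx_wx φ x) (card_le φ x) (fun hle => ha (hle (by
    unfold wx
    exact AddSubgroup.mem_sup_left (AddSubgroup.subset_closure ⟨a, rfl⟩))))
  exact hb (h1 hx)

variable (φ)

/-- the levels -/
def lv : ℕ → AddSubgroup E
  | 0 => ⊥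
  | n + 1 =>
    { carrier := {x | ∀ a, (φ a - 1) • x ∈ lv n}
      zero_mem' := fun a => by rw [smul_zero]; exact zero_mem _
      add_mem' := by
        intro x y hx hy a
        rw [smul_add]
        exact add_mem (hx a) (hy a)
      neg_mem' := by
        intro x hx a
        rw [smul_neg]
        exact neg_mem (hx a) }

theorem lv_one : lv (E := E) φ 1 = fx (E := E) φ := by
  ext x
  rfl

theorem lv_le (n : ℕ) : lv (E := E) φ n ≤ lv φ (n + 1) := by
  induction n with
  | zero => exact bot_le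
  | succ n ih => exact fun x hx a => ih (hx a)

theorem lv_mono {m n : ℕ} (h : m ≤ n) : lv (E := E) φ m ≤ lv φ n := by
  induction h with
  | refl => exact le_rfl
  | step _ ih => exact ih.trans (lv_le φ _)

variable {φ}

theorem claim {AQ : Subgroup A} (h : Hyp (E := E) φ AQ) {b : A} (hb : b ∉ AQ) (i : ℕ) : ∀ {x : E},
    (φ b - 1) • x ∈ lv (E := E) φ (i + 1) → x ∈ lv (E := E) φ (i + 2) := by
  induction i with
  | zero =>
    intro x hx
    rw [lv_one] at hx
    intro a
    exact (lv_one (E := E) φ).symm ▸ c0 h hb hx a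
  | succ i ih =>
    intro x hx a
    apply ih
    rw [smul_comm]
    exact hx a

theorem r {AQ : Subgroup A} (h : Hyp (E := E) φ AQ) (h3 : ∀ x : E, ∃ n, x ∈ lv φ n) (x : E) (a a' : A) :
    ∃ b ∈ AQ, ∃ e ∈ fx (E := E) φ, (φ a - 1) • (φ a' - 1) • x = - ((φ b - 1) • x) + e := by
  classical
  set n := Nat.find (h3 x) with hn
  have hxn : x ∈ lv φ n := Nat.find_spec (h3 x)
  rcases Nat.lt_or_ge n 3 with hlt | hge
  · refine ⟨1, one_mem _, 0, zero_mem _, ?_⟩
    rw [map_one, sub_self, zero_smul, add_zero, neg_zero]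
    have h1 : x ∈ lv φ 2 := lv_mono φ (by omega) hxn
    exact h1 a' a
  · have hw : (φ a - 1) • (φ a' - 1) • x ∈ wx φ x := by
      have e : (φ a - 1) • (φ a' - 1) • x = (φ (a * a') - 1) • x - (φ a - 1) • x - (φ a' - 1) • x := by
        rw [map_mul, smul_smul, ← sub_smul, ← sub_smul]
        congr 1
        ring
      rw [e]
      unfold wx
      refine sub_mem (sub_mem ?_ ?_) ?_
      all_goals exact AddSubgroup.mem_sup_left (AddSubgroup.subset_closure ⟨_, rfl⟩)
    obtain ⟨b, e, he, heq⟩ := r0 h x _ (neg_mem hw)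
    refine ⟨b, ?_, -e, neg_mem he, by rw [← neg_add, ← heq, neg_neg]⟩
    by_contra hb
    obtain ⟨m, hm⟩ : ∃ m, n = m + 3 := ⟨n - 3, by omega⟩
    have h4 : (φ b - 1) • x ∈ lv φ (m + 1) := by
      have e1 : (φ b - 1) • x = -((φ a - 1) • (φ a' - 1) • x) - e := by rw [heq]; abel
      rw [e1]
      refine sub_mem (neg_mem ?_) (lv_mono φ (by omega : 1 ≤ m + 1) (by rw [lv_one]; exact he))
      rw [hm] at hxn
      exact hxn a' a
    have h5 := claim h hb m h4
    have h6 : n ≤ m + 2 := Nat.find_min' (h3 x) h5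
    omega

/-- elements of `E` fixed by `D` -/
def ce (φ : A →* R) (D : Subgroup A) : AddSubgroup E where
  carrier := {x | ∀ a ∈ D, (φ a - 1) • x = 0}
  zero_mem' := fun a _ => smul_zero _
  add_mem' := by
    intro x y hx hy a ha
    rw [smul_add, hx a ha, hy a ha, add_zero]
  neg_mem' := by
    intro x hx a ha
    rw [smul_neg, hx a ha, neg_zero]


theorem card_sup_mul_card_inf {B : Type*} [Group B] [Finite B] {C D : Subgroup B} (h : C ≤ Subgroup.normalizer (D : Set B)) :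
    Nat.card ↥(C ⊔ D) * Nat.card ↥(C ⊓ D) = Nat.card C * Nat.card D := by
  have h1 : Nat.card ↥(C ⊔ D) = Nat.card D * D.relIndex (C ⊔ D) := by
    rw [← Subgroup.relIndex_bot_left, ← Subgroup.relIndex_bot_left,
      Subgroup.relIndex_mul_relIndex _ _ _ bot_le le_sup_right]
  have h2 : Nat.card C = Nat.card ↥(C ⊓ D) * (C ⊓ D).relIndex C := by
    rw [← Subgroup.relIndex_bot_left, ← Subgroup.relIndex_bot_left,
      Subgroup.relIndex_mul_relIndex _ _ _ bot_le inf_le_left]
  have h3 : D.relIndex (C ⊔ D) = D.relIndex C := by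
    let _ := Subgroup.normal_subgroupOf_of_le_normalizer h
    let _ := Subgroup.normal_subgroupOf_sup_of_le_normalizer h
    exact (Nat.card_congr (QuotientGroup.quotientInfEquivProdNormalizerQuotient C D h).toEquiv).symm
  rw [Subgroup.inf_relIndex_left] at h2
  rw [h1, h3, h2]
  ring

omit [Module R E] in
theorem card_add (W W' : AddSubgroup E) : Nat.card ↥(W ⊔ W') * Nat.card ↥(W ⊓ W') = Nat.card W * Nat.card W' := by
  have h := card_sup_mul_card_inf (B := Multiplicative E) (C := AddSubgroup.toSubgroup W) (D := AddSubgroup.toSubgroup W')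
    (by
      intro x _
      rw [Subgroup.mem_normalizer_iff]
      intro y
      rw [mul_comm x y, mul_inv_cancel_right])
  rw [← map_sup, ← map_inf] at h
  exact h

theorem ce_top : ce (E := E) φ ⊤ = fx (E := E) φ := by
  ext x
  exact ⟨fun h a => h a trivial, fun h a _ => h a⟩

theorem kill_closed (W : AddSubgroup E) (D1 D2 : Subgroup A) (h1 : ∀ c ∈ D1, ∀ w ∈ W, (φ c - 1) • w = 0)
    (h2 : ∀ c ∈ D2, ∀ w ∈ W, (φ c - 1) • w = 0) : ∀ c ∈ D1 ⊔ D2, ∀ w ∈ W, (φ c - 1) • w = 0 := by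
  intro c hc w hw
  obtain ⟨a, ha, b, hb, rfl⟩ := Subgroup.mem_sup.1 hc
  have e : (φ (a * b) - 1) • w = φ b • ((φ a - 1) • w) + (φ b - 1) • w := by
    rw [map_mul, smul_smul, ← add_smul]
    congr 1
    ring
  rw [e, h1 a ha w hw, h2 b hb w hw, smul_zero, add_zero]

theorem inter {AQ : Subgroup A} (h : Hyp (E := E) φ AQ) {D1 D2 : Subgroup A}
    (h1 : Nat.card A * Nat.card (fx (E := E) φ) ≤ Nat.card D1 * Nat.card (ce (E := E) φ D1))
    (h2 : Nat.card A * Nat.card (fx (E := E) φ) ≤ Nat.card D2 * Nat.card (ce (E := E) φ D2)) :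
    Nat.card A * Nat.card (fx (E := E) φ) ≤ Nat.card ↥(D1 ⊓ D2) * Nat.card (ce (E := E) φ (D1 ⊓ D2)) := by
  have e1 : Nat.card ↥(D1 ⊔ D2) * Nat.card ↥(D1 ⊓ D2) = Nat.card D1 * Nat.card D2 := by
    apply card_sup_mul_card_inf
    intro x _
    rw [Subgroup.mem_normalizer_iff]
    intro y
    rw [mul_comm x y, mul_inv_cancel_right]
  have e2 := card_add (ce (E := E) φ D1) (ce (E := E) φ D2)
  have e3 := h.h1 (D1 ⊔ D2) (ce (E := E) φ D1 ⊓ ce (E := E) φ D2) (kill_closed _ _ _ (fun c hc w hw => hw.1 c hc)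
    (fun c hc w hw => hw.2 c hc))
  have e4 : Nat.card ↥(ce (E := E) φ D1 ⊔ ce (E := E) φ D2) ≤ Nat.card (ce (E := E) φ (D1 ⊓ D2)) := by
    apply Nat.card_mono (Set.toFinite _)
    have : ce (E := E) φ D1 ⊔ ce (E := E) φ D2 ≤ ce (E := E) φ (D1 ⊓ D2) := by
      rw [sup_le_iff]
      exact ⟨fun x hx a ha => hx a ha.1, fun x hx a ha => hx a ha.2⟩
    exact this
  set N := Nat.card A * Nat.card (fx (E := E) φ) with hN
  have hNpos : 0 < N := Nat.mul_pos Nat.card_pos Nat.card_pos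
  have h5 : N * N ≤ N * (Nat.card ↥(D1 ⊓ D2) * Nat.card (ce (E := E) φ (D1 ⊓ D2))) := by
    calc N * N ≤ (Nat.card D1 * Nat.card (ce (E := E) φ D1)) * (Nat.card D2 * Nat.card (ce (E := E) φ D2)) :=
          Nat.mul_le_mul h1 h2
      _ = (Nat.card D1 * Nat.card D2) * (Nat.card (ce (E := E) φ D1) * Nat.card (ce (E := E) φ D2)) := by ring
      _ = (Nat.card ↥(D1 ⊔ D2) * Nat.card ↥(D1 ⊓ D2)) * (Nat.card ↥(ce (E := E) φ D1 ⊔ ce (E := E) φ D2) *
            Nat.card ↥(ce (E := E) φ D1 ⊓ ce (E := E) φ D2)) := by rw [e1, e2]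
      _ = (Nat.card ↥(D1 ⊔ D2) * Nat.card ↥(ce (E := E) φ D1 ⊓ ce (E := E) φ D2)) * (Nat.card ↥(D1 ⊓ D2) *
            Nat.card ↥(ce (E := E) φ D1 ⊔ ce (E := E) φ D2)) := by ring
      _ ≤ N * (Nat.card ↥(D1 ⊓ D2) * Nat.card (ce (E := E) φ (D1 ⊓ D2))) :=
          Nat.mul_le_mul e3 (Nat.mul_le_mul_left _ e4)
  exact Nat.le_of_mul_le_mul_left h5 hNpos

/-- the Timmesfeld subgroup -/
theorem tt {AQ : Subgroup A} (h : Hyp (E := E) φ AQ) : ∃ D : Subgroup A,
    (∀ c, c ∈ D ↔ ∀ (x : E) (a : A), (φ c - 1) • (φ a - 1) • x = 0) ∧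
    Nat.card D * Nat.card (ce (E := E) φ D) = Nat.card A * Nat.card (fx (E := E) φ) ∧
    ((∃ (x : E) (a : A), (φ a - 1) • x ∉ fx (E := E) φ) → D ≤ AQ) := by
  classical
  haveI := Fintype.ofFinite E
  have key : ∀ s : Finset E, Nat.card A * Nat.card (fx (E := E) φ) ≤
      Nat.card ↥(s.inf (cx φ)) * Nat.card (ce (E := E) φ (s.inf (cx φ))) := by
    intro s
    induction s using Finset.induction_on with
    | empty => rw [Finset.inf_empty, ce_top, Subgroup.card_top]
    | insert x s _ ih =>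
      rw [Finset.inf_insert]
      refine inter h ?_ ih
      refine (card_le φ x).trans (Nat.mul_le_mul_left _ ?_)
      apply Nat.card_mono (Set.toFinite _)
      have : wx φ x ≤ ce (E := E) φ (cx φ x) := fun w hw c hc => cx_wx φ x c hc w hw
      exact this
  have hmem : ∀ c, c ∈ (Finset.univ : Finset E).inf (cx φ) ↔ ∀ x : E, c ∈ cx φ x := by
    intro c
    have h1 : (Finset.univ : Finset E).inf (cx φ) = ⨅ x : E, cx φ x := by
      rw [Finset.inf_univ_eq_iInf]
    rw [h1, Subgroup.mem_iInf]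
  refine ⟨(Finset.univ : Finset E).inf (cx φ), ?_, le_antisymm (h.h1 _ (ce (E := E) φ _) fun c hc (w : E) hw => hw c hc) (key _), ?_⟩
  · intro c
    rw [hmem]
    constructor
    · intro hc x a
      rw [smul_comm]
      exact hc x a
    · intro hc x a
      rw [smul_comm]
      exact hc x a
  · rintro ⟨x, a, hxa⟩
    have h1 := h.h2 _ _ (cx_wx φ x) (card_le φ x) (fun hle => hxa (hle (by
      unfold wx
      exact AddSubgroup.mem_sup_left (AddSubgroup.subset_closure ⟨a, rfl⟩))))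
    exact fun c hc => h1 ((hmem c).1 hc x)

end H98.TjA
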