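import Mathlib
import Cfsg.Agent.Lib.H98.TjA
import Cfsg.Agent.Lib.H98.TjDef

set_option autoImplicit false

/-!
S3068: the counting argument inside a group.
-/

namespace H98.Tj

open H98.TjA
open scoped commutatorElement IsMulCommutative

universe u

section inst

variable {G : Type u} [Group G] {A E : Subgroup G}

theorem conj_mem' (hAE : A ≤ Subgroup.normalizer (E : Set G)) {a x : G} (ha : a ∈ A) (hx : x ∈ E) : a * x * a⁻¹ ∈ E :=
  ((Subgroup.mem_normalizer_iff.1 (hAE ha)) x).1 hx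

/-- the action -/
noncomputable def act [IsMulCommutative ↥E] (hAE : A ≤ Subgroup.normalizer (E : Set G)) : ↥A →* Module.End ℤ (Additive ↥E) where
  toFun a := AddMonoidHom.toIntLinearMap
    { toFun := fun x => Additive.ofMul ⟨a * (x.toMul : G) * (a : G)⁻¹, conj_mem' hAE a.2 x.toMul.2⟩
      map_zero' := by
        apply Additive.toMul.injective
        apply Subtype.ext
        simp
      map_add' := by
        intro x y
        apply Additive.toMul.injective
        apply Subtype.ext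
        simp }
  map_one' := by
    refine LinearMap.ext fun x => ?_
    apply Additive.toMul.injective
    apply Subtype.ext
    simp
  map_mul' := by
    intro a b
    refine LinearMap.ext fun x => ?_
    apply Additive.toMul.injective
    apply Subtype.ext
    simp [mul_assoc]

theorem exists_mod [IsMulCommutative ↥A] [IsMulCommutative ↥E] (hAE : A ≤ Subgroup.normalizer (E : Set G)) :
    ∃ (R : Type u) (_ : CommRing R) (_ : Module R (Additive ↥E)) (φ : ↥A →* R), ∀ (a : ↥A) (x : Additive ↥E),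
      φ a • x = Additive.ofMul ⟨a * (x.toMul : G) * (a : G)⁻¹, conj_mem' hAE a.2 x.toMul.2⟩ := by
  refine ⟨MonoidAlgebra ℤ ↥A, inferInstance, Module.compHom _ ((MonoidAlgebra.lift ℤ (Module.End ℤ (Additive ↥E)) ↥A
    (act hAE)).toRingHom), MonoidAlgebra.of ℤ ↥A, ?_⟩
  intro a x
  show (MonoidAlgebra.lift ℤ (Module.End ℤ (Additive ↥E)) ↥A (act hAE)) (MonoidAlgebra.of ℤ ↥A a) x = _
  rw [MonoidAlgebra.lift_of]
  rfl

/-- the subgroup of `G` attached to an additive subgroup of `E` -/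
def up (W : AddSubgroup (Additive ↥E)) : Subgroup G := (AddSubgroup.toSubgroup' W).map E.subtype

theorem mem_up {W : AddSubgroup (Additive ↥E)} {y : G} : y ∈ up W ↔ ∃ h : y ∈ E, Additive.ofMul (⟨y, h⟩ : ↥E) ∈ W := by
  unfold up
  constructor
  · rintro ⟨z, hz, rfl⟩
    exact ⟨z.2, hz⟩
  · rintro ⟨h, hy⟩
    exact ⟨⟨y, h⟩, hy, rfl⟩

theorem card_up (W : AddSubgroup (Additive ↥E)) : Nat.card (up W) = Nat.card W := by
  unfold up
  rw [Nat.card_congr ((AddSubgroup.toSubgroup' W).equivMapOfInjective E.subtype E.subtype_injective).toEquiv.symm]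
  rfl

theorem card_dn (C : Subgroup ↥A) : Nat.card ↥(C.map A.subtype) = Nat.card C :=
  (Nat.card_congr (C.equivMapOfInjective A.subtype A.subtype_injective).toEquiv.symm)

theorem up_le (W : AddSubgroup (Additive ↥E)) : up W ≤ E := fun y hy => (mem_up.1 hy).1

end inst

theorem isMulComm {G : Type*} [Group G] {A : Subgroup G} (h : A ≤ Subgroup.centralizer (A : Set G)) :
    IsMulCommutative ↥A := ⟨⟨fun a b => Subtype.ext ((Subgroup.mem_centralizer_iff.1 (h b.2)) a a.2)⟩⟩

theorem cnt_gen {G : Type u} [Group G] [Finite G] {p : ℕ} [Fact p.Prime] {S Q A E : Subgroup G} (hS : IsPGroup p ↥S)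
    (hA : A ≤ S) (hAc : A ≤ Subgroup.centralizer (A : Set G)) (hES : E ≤ S)
    (hEc : E ≤ Subgroup.centralizer (E : Set G)) (hAE : A ≤ Subgroup.normalizer (E : Set G))
    (H1 : ∀ C W : Subgroup G, C ≤ A → W ≤ E → (∀ c ∈ C, ∀ w ∈ W, w * c = c * w) →
      Nat.card C * Nat.card W ≤ Nat.card A * Nat.card ↥(E ⊓ Subgroup.centralizer (A : Set G)))
    (H2 : ∀ C W : Subgroup G, C ≤ A → W ≤ E → (∀ c ∈ C, ∀ w ∈ W, w * c = c * w) →
      Nat.card A * Nat.card ↥(E ⊓ Subgroup.centralizer (A : Set G)) ≤ Nat.card C * Nat.card W →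
      ¬ W ≤ Subgroup.centralizer (A : Set G) → C ≤ Q) : Cnt Q A E := by
  haveI := isMulComm hAc
  haveI := isMulComm hEc
  haveI : Finite (Additive ↥E) := inferInstanceAs (Finite ↥E)
  obtain ⟨R, _, _, φ, hφ⟩ := exists_mod hAE
  -- basic translation
  have hd : ∀ (a : ↥A) (x : Additive ↥E), ((((φ a - 1) • x).toMul : ↥E) : G) = ⁅(a : G), ((x.toMul : ↥E) : G)⁆ := by
    intro a x
    rw [sub_smul, one_smul, hφ, commutatorElement_def]
    rw [toMul_sub, toMul_ofMul]
    simp [div_eq_mul_inv]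
  have hz : ∀ (a : ↥A) (x : Additive ↥E), (φ a - 1) • x = 0 ↔ ((x.toMul : ↥E) : G) * a = a * ((x.toMul : ↥E) : G) := by
    intro a x
    rw [← toMul_eq_one, ← OneMemClass.coe_eq_one, hd, commutatorElement_eq_one_iff_mul_comm, eq_comm]
  have hfx : up (fx (E := Additive ↥E) φ) = E ⊓ Subgroup.centralizer (A : Set G) := by
    ext y
    rw [mem_up, Subgroup.mem_inf]
    constructor
    · rintro ⟨h, hy⟩
      refine ⟨h, Subgroup.mem_centralizer_iff.2 fun a ha => ?_⟩
      exact ((hz ⟨a, ha⟩ _).1 (hy ⟨a, ha⟩)).symm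
    · rintro ⟨h, hy⟩
      refine ⟨h, fun a => (hz a _).2 ?_⟩
      exact (Subgroup.mem_centralizer_iff.1 hy a a.2).symm
  have hmemfx : ∀ x : Additive ↥E, x ∈ fx (E := Additive ↥E) φ ↔ ((x.toMul : ↥E) : G) ∈ Subgroup.centralizer (A : Set G) := by
    intro x
    constructor
    · intro h
      have : ((x.toMul : ↥E) : G) ∈ up (fx (E := Additive ↥E) φ) := mem_up.2 ⟨x.toMul.2, h⟩
      rw [hfx] at this
      exact this.2
    · intro h
      have : ((x.toMul : ↥E) : G) ∈ up (fx (E := Additive ↥E) φ) := by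
        rw [hfx]
        exact ⟨x.toMul.2, h⟩
      obtain ⟨_, h2⟩ := mem_up.1 this
      exact h2
  have hcfx : Nat.card (fx (E := Additive ↥E) φ) = Nat.card ↥(E ⊓ Subgroup.centralizer (A : Set G)) := by
    rw [← card_up, hfx]
  have hkill : ∀ (C : Subgroup ↥A) (W : AddSubgroup (Additive ↥E)), (∀ c ∈ C, ∀ w ∈ W, (φ c - 1) • w = 0) →
      ∀ c ∈ C.map A.subtype, ∀ w ∈ up W, w * c = c * w := by
    rintro C W h _ ⟨c, hc, rfl⟩ w hw
    obtain ⟨hwE, hw⟩ := mem_up.1 hw
    exact (hz c _).1 (h c hc _ hw)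
  have hmap_le : ∀ C : Subgroup ↥A, C.map A.subtype ≤ A := fun C => Subgroup.map_subtype_le C
  have hyp : Hyp (E := Additive ↥E) φ (Q.subgroupOf A) := by
    refine ⟨fun C W h => ?_, fun C W h hle hW => ?_⟩
    · have := H1 (C.map A.subtype) (up W) (hmap_le C) (up_le W) (hkill C W h)
      rwa [card_dn, card_up, ← hcfx] at this
    · have h1 := H2 (C.map A.subtype) (up W) (hmap_le C) (up_le W) (hkill C W h) (by rwa [card_dn, card_up, ← hcfx])
        (fun h2 => hW fun w hw => (hmemfx w).2 (h2 (mem_up.2 ⟨w.toMul.2, hw⟩)))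
      intro c hc
      exact h1 ⟨c, hc, rfl⟩
  -- nilpotency
  haveI : Finite ↥S := inferInstance
  haveI hnil : Group.IsNilpotent ↥S := hS.isNilpotent
  have h3 : ∀ x : Additive ↥E, ∃ n, x ∈ lv φ n := by
    have key : ∀ n : ℕ, ∀ x : Additive ↥E, (⟨_, hES x.toMul.2⟩ : ↥S) ∈ Subgroup.upperCentralSeries ↥S n → x ∈ lv φ n := by
      intro n
      induction n with
      | zero =>
        intro x hx
        rw [Subgroup.upperCentralSeries_zero, Subgroup.mem_bot] at hx
        have h5 : ((x.toMul : ↥E) : G) = 1 := congrArg Subtype.val hx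
        have h6 : x.toMul = 1 := Subtype.ext h5
        exact (AddSubgroup.mem_bot).2 (toMul_eq_one.1 h6)
      | succ n ih =>
        intro x hx a
        apply ih
        rw [Subgroup.mem_upperCentralSeries_succ_iff] at hx
        have h7 := inv_mem (hx ⟨a, hA a.2⟩)
        convert h7 using 1
        apply Subtype.ext
        rw [hd]
        simp [commutatorElement_def, mul_assoc]
    intro x
    obtain ⟨n, hn⟩ := Group.IsNilpotent.nilpotent' (G := ↥S)
    exact ⟨n, key n x (by rw [hn]; trivial)⟩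
  have hinv : ∀ (a : ↥A) (x : Additive ↥E), ⁅((x.toMul : ↥E) : G), (a : G)⁆ = (((-((φ a - 1) • x)).toMul : ↥E) : G) := by
    intro a x
    rw [toMul_neg, Subgroup.coe_inv, hd, commutatorElement_inv]
  refine ⟨?_, ?_, ?_, ?_⟩
  · intro b hb hbQ x hx hxb a ha
    have h4 : (⟨b, hb⟩ : ↥A) ∉ Q.subgroupOf A := fun h => hbQ h
    have h5 := c0 hyp h4 (x := Additive.ofMul (⟨x, hx⟩ : ↥E)) (by
      rw [hmemfx, hd]
      rw [← commutatorElement_inv]
      exact inv_mem hxb) ⟨a, ha⟩
    rw [hmemfx, hd] at h5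
    rw [← commutatorElement_inv]
    exact inv_mem h5
  · intro x hx a ha a' ha'
    obtain ⟨b, hb, e, he, heq⟩ := r hyp h3 (Additive.ofMul (⟨x, hx⟩ : ↥E)) ⟨a', ha'⟩ ⟨a, ha⟩
    refine ⟨b, ⟨b.2, hb⟩, (e.toMul : ↥E), ⟨e.toMul.2, (hmemfx e).1 he⟩, ?_⟩
    have h6 := hinv b (Additive.ofMul (⟨x, hx⟩ : ↥E))
    have h7 := hinv ⟨a, ha⟩ (Additive.ofMul (⟨x, hx⟩ : ↥E))
    have h8 := hinv ⟨a', ha'⟩ (-((φ ⟨a, ha⟩ - 1) • (Additive.ofMul (⟨x, hx⟩ : ↥E))))
    simp only [toMul_ofMul] at h6 h7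
    rw [h6, h7, h8, ← Subgroup.coe_mul, ← toMul_add, smul_neg, neg_neg, heq]
  · intro x hx C hC M hM
    have h4 := card_eq hyp (Additive.ofMul (⟨x, hx⟩ : ↥E))
    have h5 : C = (cx φ (Additive.ofMul (⟨x, hx⟩ : ↥E))).map A.subtype := by
      ext c
      rw [hC]
      constructor
      · rintro ⟨hcA, hc⟩
        refine ⟨⟨c, hcA⟩, ?_, rfl⟩
        show _ ∈ cx φ _
        rw [mem_cx, hmemfx, hd, ← commutatorElement_inv]
        exact inv_mem hc
      · rintro ⟨c, hc, rfl⟩
        refine ⟨c.2, ?_⟩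
        have hc' : c ∈ cx φ (Additive.ofMul (⟨x, hx⟩ : ↥E)) := hc
        rw [mem_cx, hmemfx, hd] at hc'
        rw [← commutatorElement_inv]
        exact inv_mem hc'
    have h6 : M = up (wx φ (Additive.ofMul (⟨x, hx⟩ : ↥E))) := by
      rw [hM, ← hfx]
      unfold up wx
      rw [map_sup, Subgroup.map_sup]
      congr 1
      apply le_antisymm
      · rw [Subgroup.closure_le]
        rintro _ ⟨a, ha, rfl⟩
        refine ⟨((-((φ ⟨a, ha⟩ - 1) • (Additive.ofMul (⟨x, hx⟩ : ↥E)))).toMul : ↥E), ?_, (hinv ⟨a, ha⟩ (Additive.ofMul (⟨x, hx⟩ : ↥E))).symm⟩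
        show (-((φ ⟨a, ha⟩ - 1) • (Additive.ofMul (⟨x, hx⟩ : ↥E)))) ∈
          AddSubgroup.closure {y : Additive ↥E | ∃ a, y = (φ a - 1) • (Additive.ofMul (⟨x, hx⟩ : ↥E))}
        exact neg_mem (AddSubgroup.subset_closure ⟨_, rfl⟩)
      · rw [Subgroup.map_le_iff_le_comap]
        intro y hy
        have hy' : Additive.ofMul y ∈ AddSubgroup.closure {y : Additive ↥E | ∃ a, y = (φ a - 1) • (Additive.ofMul (⟨x, hx⟩ : ↥E))} := hy
        rw [Subgroup.mem_comap]
        have : ∀ z ∈ AddSubgroup.closure {y : Additive ↥E | ∃ a, y = (φ a - 1) • (Additive.ofMul (⟨x, hx⟩ : ↥E))},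
            (((z : Additive ↥E).toMul : ↥E) : G) ∈ Subgroup.closure {y | ∃ a ∈ A, y = ⁅x, a⁆} := by
          intro z hz'
          induction hz' using AddSubgroup.closure_induction with
          | mem z hz' =>
            obtain ⟨a, rfl⟩ := hz'
            rw [hd, ← commutatorElement_inv]
            exact inv_mem (Subgroup.subset_closure ⟨a, a.2, rfl⟩)
          | zero => exact one_mem _
          | add z w _ _ h1 h2 => exact mul_mem h1 h2
          | neg z _ h1 => exact inv_mem h1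
        exact this _ hy'
    rw [h5, h6, card_dn, card_up, h4, hcfx]
  · obtain ⟨D, hD1, hD2, hD3⟩ := tt hyp
    refine ⟨D.map A.subtype, ?_, ?_, ?_⟩
    · intro c
      constructor
      · rintro ⟨c, hc, rfl⟩
        refine ⟨c.2, fun x hx a ha => ?_⟩
        have h4 := (hD1 c).1 hc (Additive.ofMul (⟨x, hx⟩ : ↥E)) ⟨a, ha⟩
        have h5 : (φ c - 1) • (-((φ ⟨a, ha⟩ - 1) • (Additive.ofMul (⟨x, hx⟩ : ↥E)))) = 0 := by
          rw [smul_neg, h4, neg_zero]
        have h7 := hinv ⟨a, ha⟩ (Additive.ofMul (⟨x, hx⟩ : ↥E))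
        simp only [toMul_ofMul] at h7
        rw [h7, commutatorElement_eq_one_iff_mul_comm]
        exact (hz c _).1 h5
      · rintro ⟨hcA, hc⟩
        refine ⟨⟨c, hcA⟩, ?_, rfl⟩
        show _ ∈ D
        rw [hD1]
        intro x a
        have h4 := hc _ x.toMul.2 a a.2
        rw [hinv, commutatorElement_eq_one_iff_mul_comm] at h4
        have h5 := (hz ⟨c, hcA⟩ _).2 h4
        rwa [smul_neg, neg_eq_zero] at h5
    · have h6 : Nat.card (ce (E := Additive ↥E) φ D) = Nat.card ↥(E ⊓ Subgroup.centralizer ((D.map A.subtype : Subgroup G) : Set G)) := by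
        rw [← card_up]
        congr 1
        have : up (ce (E := Additive ↥E) φ D) = E ⊓ Subgroup.centralizer ((D.map A.subtype : Subgroup G) : Set G) := by
          ext y
          rw [mem_up, Subgroup.mem_inf]
          constructor
          · rintro ⟨h, hy⟩
            refine ⟨h, Subgroup.mem_centralizer_iff.2 ?_⟩
            rintro _ ⟨a, ha, rfl⟩
            exact ((hz a _).1 (hy a ha)).symm
          · rintro ⟨h, hy⟩
            refine ⟨h, fun a ha => (hz a _).2 ?_⟩
            exact (Subgroup.mem_centralizer_iff.1 hy a ⟨a, ha, rfl⟩).symm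
        rw [this]
      rw [card_dn, ← h6, hD2, hcfx]
    · rintro ⟨x, hx, a, ha, hxa⟩
      have h4 := hD3 ⟨Additive.ofMul (⟨x, hx⟩ : ↥E), ⟨a, ha⟩, fun h => hxa (by
        rw [hmemfx, hd] at h
        rw [← commutatorElement_inv]
        exact inv_mem h)⟩
      rintro _ ⟨c, hc, rfl⟩
      exact h4 hc

end H98.Tj
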