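import Mathlib
import Cfsg.Agent.Lib.H98.TjB
import Cfsg.Agent.Lib.H39.MinFail2

set_option autoImplicit false

/-!
S3068: the maximality argument.
-/

namespace H98.Tj

open Cfsg
open scoped commutatorElement

universe u

theorem card_sup_comm {G : Type*} [Group G] [Finite G] {C W : Subgroup G} (h : ∀ c ∈ C, ∀ w ∈ W, w * c = c * w) :
    Nat.card ↥(C ⊔ W) * Nat.card ↥(C ⊓ W) = Nat.card C * Nat.card W := by
  apply H98.TjA.card_sup_mul_card_inf
  refine le_trans ?_ (Subgroup.centralizer_le_normalizer (W : Set G))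
  intro c hc
  rw [Subgroup.mem_centralizer_iff]
  exact fun w hw => h c hc w hw

theorem comm_sup {G : Type*} [Group G] {C W : Subgroup G} (h : ∀ c ∈ C, ∀ w ∈ W, w * c = c * w)
    (hC : C ≤ Subgroup.centralizer (C : Set G)) (hW : W ≤ Subgroup.centralizer (W : Set G)) :
    C ⊔ W ≤ Subgroup.centralizer ((C ⊔ W : Subgroup G) : Set G) := by
  have h1 : C ≤ Subgroup.centralizer (W : Set G) := fun c hc => Subgroup.mem_centralizer_iff.2 fun w hw => h c hc w hw
  have h2 : W ≤ Subgroup.centralizer (C : Set G) := Subgroup.le_centralizer_iff.1 h1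
  have h3 : C ⊔ W ≤ Subgroup.centralizer (C : Set G) := sup_le hC h2
  have h4 : C ⊔ W ≤ Subgroup.centralizer (W : Set G) := sup_le h1 hW
  exact Subgroup.le_centralizer_iff.1 (sup_le (Subgroup.le_centralizer_iff.1 h3) (Subgroup.le_centralizer_iff.1 h4))

section

variable {G : Type u} [Group G] [Finite G] {S Q V F A E C W : Subgroup G}

theorem hyp1 (hA : AA S A) (hES : E ≤ S) (hEc : E ≤ Subgroup.centralizer (E : Set G)) (hC : C ≤ A) (hW : W ≤ E)
    (h : ∀ c ∈ C, ∀ w ∈ W, w * c = c * w) :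
    Nat.card C * Nat.card W ≤ Nat.card A * Nat.card ↥(E ⊓ Subgroup.centralizer (A : Set G)) := by
  rw [← card_sup_comm h]
  refine Nat.mul_le_mul ?_ ?_
  · refine hA.max _ (sup_le (hC.trans hA.le) (hW.trans hES)) (comm_sup h ?_ ?_)
    · exact hC.trans (hA.comm.trans (Subgroup.centralizer_le hC))
    · exact hW.trans (hEc.trans (Subgroup.centralizer_le hW))
  · apply Nat.card_mono (Set.toFinite _)
    intro x hx
    exact ⟨hW hx.2, hA.comm (hC hx.1)⟩

theorem hyp2 (hA : AA S A) (hES : E ≤ S) (hEc : E ≤ Subgroup.centralizer (E : Set G)) (hC : C ≤ A) (hW : W ≤ E)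
    (h : ∀ c ∈ C, ∀ w ∈ W, w * c = c * w)
    (hcard : Nat.card A * Nat.card ↥(E ⊓ Subgroup.centralizer (A : Set G)) ≤ Nat.card C * Nat.card W) :
    AA S (C ⊔ W) ∧ C ⊓ W = E ⊓ Subgroup.centralizer (A : Set G) := by
  have h1 := card_sup_comm h
  have h2 : C ⊔ W ≤ S := sup_le (hC.trans hA.le) (hW.trans hES)
  have h3 : C ⊔ W ≤ Subgroup.centralizer ((C ⊔ W : Subgroup G) : Set G) :=
    comm_sup h (hC.trans (hA.comm.trans (Subgroup.centralizer_le hC)))
      (hW.trans (hEc.trans (Subgroup.centralizer_le hW)))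
  have h4 := hA.max _ h2 h3
  have h5 : C ⊓ W ≤ E ⊓ Subgroup.centralizer (A : Set G) := fun x hx => ⟨hW hx.2, hA.comm (hC hx.1)⟩
  have h6 : Nat.card ↥(C ⊓ W) ≤ Nat.card ↥(E ⊓ Subgroup.centralizer (A : Set G)) := Nat.card_mono (Set.toFinite _) h5
  have hpos : 0 < Nat.card ↥(C ⊓ W) := Nat.card_pos
  have hposA : 0 < Nat.card A := Nat.card_pos
  rw [← h1] at hcard
  have h7 : Nat.card A ≤ Nat.card ↥(C ⊔ W) := by
    by_contra hlt
    push Not at hlt
    have : Nat.card ↥(C ⊔ W) * Nat.card ↥(C ⊓ W) < Nat.card A * Nat.card ↥(C ⊓ W) := Nat.mul_lt_mul_of_pos_right hlt hpos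
    have h8 : Nat.card A * Nat.card ↥(C ⊓ W) ≤ Nat.card A * Nat.card ↥(E ⊓ Subgroup.centralizer (A : Set G)) :=
      Nat.mul_le_mul_left _ h6
    omega
  have h9 : Nat.card ↥(E ⊓ Subgroup.centralizer (A : Set G)) ≤ Nat.card ↥(C ⊓ W) := by
    have e : Nat.card ↥(C ⊔ W) = Nat.card A := le_antisymm h4 h7
    rw [e] at hcard
    exact Nat.le_of_mul_le_mul_left hcard hposA
  refine ⟨⟨h2, h3, fun B hB hBc => (hA.max B hB hBc).trans h7⟩, ?_⟩
  exact Subgroup.eq_of_le_of_card_ge h5 h9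

theorem card_lt_of_lt {B D : Subgroup G} (h : B < D) : Nat.card B < Nat.card D := H39.Chief.card_lt_card h

theorem cnt_V {p : ℕ} [Fact p.Prime] (hS : IsPGroup p ↥S) (hVS : V ≤ S) (hVn : V.Normal)
    (hVc : V ≤ Subgroup.centralizer (V : Set G)) (h : Lex S Q V F A) : Cnt Q A V := by
  refine cnt_gen hS h.aa.le h.aa.comm hVS hVc (by rw [Subgroup.normalizer_eq_top_iff.2 hVn]; exact le_top) ?_ ?_
  · intro C W hC hW hcw
    exact hyp1 h.aa hVS hVc hC hW hcw
  · intro C W hC hW hcw hcard hWn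
    by_contra hCQ
    obtain ⟨h1, h2⟩ := hyp2 h.aa hVS hVc hC hW hcw hcard
    have h3 := h.lexV _ h1 (fun h => hCQ (le_sup_left.trans h))
    have h4 : A ⊓ V ≤ C ⊓ W := by
      rw [h2]
      exact fun x hx => ⟨hx.2, h.aa.comm hx.1⟩
    have h5 : C ⊓ W < W := by
      refine lt_of_le_of_ne inf_le_right fun he => hWn ?_
      rw [← he, h2]
      exact inf_le_right
    have h6 : W ≤ (C ⊔ W) ⊓ V := le_inf le_sup_right hW
    have h7 : A ⊓ V < (C ⊔ W) ⊓ V := lt_of_le_of_lt h4 (lt_of_lt_of_le h5 h6)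
    have := card_lt_of_lt h7
    omega

theorem cnt_E {p : ℕ} [Fact p.Prime] (hS : IsPGroup p ↥S) (h : Lex S Q V F A) (hFS : F ≤ S) (hEF : E ≤ F) (hVE : V ≤ E)
    (hAF : A ⊓ F ≤ E) (hEc : E ≤ Subgroup.centralizer (E : Set G)) (hAE : A ≤ Subgroup.normalizer (E : Set G)) :
    Cnt Q A E := by
  have hES := hEF.trans hFS
  refine cnt_gen hS h.aa.le h.aa.comm hES hEc hAE ?_ ?_
  · intro C W hC hW hcw
    exact hyp1 h.aa hES hEc hC hW hcw
  · intro C W hC hW hcw hcard hWn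
    by_contra hCQ
    obtain ⟨h1, h2⟩ := hyp2 h.aa hES hEc hC hW hcw hcard
    have hBQ : ¬ C ⊔ W ≤ Q := fun h => hCQ (le_sup_left.trans h)
    have h3 := h.lexV _ h1 hBQ
    have h4 : A ⊓ F ≤ C ⊓ W := by
      rw [h2]
      exact fun x hx => ⟨hAF hx, h.aa.comm hx.1⟩
    have h5 : C ⊓ W < W := by
      refine lt_of_le_of_ne inf_le_right fun he => hWn ?_
      rw [← he, h2]
      exact inf_le_right
    have h6 : A ⊓ V ≤ (C ⊔ W) ⊓ V := by
      refine le_inf ?_ inf_le_right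
      have : A ⊓ V ≤ A ⊓ F := inf_le_inf le_rfl (hVE.trans hEF)
      exact this.trans (h4.trans (inf_le_right.trans le_sup_right))
    have h7 : Nat.card ↥(A ⊓ V) ≤ Nat.card ↥((C ⊔ W) ⊓ V) := Nat.card_mono (Set.toFinite _) h6
    have h8 := h.lexF _ h1 hBQ (le_antisymm h3 h7)
    have h9 : W ≤ (C ⊔ W) ⊓ F := le_inf le_sup_right (hW.trans hEF)
    have h10 : A ⊓ F < (C ⊔ W) ⊓ F := lt_of_le_of_lt h4 (lt_of_lt_of_le h5 h9)
    have := card_lt_of_lt h10
    omega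

theorem exists_lex (V F : Subgroup G) (h : ∃ A, AA S A ∧ ¬ A ≤ Q) : ∃ A, Lex S Q V F A := by
  obtain ⟨A, hA, hmax⟩ := Set.exists_max_image {A : Subgroup G | AA S A ∧ ¬ A ≤ Q}
    (fun A => Nat.card ↥(A ⊓ V) * (Nat.card G + 1) + Nat.card ↥(A ⊓ F)) (Set.toFinite _) h
  have hb : ∀ B : Subgroup G, Nat.card B ≤ Nat.card G := fun B => by
    exact Subgroup.card_le_card_group B
  refine ⟨A, hA.1, hA.2, fun B hB hBQ => ?_, fun B hB hBQ he => ?_⟩
  · have h1 := hmax B ⟨hB, hBQ⟩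

    by_contra hlt
    push Not at hlt
    have h2 := hb (A ⊓ F)
    nlinarith
  · have h1 := hmax B ⟨hB, hBQ⟩

    rw [he] at h1
    omega

theorem exists_AA {S : Subgroup G} (h : ¬ Cfsg.thompsonSubgroupAOf S ≤ Q) : ∃ A, AA S A ∧ ¬ A ≤ Q := by
  by_contra hcon
  push Not at hcon
  apply h
  unfold Cfsg.thompsonSubgroupAOf
  rw [Subgroup.map_le_iff_le_comap]
  unfold Cfsg.thompsonSubgroupA
  rw [sSup_le_iff]
  intro B hB
  rw [← Subgroup.map_le_iff_le_comap]
  apply hcon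
  have hcard : ∀ B : Subgroup ↥S, Nat.card ↥(B.map S.subtype) = Nat.card B := fun B => card_dn B
  refine ⟨Subgroup.map_subtype_le B, ?_, ?_⟩
  · have h1 := hB.1
    rintro _ ⟨x, hx, rfl⟩
    rw [Subgroup.mem_centralizer_iff]
    rintro _ ⟨y, hy, rfl⟩
    have := h1.is_comm.comm ⟨y, hy⟩ ⟨x, hx⟩
    exact congrArg (fun z : ↥B => ((z : ↥S) : G)) this
  · intro D hD hDc
    have h2 : IsMulCommutative ↥(D.subgroupOf S) := ⟨⟨fun a b => by
      apply Subtype.ext
      apply Subtype.ext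
      exact (Subgroup.mem_centralizer_iff.1 (hDc b.2)) a a.2⟩⟩
    have h3 := hB.2 (D.subgroupOf S) h2
    rw [hcard]
    have h4 : Nat.card ↥(D.subgroupOf S) = Nat.card D := by
      rw [← hcard, Subgroup.subgroupOf_map_subtype, inf_eq_left.2 hD]
    rwa [h4] at h3

end

end H98.Tj
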