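import Mathlib
import Cfsg.Agent.Lib.H98.TjC
import Cfsg.Agent.Lib.H53.TjA
import Cfsg.Agent.Lib.H54.TjB
import Cfsg.Agent.Lib.H54.TjV

set_option autoImplicit false

/-!
S3068: the key statement.
-/

namespace H98.Tj

open Cfsg
open scoped commutatorElement

universe u

theorem exists_kill {G : Type u} [Group G] {F X W' : Subgroup G} (hF : F.Normal) (hX : X.Normal) (hW' : W'.Normal) :
    ∃ K : Subgroup G, K.Normal ∧ ∀ x, x ∈ K ↔ x ∈ X ∧ ∀ f ∈ F, ⁅f, x⁆ ∈ W' := by
  have h1 : (F.map (QuotientGroup.mk' W')).Normal := hF.map _ (QuotientGroup.mk'_surjective W')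
  refine ⟨X ⊓ (Subgroup.centralizer ((F.map (QuotientGroup.mk' W') : Subgroup (G ⧸ W')) : Set (G ⧸ W'))).comap
    (QuotientGroup.mk' W'), inferInstance, ?_⟩
  intro x
  rw [Subgroup.mem_inf, Subgroup.mem_comap, Subgroup.mem_centralizer_iff]
  refine and_congr_right fun _ => ?_
  have key : ∀ f : G, ⁅f, x⁆ ∈ W' ↔ (QuotientGroup.mk' W' f) * (QuotientGroup.mk' W' x) =
      (QuotientGroup.mk' W' x) * (QuotientGroup.mk' W' f) := by
    intro f
    rw [← QuotientGroup.eq_one_iff, ← QuotientGroup.mk'_apply, map_commutatorElement,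
        commutatorElement_eq_one_iff_mul_comm]
  constructor
  · intro h f hf
    rw [key]
    exact h _ ⟨f, hf, rfl⟩
  · rintro h _ ⟨f, hf, rfl⟩
    exact (key f).1 (h f hf)

theorem bb (p : ℕ) [hp : Fact p.Prime] (G : Type u) [Group G] [Finite G] : BB p G := by
  classical
  intro S hJ X Y hXY hXQ huniq
  set Q := pCore p G with hQ
  have hQn : Q.Normal := inferInstance
  have hQS : Q ≤ (S : Subgroup G) := H52.PCore.pCore_le_sylow S
  have hQp : IsPGroup p Q := H52.PCore.isPGroup_pCore
  have hQnil : Group.IsNilpotent ↥Q := hQp.isNilpotent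
  have hXn : X.Normal := hXY.2.1
  obtain ⟨A1, hA1, hA1Q⟩ := exists_AA hJ
  have hnz : ∀ (u : G) (N : Subgroup G), N.Normal → Subgroup.zpowers u ≤ Subgroup.normalizer (N : Set G) := by
    intro u N hN
    rw [Subgroup.normalizer_eq_top_iff.2 hN]
    exact le_top
  by_cases hcase : ∃ V : Subgroup G, V.Normal ∧ V ≤ Q ∧ V ≤ Subgroup.centralizer (V : Set G) ∧
      ¬ X ≤ Subgroup.centralizer (V : Set G)
  · -- `X` acts nontrivially on an abelian normal subgroup
    obtain ⟨V, hV⟩ := (Set.toFinite {V : Subgroup G | V.Normal ∧ V ≤ Q ∧ V ≤ Subgroup.centralizer (V : Set G) ∧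
      ¬ X ≤ Subgroup.centralizer (V : Set G)}).exists_minimal hcase
    obtain ⟨hVn, hVQ, hVc, hne⟩ := hV.prop
    obtain ⟨A, hA⟩ := exists_lex (Q := Q) V V ⟨A1, hA1, hA1Q⟩
    have hcnt := cnt_V S.2 (hVQ.trans hQS) hVn hVc hA
    have h5 := H54.TjV.caseV S hQ hA.aa.le hA.aa.comm hVQ hVn hVc hXn hXQ hcnt hne (by
      intro K hK hKV hKne
      by_contra hcon
      exact hKne (le_antisymm hKV (hV.le_of_le ⟨hK, hKV.trans hVQ,
        hKV.trans (hVc.trans (Subgroup.centralizer_le hKV)), hcon⟩ hKV))) hXY huniq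
    obtain ⟨u, huA, huQ⟩ := Set.not_subset.1 hA.nq
    exact ⟨u, hA.aa.le huA, huQ, (H39.Degree.iter_anti (hnz u X hXn) (by omega)).trans (h5 u huA)⟩
  · push Not at hcase
    by_cases hXc : X ≤ Subgroup.centralizer (X : Set G)
    · -- `X` abelian
      obtain ⟨A, hA⟩ := exists_lex (Q := Q) X X ⟨A1, hA1, hA1Q⟩
      have hcnt := cnt_V S.2 (hXQ.trans hQS) hXn hXc hA
      have h3 := H54.TjV.cubicV S hQ hA.aa.le hA.aa.comm hXQ hXn hXc hcnt hXY le_rfl
      obtain ⟨u, huA, huQ⟩ := Set.not_subset.1 hA.nq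
      exact ⟨u, hA.aa.le huA, huQ, (H39.Degree.iter_anti (hnz u X hXn) (by omega)).trans (h3 u huA)⟩
    · obtain ⟨F, hF⟩ := (Set.toFinite {K : Subgroup G | K.Normal ∧ K ≤ X ∧
        ¬ K ≤ Subgroup.centralizer (X : Set G)}).exists_minimal ⟨X, hXn, le_rfl, hXc⟩
      obtain ⟨hFn, hFX, hFZ⟩ := hF.prop
      have hmin : ∀ K : Subgroup G, K.Normal → K ≤ F → K ≠ F → K ≤ Subgroup.centralizer (X : Set G) := by
        intro K hK hKF hne
        by_contra hcon
        exact hne (le_antisymm hKF (hF.le_of_le ⟨hK, hKF.trans hFX, hcon⟩ hKF))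
      have hFQ : F ≤ Q := hFX.trans hXQ
      obtain ⟨V, hVdef⟩ : ∃ V : Subgroup G, V = F ⊓ Subgroup.centralizer (X : Set G) := ⟨_, rfl⟩
      have hVn : V.Normal := by rw [hVdef]; infer_instance
      have hVF : V ≤ F := by rw [hVdef]; exact inf_le_left
      have hVX : V ≤ Subgroup.centralizer (X : Set G) := by rw [hVdef]; exact inf_le_right
      have hVc : V ≤ Subgroup.centralizer (V : Set G) := hVX.trans (Subgroup.centralizer_le (hVF.trans hFX))
      have hVQ : V ≤ Q := hVF.trans hFQ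
      have hFQV : ⁅F, Q⁆ ≤ V := by
        have h1 : ⁅F, Q⁆ ≤ F := Subgroup.commutator_le_left F Q
        rw [hVdef]
        refine le_inf h1 (hmin _ inferInstance h1 ?_)
        intro he
        -- nilpotency
        have hFbot : ⊥ < F := by
          rw [bot_lt_iff_ne_bot]
          rintro rfl
          exact hFZ bot_le
        obtain ⟨Z, hZ, -⟩ := H39.Chief.exists_chief hFn (inferInstance : (⊥ : Subgroup G).Normal) hFbot
        have h2 := H39.Chief.commutator_le_of_chief hZ hQn hQnil hFQ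
        rw [he] at h2
        exact not_le_of_gt hZ.1 h2
      have hZF : F ⊓ Subgroup.centralizer (F : Set G) ≤ V := by
        have h1 : (F ⊓ Subgroup.centralizer (F : Set G)).Normal := inferInstance
        have h2 : X ≤ Subgroup.centralizer ((F ⊓ Subgroup.centralizer (F : Set G) : Subgroup G) : Set G) := by
          apply hcase _ h1 (inf_le_left.trans hFQ)
          exact inf_le_right.trans (Subgroup.centralizer_le inf_le_left)
        rw [hVdef]
        exact le_inf inf_le_left (Subgroup.le_centralizer_iff.1 h2)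
      obtain ⟨A, hA⟩ := exists_lex (Q := Q) V F ⟨A1, hA1, hA1Q⟩
      have hcfg : Cfg (S : Subgroup G) Q X F V A :=
        ⟨hQS, hQn, hXn, hXQ, hFn, hFX, hVn, hVdef, hZF, hFQV, hA⟩
      have hcnt := cnt_V S.2 (hVQ.trans hQS) hVn hVc hA
      have hFS : F ≤ (S : Subgroup G) := hFQ.trans hQS
      -- `W`
      obtain ⟨W, hWdef⟩ : ∃ W : Subgroup G, W = ⁅F, X⁆ := ⟨_, rfl⟩
      have hWn : W.Normal := by rw [hWdef]; infer_instance
      have hWV : W ≤ V := by rw [hWdef]; exact (Subgroup.commutator_mono le_rfl hXQ).trans hFQV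
      have hWbot : ⊥ < W := by
        rw [bot_lt_iff_ne_bot]
        intro h0
        apply hFZ
        rw [hWdef, Subgroup.commutator_eq_bot_iff_le_centralizer] at h0
        exact h0
      obtain ⟨W', hWW', -⟩ := H39.Chief.exists_chief hWn (inferInstance : (⊥ : Subgroup G).Normal) hWbot
      have hW'n : W'.Normal := hWW'.2.2.1
      have hXW : X ≤ Subgroup.centralizer (W : Set G) :=
        Subgroup.le_centralizer_iff.1 (hWV.trans hVX)
      obtain ⟨K, hKn, hK⟩ := exists_kill hFn hXn hW'n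
      have hKX : K ≤ X := fun x hx => ((hK x).1 hx).1
      have hKne : K ≠ X := by
        intro he
        apply not_le_of_gt hWW'.1
        rw [hWdef, Subgroup.commutator_le]
        intro f hf x hx
        rw [← he] at hx
        exact ((hK x).1 hx).2 f hf
      have hKY : K ≤ Y := huniq K hKn hKX hKne
      obtain ⟨u, huA, huQ⟩ := Set.not_subset.1 hA.nq
      refine ⟨u, hA.aa.le huA, huQ, le_trans ?_ hKY⟩
      have hWle : W ≤ Subgroup.centralizer (W : Set G) := hWV.trans (hVX.trans (Subgroup.centralizer_le ((hWV.trans hVF).trans hFX)))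
      have hiX : iterCommutator X (Subgroup.zpowers u) 6 ≤ X := H39.Degree.iter_anti (hnz u X hXn) (Nat.zero_le 6)
      by_cases hq : ∀ v ∈ V, ∀ a ∈ A, ⁅v, a⁆ ∈ Subgroup.centralizer (A : Set G)
      · have h5 := H53.TjA.caseA S hQ hcfg (fun E hEF hVE hAFE hEc hAE => cnt_E S.2 hA hFS hEF hVE hAFE hEc hAE) hq u huA
        have hW2 : iterCommutator W (Subgroup.zpowers u) 2 ≤ W' := by
          have h6 : iterCommutator W (Subgroup.zpowers u) 2 ≤ iterCommutator V A 2 :=
            H39.Degree.iter_mono hWV (by rw [Subgroup.zpowers_le]; exact huA) 2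
          have h7 : iterCommutator V A 2 = ⊥ := by
            show ⁅⁅V, A⁆, A⁆ = ⊥
            rw [Subgroup.commutator_eq_bot_iff_le_centralizer, Subgroup.commutator_le]
            exact hq
          rw [h7] at h6
          exact h6.trans bot_le
        intro x hx
        rw [hK]
        refine ⟨hiX hx, fun f hf => ?_⟩
        have h8 := H39.Degree.pairing (X := X) (M := F) (M' := V) (W := W) (g := u) hWdef.symm.le hXW
          (hFX.trans hXW) hWle (hnz u X hXn) (hnz u F hFn) (hnz u W hWn) hVX h5 6 0 x hx f hf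
        exact hW2 h8
      · push Not at hq
        have h4 := H54.TjB.caseB S hQ hcfg hcnt hq u huA
        have hW3 := H54.TjV.cubicV S hQ hA.aa.le hA.aa.comm hVQ hVn hVc hcnt hWW' hWV u huA
        intro x hx
        rw [hK]
        refine ⟨hiX hx, fun f hf => ?_⟩
        have h8 := H39.Degree.pairing (X := X) (M := F) (M' := V) (W := W) (g := u) hWdef.symm.le hXW
          (hFX.trans hXW) hWle (hnz u X hXn) (hnz u F hFn) (hnz u W hWn) hVX h4 6 0 x hx f hf
        exact hW3 h8

end H98.Tj
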