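import Mathlib
import Cfsg.Agent.Lib.H29.Elem

/-!
Gluing central extensions with the same squaring map.
-/

set_option autoImplicit false
set_option linter.unusedSectionVars false

namespace H98.TwG

open Subgroup

set_option maxHeartbeats 1000000 in
theorem glue {Q₁ Q₂ V A : Type*} [Group Q₁] [Group Q₂] [Group V] [Finite Q₁] [Finite Q₂] [AddCommGroup A]
    (E₁ : A → Q₁) (E₂ : A → Q₂) (a₁ : ∀ s t, E₁ (s + t) = E₁ s * E₁ t) (a₂ : ∀ s t, E₂ (s + t) = E₂ s * E₂ t)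
    (i₁ : ∀ s, E₁ s = 1 → s = 0) (i₂ : ∀ s, E₂ s = 1 → s = 0) (c₁ : ∀ s x, x * E₁ s = E₁ s * x) (c₂ : ∀ s x, x * E₂ s = E₂ s * x)
    (π₁ : Q₁ →* V) (π₂ : Q₂ →* V) (s₁ : Function.Surjective π₁) (s₂ : Function.Surjective π₂)
    (k₁ : ∀ x, π₁ x = 1 → ∃ s, E₁ s = x) (k₂ : ∀ x, π₂ x = 1 → ∃ s, E₂ s = x)
    (l₁ : ∀ s, π₁ (E₁ s) = 1) (l₂ : ∀ s, π₂ (E₂ s) = 1) (S : V → A) (q₁ : ∀ x, x * x = E₁ (S (π₁ x)))
    (q₂ : ∀ x, x * x = E₂ (S (π₂ x))) : Nonempty (Q₁ ≃* Q₂) := by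
  classical
  have z₁ : E₁ 0 = 1 := by
    have := a₁ 0 0
    rw [add_zero] at this
    exact left_eq_mul.mp this
  have z₂ : E₂ 0 = 1 := by
    have := a₂ 0 0
    rw [add_zero] at this
    exact left_eq_mul.mp this
  have n₁ : ∀ s, (E₁ s)⁻¹ = E₁ (-s) := by
    intro s
    rw [inv_eq_iff_mul_eq_one, ← a₁, add_neg_cancel, z₁]
  have n₂ : ∀ s, (E₂ s)⁻¹ = E₂ (-s) := by
    intro s
    rw [inv_eq_iff_mul_eq_one, ← a₂, add_neg_cancel, z₂]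
  let P : Subgroup (Q₁ × Q₂) :=
    { carrier := {p | π₁ p.1 = π₂ p.2}
      one_mem' := by
        show π₁ 1 = π₂ 1
        rw [map_one, map_one]
      mul_mem' := by
        intro p q hp hq
        show π₁ (p.1 * q.1) = π₂ (p.2 * q.2)
        rw [map_mul, map_mul, hp, hq]
      inv_mem' := by
        intro p hp
        show π₁ (p.1⁻¹) = π₂ (p.2⁻¹)
        rw [map_inv, map_inv, hp] }
  have hPm : ∀ x y, ((x, y) : Q₁ × Q₂) ∈ P ↔ π₁ x = π₂ y := fun x y => Iff.rfl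
  let N : Subgroup P :=
    { carrier := {p | ∃ s, (p : Q₁ × Q₂) = (E₁ s, E₂ s)}
      one_mem' := ⟨0, by rw [z₁, z₂]; rfl⟩
      mul_mem' := by
        rintro p q ⟨s, hs⟩ ⟨t, ht⟩
        refine ⟨s + t, ?_⟩
        rw [Subgroup.coe_mul, hs, ht, a₁, a₂]; rfl
      inv_mem' := by
        rintro p ⟨s, hs⟩
        refine ⟨-s, ?_⟩
        rw [Subgroup.coe_inv, hs, ← n₁, ← n₂]; rfl }
  have hNm : ∀ p, p ∈ N ↔ ∃ s, (p : Q₁ × Q₂) = (E₁ s, E₂ s) := fun p => Iff.rfl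
  let M : Subgroup P :=
    { carrier := {p | ∃ s t, (p : Q₁ × Q₂) = (E₁ s, E₂ t)}
      one_mem' := ⟨0, 0, by rw [z₁, z₂]; rfl⟩
      mul_mem' := by
        rintro p q ⟨s, s', hs⟩ ⟨t, t', ht⟩
        refine ⟨s + t, s' + t', ?_⟩
        rw [Subgroup.coe_mul, hs, ht, a₁, a₂]; rfl
      inv_mem' := by
        rintro p ⟨s, s', hs⟩
        refine ⟨-s, -s', ?_⟩
        rw [Subgroup.coe_inv, hs, ← n₁, ← n₂]; rfl }
  have hMm : ∀ p, p ∈ M ↔ ∃ s t, (p : Q₁ × Q₂) = (E₁ s, E₂ t) := fun p => Iff.rfl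
  haveI hN : N.Normal := by
    refine ⟨?_⟩
    rintro p ⟨s, hs⟩ g
    refine ⟨s, ?_⟩
    rw [Subgroup.coe_mul, Subgroup.coe_mul, hs, Subgroup.coe_inv]
    apply Prod.ext
    · show (g : Q₁ × Q₂).1 * E₁ s * (g : Q₁ × Q₂).1⁻¹ = E₁ s
      rw [c₁, mul_inv_cancel_right]
    · show (g : Q₁ × Q₂).2 * E₂ s * (g : Q₁ × Q₂).2⁻¹ = E₂ s
      rw [c₂, mul_inv_cancel_right]
  haveI : Fact (Nat.Prime 2) := ⟨Nat.prime_two⟩
  have hsq : ∀ z : P ⧸ N, z * z = 1 := by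
    intro z
    obtain ⟨p, rfl⟩ := QuotientGroup.mk_surjective z
    rw [← QuotientGroup.mk_mul, QuotientGroup.eq_one_iff, hNm]
    refine ⟨S (π₁ (p : Q₁ × Q₂).1), ?_⟩
    rw [Subgroup.coe_mul]
    apply Prod.ext
    · exact q₁ _
    · show (p : Q₁ × Q₂).2 * (p : Q₁ × Q₂).2 = _
      rw [q₂, show π₂ (p : Q₁ × Q₂).2 = π₁ (p : Q₁ × Q₂).1 from p.2.symm]
  have hel : Cfsg.IsElementaryAbelian 2 (⊤ : Subgroup (P ⧸ N)) := by
    refine ⟨⟨⟨fun a b => Subtype.ext ?_⟩⟩, fun a _ => by rw [pow_two]; exact hsq a⟩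
    show (a : P ⧸ N) * b = b * a
    have h1 := hsq ((a : P ⧸ N) * b)
    have ha := hsq a
    have hb := hsq b
    have e1 : (a : P ⧸ N)⁻¹ = a := inv_eq_of_mul_eq_one_left ha
    have e2 : (b : P ⧸ N)⁻¹ = b := inv_eq_of_mul_eq_one_left hb
    have e3 : ((a : P ⧸ N) * b)⁻¹ = a * b := inv_eq_of_mul_eq_one_left h1
    rw [← e3, mul_inv_rev, e1, e2]
  obtain ⟨Y, -, hXY, hXY'⟩ := H29.Elem.exists_compl hel (le_top : M.map (QuotientGroup.mk' N) ≤ ⊤)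
  let C : Subgroup P := Y.comap (QuotientGroup.mk' N)
  have hCm : ∀ p, p ∈ C ↔ (QuotientGroup.mk p : P ⧸ N) ∈ Y := fun p => Iff.rfl
  have hNC : N ≤ C := by
    intro p hp
    rw [hCm, (QuotientGroup.eq_one_iff p).mpr hp]
    exact Y.one_mem
  have hMC : ∀ p, p ∈ M → p ∈ C → p ∈ N := by
    intro p h1 h2
    have : (QuotientGroup.mk p : P ⧸ N) ∈ M.map (QuotientGroup.mk' N) ⊓ Y := ⟨⟨p, h1, rfl⟩, h2⟩
    rw [hXY, Subgroup.mem_bot] at this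
    exact (QuotientGroup.eq_one_iff p).mp this
  have hex : ∀ p : P, ∃ m ∈ M, m⁻¹ * p ∈ C := by
    intro p
    have h1 : (QuotientGroup.mk p : P ⧸ N) ∈ M.map (QuotientGroup.mk' N) ⊔ Y := by rw [hXY']; exact mem_top _
    haveI : Y.Normal := by
      refine ⟨fun y hy g => ?_⟩
      have h2 : g * y = y * g := by
        have := hel.1.is_comm.comm (⟨g, mem_top _⟩ : (⊤ : Subgroup (P ⧸ N))) ⟨y, mem_top _⟩
        exact congrArg Subtype.val this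
      rw [h2, mul_inv_cancel_right]
      exact hy
    rw [Subgroup.mem_sup_of_normal_right] at h1
    obtain ⟨_, ⟨m, hm, rfl⟩, y, hy, hxy⟩ := h1
    refine ⟨m, hm, ?_⟩
    rw [hCm, QuotientGroup.mk_mul, QuotientGroup.mk_inv, ← hxy]
    have : (QuotientGroup.mk m : P ⧸ N)⁻¹ * ((QuotientGroup.mk' N) m * y) = y := by
      show (QuotientGroup.mk m : P ⧸ N)⁻¹ * ((QuotientGroup.mk m : P ⧸ N) * y) = y
      group
    rw [this]
    exact hy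
  let f₁ : C →* Q₁ := (MonoidHom.fst Q₁ Q₂).comp (P.subtype.comp C.subtype)
  let f₂ : C →* Q₂ := (MonoidHom.snd Q₁ Q₂).comp (P.subtype.comp C.subtype)
  have hf₁ : ∀ c : C, f₁ c = ((c : P) : Q₁ × Q₂).1 := fun c => rfl
  have hf₂ : ∀ c : C, f₂ c = ((c : P) : Q₁ × Q₂).2 := fun c => rfl
  have b₁ : Function.Bijective f₁ := by
    constructor
    · rw [injective_iff_map_eq_one]
      intro c hc
      rw [hf₁] at hc
      have h1 : π₂ ((c : P) : Q₁ × Q₂).2 = 1 := by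
        have : π₁ ((c : P) : Q₁ × Q₂).1 = π₂ ((c : P) : Q₁ × Q₂).2 := (c : P).2
        rw [← this, hc, map_one]
      obtain ⟨t, ht⟩ := k₂ _ h1
      obtain ⟨s, hs⟩ := hMC c ⟨0, t, Prod.ext (by rw [hc, z₁]) ht.symm⟩ c.2
      have h2 : E₁ s = 1 := by
        have := congrArg Prod.fst hs
        rw [hc] at this
        exact this.symm
      have h3 := i₁ s h2
      apply Subtype.ext
      apply Subtype.ext
      rw [hs, h3, z₁, z₂]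
      rfl
    · intro x
      obtain ⟨y, hy⟩ := s₂ (π₁ x)
      obtain ⟨m, ⟨s, t, hm⟩, hmC⟩ := hex ⟨(x, y), hy.symm⟩
      have hnP : ((E₁ s, E₂ s) : Q₁ × Q₂) ∈ P := by rw [hPm, l₁, l₂]
      refine ⟨⟨⟨(E₁ s, E₂ s), hnP⟩ * (m⁻¹ * ⟨(x, y), hy.symm⟩), C.mul_mem (hNC ⟨s, rfl⟩) hmC⟩, ?_⟩
      rw [hf₁]
      show E₁ s * ((m : Q₁ × Q₂).1⁻¹ * x) = x
      rw [hm]
      show E₁ s * ((E₁ s)⁻¹ * x) = x
      group
  have b₂ : Function.Bijective f₂ := by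
    constructor
    · rw [injective_iff_map_eq_one]
      intro c hc
      rw [hf₂] at hc
      have h1 : π₁ ((c : P) : Q₁ × Q₂).1 = 1 := by
        have : π₁ ((c : P) : Q₁ × Q₂).1 = π₂ ((c : P) : Q₁ × Q₂).2 := (c : P).2
        rw [this, hc, map_one]
      obtain ⟨t, ht⟩ := k₁ _ h1
      obtain ⟨s, hs⟩ := hMC c ⟨t, 0, Prod.ext ht.symm (by rw [hc, z₂])⟩ c.2
      have h2 : E₂ s = 1 := by
        have := congrArg Prod.snd hs
        rw [hc] at this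
        exact this.symm
      have h3 := i₂ s h2
      apply Subtype.ext
      apply Subtype.ext
      rw [hs, h3, z₁, z₂]
      rfl
    · intro y
      obtain ⟨x, hx⟩ := s₁ (π₂ y)
      obtain ⟨m, ⟨s, t, hm⟩, hmC⟩ := hex ⟨(x, y), hx⟩
      have hnP : ((E₁ t, E₂ t) : Q₁ × Q₂) ∈ P := by rw [hPm, l₁, l₂]
      refine ⟨⟨⟨(E₁ t, E₂ t), hnP⟩ * (m⁻¹ * ⟨(x, y), hx⟩), C.mul_mem (hNC ⟨t, rfl⟩) hmC⟩, ?_⟩
      rw [hf₂]
      show E₂ t * ((m : Q₁ × Q₂).2⁻¹ * y) = y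
      rw [hm]
      show E₂ t * ((E₂ t)⁻¹ * y) = y
      group
  exact ⟨(MulEquiv.ofBijective f₁ b₁).symm.trans (MulEquiv.ofBijective f₂ b₂)⟩

end H98.TwG
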