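import Mathlib
import Cfsg.Agent.Lib.H24.U3Syl
import Cfsg.Agent.Lib.H54.L34b
import Cfsg.Agent.Lib.H6.SLCard

/-!
Sylow 2-subgroups of `PSL₃(2^n)` and quadratic extensions.
-/

set_option autoImplicit false
set_option linter.unusedSectionVars false

namespace H98.TwH

open Subgroup H54.L34

theorem card_UT {F : Type*} [Field F] [Fintype F] : Nat.card (UT F) = Fintype.card F ^ 3 := by
  have h1 : Function.Bijective (fun p : F × F × F => U p.1 p.2.1 p.2.2) := by
    constructor
    · rintro ⟨a, b, c⟩ ⟨a', b', c'⟩ h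
      obtain ⟨h1, h2, h3⟩ := U_inj h
      simp only at h1 h2 h3
      rw [h1, h2, h3]
    · intro g
      obtain ⟨a, b, c, rfl⟩ := exists_U g
      exact ⟨(a, b, c), rfl⟩
  rw [← Nat.card_congr (Equiv.ofBijective _ h1), Nat.card_prod, Nat.card_prod, Nat.card_eq_fintype_card]
  ring

theorem psl_syl {F : Type*} [Field F] [Fintype F] {n : ℕ} (hn : 1 ≤ n) (hF : Fintype.card F = 2 ^ n)
    (S : Sylow 2 (Matrix.ProjectiveSpecialLinearGroup (Fin 3) F)) : Nonempty (S ≃* UT F) := by
  haveI : Fact (Nat.Prime 2) := ⟨Nat.prime_two⟩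
  have hfin : Finite (Matrix.ProjectiveSpecialLinearGroup (Fin 3) F) := inferInstance
  have hinj : Function.Injective (toPSL : UT F →* _) := toPSL_inj
  set ψ : UT F →* Matrix.ProjectiveSpecialLinearGroup (Fin 3) F := toPSL with hψ
  have hcard : Nat.card ψ.range = Fintype.card F ^ 3 := by
    rw [← card_UT]
    exact (Nat.card_congr (MonoidHom.ofInjective hinj).toEquiv).symm
  have hpg : IsPGroup 2 ψ.range := IsPGroup.of_card (n := n * 3) (by rw [hcard, hF, pow_mul])
  have hidx : ¬ 2 ∣ ψ.range.index := by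
    intro hd
    have h0 := H6.SLCard.card_psl (F := F) (n := 3) (by norm_num)
    have h1 := ψ.range.card_mul_index
    rw [hcard] at h1
    rw [← h1] at h0
    obtain ⟨r, hr⟩ := hd
    rw [hr] at h0
    obtain ⟨q', hq'⟩ : ∃ q', Fintype.card F = 2 * q' := ⟨2 ^ (n - 1), by rw [hF, ← pow_succ']; congr 1; omega⟩
    have hq1 : 1 < Fintype.card F := Fintype.one_lt_card
    set q := Fintype.card F with hq
    have h2 : ∏ i : Fin 3, (q ^ 3 - q ^ (i : ℕ)) = q ^ 3 * ((q ^ 3 - 1) * (q ^ 2 - 1) * (q - 1)) := by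
      rw [Fin.prod_univ_three]
      have e0 : q ^ 3 - q ^ ((0 : Fin 3) : ℕ) = q ^ 3 - 1 := by simp
      have e1 : q ^ 3 - q ^ ((1 : Fin 3) : ℕ) = q * (q ^ 2 - 1) := by
        have e : q * q ^ 2 = q ^ 3 := by ring
        rw [Nat.mul_sub, mul_one, e]; simp
      have e2 : q ^ 3 - q ^ ((2 : Fin 3) : ℕ) = q ^ 2 * (q - 1) := by
        have e : q ^ 2 * q = q ^ 3 := by ring
        rw [Nat.mul_sub, mul_one, e]; simp
      rw [e0, e1, e2]
      ring
    rw [h2] at h0
    have h3 : Nat.gcd 3 (q - 1) * ((q - 1) * (2 * r)) = (q ^ 3 - 1) * (q ^ 2 - 1) * (q - 1) := by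
      have hpos : 0 < q ^ 3 := by positivity
      apply Nat.eq_of_mul_eq_mul_left hpos
      rw [← h0]
      ring
    have h4 : 2 ∣ (q ^ 3 - 1) * (q ^ 2 - 1) * (q - 1) := by
      rw [← h3]
      exact ⟨Nat.gcd 3 (q - 1) * ((q - 1) * r), by ring⟩
    have hq'0 : 0 < q' := by omega
    have e1 : q ^ 2 - 1 = 2 * (2 * q' ^ 2 - 1) + 1 := by
      have : 0 < q' ^ 2 := by positivity
      rw [hq', mul_pow]; omega
    have e2 : q ^ 3 - 1 = 2 * (4 * q' ^ 3 - 1) + 1 := by
      have : 0 < q' ^ 3 := by positivity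
      rw [hq', mul_pow]; omega
    rcases (Nat.Prime.dvd_mul Nat.prime_two).mp h4 with h | h
    · rcases (Nat.Prime.dvd_mul Nat.prime_two).mp h with h | h
      · rw [e2] at h; omega
      · rw [e1] at h; omega
    · omega
  have e1 : S ≃* (hpg.toSylow hidx) := S.equiv _
  exact ⟨e1.trans (MonoidHom.ofInjective hinj).symm⟩

open Polynomial in
theorem exists_quad {F : Type} [Field F] [Fintype F] (p t : F) (h : ∀ z : F, z ^ 2 + p * z + t ≠ 0) :
    ∃ (K : Type) (_ : Field K) (_ : Fintype K) (j : F →+* K) (ω : K), Fintype.card K = Fintype.card F ^ 2 ∧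
      ω ^ 2 + j p * ω + j t = 0 ∧ Function.Bijective (fun x : F × F => j x.1 + j x.2 * ω) := by
  classical
  set f : F[X] := X ^ 2 + C p * X + C t with hf
  have hdeg : f.natDegree = 2 := by rw [hf]; compute_degree!
  have hmon : f.Monic := by rw [hf]; monicity!
  have hirr : Irreducible f := by
    rw [Polynomial.Monic.irreducible_iff_roots_eq_zero_of_degree_le_three hmon (by omega) (by omega)]
    rw [Multiset.eq_zero_iff_forall_notMem]
    intro z hz
    rw [mem_roots hmon.ne_zero, IsRoot.def] at hz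
    apply h z
    rw [← hz, hf]
    simp
  haveI : Fact (Irreducible f) := ⟨hirr⟩
  have pb := AdjoinRoot.powerBasis hmon.ne_zero
  have hfr : Module.finrank F (AdjoinRoot f) = 2 := by
    rw [(AdjoinRoot.powerBasis hmon.ne_zero).finrank, AdjoinRoot.powerBasis_dim, hdeg]
  haveI : Module.Finite F (AdjoinRoot f) := Module.finite_of_finrank_pos (by omega)
  haveI : Finite (AdjoinRoot f) := Module.finite_of_finite F
  letI : Fintype (AdjoinRoot f) := Fintype.ofFinite _
  have hcard : Fintype.card (AdjoinRoot f) = Fintype.card F ^ 2 := by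
    rw [Module.card_eq_pow_finrank (K := F) (V := AdjoinRoot f), hfr]
  have hroot : (AdjoinRoot.root f) ^ 2 + (AdjoinRoot.of f) p * AdjoinRoot.root f + (AdjoinRoot.of f) t = 0 := by
    have := AdjoinRoot.eval₂_root f
    rw [hf] at this
    simp only [eval₂_add, eval₂_mul, eval₂_pow, eval₂_X, eval₂_C] at this
    exact this
  refine ⟨AdjoinRoot f, inferInstance, inferInstance, AdjoinRoot.of f, AdjoinRoot.root f, hcard, hroot, ?_⟩
  rw [Nat.bijective_iff_injective_and_card]
  constructor
  · rintro ⟨l, m⟩ ⟨l', m'⟩ hlm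
    simp only at hlm
    have h1 : (AdjoinRoot.of f) (l - l') + (AdjoinRoot.of f) (m - m') * AdjoinRoot.root f = 0 := by
      rw [map_sub, map_sub]
      linear_combination hlm
    have h2 : m - m' = 0 := by
      by_contra h0
      have h3 : AdjoinRoot.root f = (AdjoinRoot.of f) (-(l - l') / (m - m')) := by
        have h4 : (AdjoinRoot.of f) (m - m') ≠ 0 := by
          intro h5
          exact h0 ((AdjoinRoot.of f).injective (h5.trans (map_zero _).symm))
        rw [map_div₀, map_neg, eq_div_iff h4]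
        linear_combination h1
      apply h (-(l - l') / (m - m'))
      apply (AdjoinRoot.of f).injective
      rw [map_zero, map_add, map_add, map_mul, map_pow, ← h3]
      exact hroot
    have h3 : l - l' = 0 := by
      rw [h2, map_zero, zero_mul, add_zero] at h1
      exact (AdjoinRoot.of f).injective (h1.trans (map_zero _).symm)
    rw [sub_eq_zero] at h2 h3
    rw [h2, h3]
  · rw [Nat.card_eq_fintype_card, Nat.card_eq_fintype_card, Fintype.card_prod, hcard, sq]

end H98.TwH
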