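import Cfsg.Agent.Lib.H79.BlkExt
import Cfsg.Agent.Lib.H78.Galois
import Cfsg.Agent.Lib.H56.StrC4
import Cfsg.Agent.Lib.H1.Frat

/-! Normal 2-complements from the principal 2-block characters fixed by the cubing automorphism. -/

set_option autoImplicit false
set_option linter.unusedSectionVars false
set_option linter.style.haveILetI false

namespace H98.TwoCompGal

open Cfsg H20.Loc H20.GA H20.Blk H20.Orth H20.Defect H20.NPC H18.CharBasic H18.CharOrtho H18.CharInd
open scoped ComplexConjugate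

universe u

variable {G : Type u} [Group G] [Finite G]

/-- the exponent is prime to the order of the group -/
theorem coprime_k {k : ℕ} (hk₁ : ∀ g : G, (∃ j : ℕ, orderOf g = 2 ^ j) → g ^ k = g ^ 3)
    (hk₂ : ∀ g : G, Odd (orderOf g) → g ^ k = g) : Nat.Coprime k (Nat.card G) := by
  rw [Nat.coprime_iff_gcd_eq_one]
  by_contra h
  obtain ⟨q, hq, hqd⟩ := Nat.exists_prime_and_dvd h
  haveI := Fact.mk hq
  have h1 : q ∣ k := hqd.trans (Nat.gcd_dvd_left _ _)
  have h2 : q ∣ Nat.card G := hqd.trans (Nat.gcd_dvd_right _ _)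
  obtain ⟨g, hg⟩ := exists_prime_orderOf_dvd_card' q h2
  have h3 : g ^ k = 1 := by
    rw [← orderOf_dvd_iff_pow_eq_one, hg]; exact h1
  have hg1 : g ≠ 1 := by
    rintro rfl
    rw [orderOf_one] at hg
    exact hq.one_lt.ne hg
  rcases hq.eq_two_or_odd' with h4 | h4
  · subst h4
    have h5 := hk₁ g ⟨1, by rw [hg]; rfl⟩
    rw [h3] at h5
    have h6 : g ^ 2 = 1 := by rw [← hg]; exact pow_orderOf_eq_one g
    have h7 : g ^ 3 = g := by rw [pow_succ, h6, one_mul]
    rw [h7] at h5
    exact hg1 h5.symm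
  · have h5 := hk₂ g (by rwa [hg])
    rw [h3] at h5
    exact hg1 h5.symm

/-- iterating the power map a suitable power of 2 times gives the identity -/
theorem pow_iter {k : ℕ} (hk₁ : ∀ g : G, (∃ j : ℕ, orderOf g = 2 ^ j) → g ^ k = g ^ 3)
    (hk₂ : ∀ g : G, Odd (orderOf g) → g ^ k = g) : ∃ n : ℕ, ∀ g : G, g ^ (k ^ (2 ^ n)) = g := by
  refine ⟨Nat.card G, fun g => ?_⟩
  obtain ⟨a, m, hm, hgm⟩ := Nat.exists_eq_two_pow_mul_odd (n := orderOf g) (orderOf_pos g).ne'
  have hmpos : 0 < m := hm.pos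
  have h1 : orderOf (g ^ m) = 2 ^ a := by
    rw [orderOf_pow' _ hmpos.ne', hgm, Nat.gcd_eq_right (Dvd.intro_left _ rfl)]
    exact Nat.mul_div_cancel _ hmpos
  have h2 : orderOf (g ^ (2 ^ a)) = m := by
    rw [orderOf_pow' _ (by positivity), hgm, Nat.gcd_eq_right (Dvd.intro _ rfl)]
    exact Nat.mul_div_cancel_left _ (by positivity)
  have h3 : k ≡ 3 [MOD 2 ^ a] := by
    have h := hk₁ (g ^ m) ⟨a, h1⟩
    rw [pow_eq_pow_iff_modEq, h1] at h
    exact h
  have h4 : k ≡ 1 [MOD m] := by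
    have h := hk₂ (g ^ (2 ^ a)) (by rwa [h2])
    have h' : (g ^ (2 ^ a)) ^ k = (g ^ (2 ^ a)) ^ 1 := by rw [h, pow_one]
    rw [pow_eq_pow_iff_modEq, h2] at h'
    exact h'
  have h5 : k ^ (2 ^ Nat.card G) ≡ 1 [MOD 2 ^ a] := by
    have h6 : 3 ^ (Nat.totient (2 ^ a)) ≡ 1 [MOD 2 ^ a] :=
      Nat.ModEq.pow_totient (Nat.Coprime.pow_right a (by norm_num))
    have h7 : Nat.totient (2 ^ a) ∣ 2 ^ Nat.card G := by
      rcases Nat.eq_zero_or_pos a with h8 | h8
      · subst h8; simp
      · rw [Nat.totient_prime_pow Nat.prime_two h8]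
        simp only [Nat.add_one_sub_one, mul_one]
        apply pow_dvd_pow
        have h9 : 2 ^ a ≤ Nat.card G := by
          rw [← h1]
          exact Nat.le_of_dvd Nat.card_pos (orderOf_dvd_natCard _)
        have h10 : a < 2 ^ a := Nat.lt_two_pow_self
        omega
    obtain ⟨c, hc⟩ := h7
    calc k ^ (2 ^ Nat.card G) ≡ 3 ^ (2 ^ Nat.card G) [MOD 2 ^ a] := h3.pow _
      _ = (3 ^ (Nat.totient (2 ^ a))) ^ c := by rw [hc, pow_mul]
      _ ≡ 1 ^ c [MOD 2 ^ a] := h6.pow c
      _ = 1 := one_pow c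
  have h6 : k ^ (2 ^ Nat.card G) ≡ 1 [MOD m] := by
    have h := h4.pow (2 ^ Nat.card G)
    rwa [one_pow] at h
  have h7 : k ^ (2 ^ Nat.card G) ≡ 1 [MOD orderOf g] := by
    rw [hgm]
    refine (Nat.modEq_and_modEq_iff_modEq_mul ?_).1 ⟨h5, h6⟩
    exact Nat.Coprime.pow_left a (Nat.coprime_two_left.2 hm)
  have h8 : g ^ (k ^ (2 ^ Nat.card G)) = g ^ 1 := pow_eq_pow_iff_modEq.2 h7
  rwa [pow_one] at h8

section block

variable {p : ℕ} {M : Ideal AlgInt}

/-- the multiplicity of a linear character of a Sylow subgroup, weighted by degrees and summed over the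
principal block, is prime to `p` -/
theorem sum_not_dvd [hp : Fact p.Prime] (hM : IsPModular p M) (P : Sylow p G)
    [Fintype (P : Subgroup G)] {η : ↥(P : Subgroup G) → ℂ} (hη1 : η 1 = 1)
    [Fintype (IrrCharacter G)] [DecidablePred (· ∈ principalBlock M G)] (m : IrrCharacter G → ℕ)
    (hm : ∀ χ : IrrCharacter G, classInner η (fun h : (P : Subgroup G) => (χ : G → ℂ) h) = m χ) :
    ¬ p ∣ ∑ χ : IrrCharacter G, if χ ∈ principalBlock M G then
      m χ * charDegree (χ : G → ℂ) else 0 := by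
  classical
  haveI := pm_isPrime hM
  letI := Fintype.ofFinite G
  set B := principalBlock M G with hB
  have hPB : IsPBlock M B := H78.PrincReal.isPBlock_principal
  intro hdvd
  set S : ℂ := ∑ χ : IrrCharacter G, if χ ∈ B then
    classInner η (fun h : (P : Subgroup G) => (χ : G → ℂ) h) * (χ : G → ℂ) 1 else 0 with hS
  have h1 : MemLocalIdeal M S := by
    have h2 : S = ((∑ χ : IrrCharacter G, if χ ∈ B then m χ * charDegree (χ : G → ℂ) else 0 : ℕ) : ℂ) := by
      rw [hS]
      push_cast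
      refine Finset.sum_congr rfl fun χ _ => ?_
      split_ifs
      · rw [hm, ← charDegree_irr χ]
      · rfl
    rw [h2, locI_natCast_iff hM]
    convert hdvd
  have h2 : ∑ h : (P : Subgroup G), η h * blockCoeff B h =
      (Nat.card G : ℂ)⁻¹ * ((Nat.card (P : Subgroup G) : ℂ) * S) := by
    have h3 : ∀ h : (P : Subgroup G), η h * blockCoeff B h = (Nat.card G : ℂ)⁻¹ * ∑ χ : IrrCharacter G,
        if χ ∈ B then (χ : G → ℂ) 1 * (η h * conj ((χ : G → ℂ) h)) else 0 := by
      intro h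
      rw [blockCoeff_eq_sum, mul_left_comm, Finset.mul_sum]
      congr 1
      refine Finset.sum_congr rfl fun χ _ => ?_
      split_ifs
      · ring
      · rw [mul_zero]
    rw [Finset.sum_congr rfl (fun h _ => h3 h), ← Finset.mul_sum, Finset.sum_comm]
    congr 1
    rw [hS, Finset.mul_sum]
    refine Finset.sum_congr rfl fun χ _ => ?_
    by_cases hχ : χ ∈ B
    · simp only [if_pos hχ]
      rw [← Finset.mul_sum, classInner]
      have hc : (Nat.card (P : Subgroup G) : ℂ) ≠ 0 := card_ne_zero'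
      field_simp
    · simp only [if_neg hχ]
      rw [Finset.sum_const_zero, mul_zero]
  have h3 : ∑ h : (P : Subgroup G), η h * blockCoeff B h = blockCoeff B (1 : G) := by
    rw [Finset.sum_eq_single 1]
    · rw [hη1, one_mul]; rfl
    · intro h _ hh
      have h5 : p ∣ orderOf (h : G) := by
        obtain ⟨j, hj⟩ := (IsPGroup.iff_orderOf.1 P.2) h
        rw [Subgroup.orderOf_coe, hj]
        apply dvd_pow_self
        rintro rfl
        rw [pow_zero, orderOf_eq_one_iff] at hj
        exact hh hj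
      rw [blockCoeff_eq_zero hM (isUnion_of_isPBlock hPB) h5, mul_zero]
    · intro h; exact absurd (Finset.mem_univ _) h
  have h6 : ¬ MemLocalIdeal M (blockCoeff B (1 : G)) := by
    letI : Fintype (⊥ : Subgroup G) := Fintype.ofFinite _
    have h7 := H79.BlkExt.sum_blockCoeff_unit hM P (⊥ : Subgroup G) (by
      rw [Subgroup.normalizer_eq_top]; exact le_top)
    rwa [Fintype.sum_subsingleton _ (1 : (⊥ : Subgroup G))] at h7
  have hcG : (Nat.card G : ℂ) ≠ 0 := card_ne_zero'
  have hcH : (Nat.card (P : Subgroup G) : ℂ) ≠ 0 := card_ne_zero'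
  have h7 : S = ((P : Subgroup G).index : ℂ) * blockCoeff B (1 : G) := by
    rw [← h3, h2]
    have h8 : (Nat.card G : ℂ) = Nat.card (P : Subgroup G) * (P : Subgroup G).index := by
      rw [← (P : Subgroup G).card_mul_index]; push_cast; rfl
    rw [h8] at hcG ⊢
    have hI : ((P : Subgroup G).index : ℂ) ≠ 0 := right_ne_zero_of_mul hcG
    field_simp
  rw [h7] at h1
  rcases locI_or_locI (locR_natCast _) (blockCoeff_memR hPB _) h1 with h9 | h9
  · exact P.not_dvd_index ((locI_natCast_iff hM).1 h9)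
  · exact h6 h9

end block

section main

variable {M : Ideal AlgInt} {k : ℕ}

/-- a homomorphism of the Sylow subgroup with values `±1` extends to the group -/
theorem exists_ext (hM : IsPModular 2 M)
    (hk₁ : ∀ g : G, (∃ j : ℕ, orderOf g = 2 ^ j) → g ^ k = g ^ 3)
    (hk₂ : ∀ g : G, Odd (orderOf g) → g ^ k = g)
    (h : ∀ χ ∈ principalBlock M G, Odd (charDegree (χ : G → ℂ)) →
      (∀ g : G, (χ : G → ℂ) (g ^ k) = (χ : G → ℂ) g) → charDegree (χ : G → ℂ) = 1)
    (P : Sylow 2 G) (f : ↥(P : Subgroup G) →* ℂˣ) (hf : ∀ x, f x ^ 2 = 1) :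
    ∃ F : G →* ℂˣ, ∀ x : ↥(P : Subgroup G), F x = f x := by
  classical
  haveI : Fact (Nat.Prime 2) := ⟨Nat.prime_two⟩
  letI : Fintype ↥(P : Subgroup G) := Fintype.ofFinite _
  letI : Fintype (IrrCharacter G) := Fintype.ofFinite _
  have hk : Nat.Coprime k (Nat.card G) := coprime_k hk₁ hk₂
  have hkP : Nat.Coprime (Nat.card ↥(P : Subgroup G)) k :=
    (hk.coprime_dvd_right (Subgroup.card_subgroup_dvd_card _)).symm
  have hηirr : IsIrrCharacter ↥(P : Subgroup G) (fun x => (f x : ℂ)) := isIrrCharacter_of_hom f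
  have hm' : ∀ χ : IrrCharacter G, ∃ m : ℕ, classInner (fun x : ↥(P : Subgroup G) => (f x : ℂ))
      (fun x : ↥(P : Subgroup G) => (χ : G → ℂ) x) = m := fun χ =>
    inner_char_natCast (isCharacter_of_isIrr hηirr)
      (isCharacter_restrict (P : Subgroup G) (isCharacter_of_isIrr χ.2))
  choose m hm using hm'
  have hpowP : ∀ x : ↥(P : Subgroup G), x ^ k = x ^ 3 := by
    intro x
    apply Subtype.ext
    rw [Subgroup.coe_pow, Subgroup.coe_pow]
    apply hk₁
    obtain ⟨j, hj⟩ := (IsPGroup.iff_orderOf.1 P.2) x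
    exact ⟨j, by rw [Subgroup.orderOf_coe, hj]⟩
  have hfk : ∀ x : ↥(P : Subgroup G), f (x ^ k) = f x := by
    intro x
    rw [hpowP, map_pow, pow_succ, hf, one_mul]
  have hminv : ∀ χ : IrrCharacter G, m (H78.Galois.powIrr hk χ) = m χ := by
    intro χ
    have h1 : (m (H78.Galois.powIrr hk χ) : ℂ) = m χ := by
      rw [← hm, ← hm]
      simp only [classInner]
      congr 1
      refine Fintype.sum_equiv (powCoprime hkP) _ _ fun x => ?_
      rw [H78.Galois.powIrr_apply, powCoprime_apply, hfk, Subgroup.coe_pow]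
    exact_mod_cast h1
  have hodd := sum_not_dvd hM P (η := fun x => (f x : ℂ)) (by simp) m hm
  rw [← even_iff_two_dvd, Nat.not_even_iff_odd, ← Finset.sum_filter,
    Finset.odd_sum_iff_odd_card_odd] at hodd
  have hXcard' : Odd (Fintype.card
      {χ : IrrCharacter G // χ ∈ principalBlock M G ∧ Odd (m χ * charDegree (χ : G → ℂ))}) := by
    rw [Fintype.card_subtype]
    rwa [Finset.filter_filter] at hodd
  set X := {χ : IrrCharacter G // χ ∈ principalBlock M G ∧ Odd (m χ * charDegree (χ : G → ℂ))} with hX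
  have hXcard : Odd (Fintype.card X) := hXcard'
  let T : Function.End X := fun χ => ⟨H78.Galois.powIrr hk χ.1,
    H78.Galois.powIrr_mem_principalBlock hk χ.2.1, by
      rw [hminv, H78.Galois.charDegree_powIrr]; exact χ.2.2⟩
  have hTit : ∀ (n : ℕ) (χ : X), ((T^[n] χ : X) : IrrCharacter G) = (H78.Galois.powIrr hk)^[n] χ.1 := by
    intro n
    induction n with
    | zero => intro χ; rfl
    | succ n ih =>
      intro χ
      rw [Function.iterate_succ, Function.iterate_succ, Function.comp, Function.comp, ih]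
  obtain ⟨n, hn⟩ := pow_iter hk₁ hk₂
  have hT : T ^ 2 ^ n = 1 := by
    funext χ
    have h0 : ∀ (j : ℕ) (χ : X), (T ^ j) χ = T^[j] χ := by
      intro j
      induction j with
      | zero => intro χ; rfl
      | succ j ih =>
        intro χ
        rw [pow_succ, Function.iterate_succ]
        show (T ^ j) (T χ) = _
        rw [ih]
        rfl
    have h1 : (T ^ 2 ^ n) χ = T^[2 ^ n] χ := h0 _ _
    rw [h1]
    apply Subtype.ext
    rw [hTit]
    apply Subtype.ext
    funext g
    rw [H78.Galois.powIrr_iterate, hn]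
    rfl
  have hfix := Equiv.Perm.card_fixedPoints_modEq (p := 2) hT
  have hne : Nonempty (Function.fixedPoints T) := by
    by_contra hcon
    rw [not_nonempty_iff] at hcon
    rw [Fintype.card_eq_zero (α := Function.fixedPoints T)] at hfix
    have h2 : 2 ∣ Fintype.card X := (Nat.modEq_zero_iff_dvd).1 hfix
    rw [← even_iff_two_dvd] at h2
    exact (Nat.not_even_iff_odd.2 hXcard) h2
  obtain ⟨⟨χ, hχ⟩⟩ := hne
  have hχfix : H78.Galois.powIrr hk χ.1 = χ.1 := congrArg Subtype.val hχ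
  have hoddm : Odd (m χ.1) := (Nat.odd_mul.1 χ.2.2).1
  have hoddd : Odd (charDegree (χ.1 : G → ℂ)) := (Nat.odd_mul.1 χ.2.2).2
  have hdeg := h χ.1 χ.2.1 hoddd (fun g => by
    have h1 := congrFun (congrArg Subtype.val hχfix) g
    exact h1)
  have hχ1 : (χ.1 : G → ℂ) 1 = 1 := by
    rw [← charDegree_irr χ.1, hdeg, Nat.cast_one]
  obtain ⟨F, hF⟩ := H18.CharQuot.exists_hom_of_degree_one (isCharacter_of_isIrr χ.1.2) hχ1
  refine ⟨F, ?_⟩
  have h1 : classInner (fun x : ↥(P : Subgroup G) => (f x : ℂ))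
      (fun x : ↥(P : Subgroup G) => ((F.comp (P : Subgroup G).subtype) x : ℂ)) ≠ 0 := by
    have h2 := hm χ.1
    rw [hF] at h2
    intro h3
    have h4 : (m χ.1 : ℂ) = 0 := h2.symm.trans h3
    have h5 : m χ.1 = 0 := by exact_mod_cast h4
    rw [h5] at hoddm
    exact absurd hoddm (by decide)
  have h2 := isIrrCharacter_of_hom (F.comp (P : Subgroup G).subtype)
  have h3 : (fun x : ↥(P : Subgroup G) => (f x : ℂ)) =
      fun x : ↥(P : Subgroup G) => ((F.comp (P : Subgroup G).subtype) x : ℂ) := by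
    by_contra hcon
    exact h1 (inner_irr_ne hηirr h2 hcon)
  have h4 := H18.CharQuot.coe_hom_injective h3
  intro x
  rw [h4]
  rfl

/-- the sign homomorphism of a subgroup of index two -/
noncomputable def signHom {P : Type u} [Group P] (K : Subgroup P) (hK : K.index = 2) : P →* ℂˣ := by
  classical
  exact
  { toFun := fun x => if x ∈ K then 1 else -1
    map_one' := if_pos K.one_mem
    map_mul' := fun x y => by
      have h := Subgroup.mul_mem_iff_of_index_two hK (a := x) (b := y)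
      by_cases hx : x ∈ K <;> by_cases hy : y ∈ K <;> simp [h, hx, hy] }

theorem signHom_eq_one {P : Type u} [Group P] (K : Subgroup P) (hK : K.index = 2) {x : P}
    (h : signHom K hK x = 1) : x ∈ K := by
  classical
  by_contra hx
  have h1 : signHom K hK x = -1 := if_neg hx
  rw [h1] at h
  have h2 : ((-1 : ℂˣ) : ℂ) = 1 := by rw [h]; rfl
  norm_num at h2

theorem signHom_sq {P : Type u} [Group P] (K : Subgroup P) (hK : K.index = 2) (x : P) :
    signHom K hK x ^ 2 = 1 := by
  classical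
  by_cases hx : x ∈ K
  · have h1 : signHom K hK x = 1 := if_pos hx
    rw [h1, one_pow]
  · have h1 : signHom K hK x = -1 := if_neg hx
    rw [h1]; norm_num

theorem npc_of_galois (hM : IsPModular 2 M)
    (hk₁ : ∀ g : G, (∃ j : ℕ, orderOf g = 2 ^ j) → g ^ k = g ^ 3)
    (hk₂ : ∀ g : G, Odd (orderOf g) → g ^ k = g)
    (h : ∀ χ ∈ principalBlock M G, Odd (charDegree (χ : G → ℂ)) →
      (∀ g : G, (χ : G → ℂ) (g ^ k) = (χ : G → ℂ) g) → charDegree (χ : G → ℂ) = 1) :
    HasNormalPComplement 2 G := by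
  haveI : Fact (Nat.Prime 2) := ⟨Nat.prime_two⟩
  obtain ⟨P⟩ : Nonempty (Sylow 2 G) := inferInstance
  have h1 : _root_.commutator G ⊓ (P : Subgroup G) ≤ H56.StrC.frat (P : Subgroup G) := by
    rintro x ⟨hx1, hx2⟩
    refine ⟨⟨x, hx2⟩, ?_, rfl⟩
    show (⟨x, hx2⟩ : ↥(P : Subgroup G)) ∈ frattini ↥(P : Subgroup G)
    rw [frattini, Order.radical]
    simp only [Subgroup.mem_iInf]
    intro K hK
    have hidx := H1.Frat.index_eq_of_isCoatom P.2 hK
    obtain ⟨F, hF⟩ := exists_ext hM hk₁ hk₂ h P (signHom K hidx) (signHom_sq K hidx)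
    apply signHom_eq_one K hidx
    rw [← hF]
    exact Abelianization.commutator_subset_ker F hx1
  obtain ⟨N, hNn, hN, hNP⟩ := H56.StrC.exists_normal_of_focal P h1
  exact H56.StrC.npc_of_normal hN (Cfsg.Agent.S0081.result P N hNP)

theorem degree_one_of_npc (hM : IsPModular 2 M) (h : HasNormalPComplement 2 G)
    {χ : IrrCharacter G} (hχ : χ ∈ principalBlock M G) (hodd : Odd (charDegree (χ : G → ℂ))) :
    charDegree (χ : G → ℂ) = 1 := by
  haveI : Fact (Nat.Prime 2) := ⟨Nat.prime_two⟩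
  obtain ⟨n, hn⟩ := H2.Residual.exists_index_residual (G := G) (p := 2)
  have hcard := H2.NPC.iff_not_dvd_card_residual.1 h
  rw [principal_of_complement hM (pResidual 2 G) hcard ⟨n, hn⟩] at hχ
  have h1 := H18.CharQuot.isIrrCharacter_deflate (pResidual 2 G) χ.2 hχ
  have h2 := charDegree_dvd_card (⟨_, h1⟩ : IrrCharacter (G ⧸ pResidual 2 G))
  have h3 : charDegree ((⟨_, h1⟩ : IrrCharacter (G ⧸ pResidual 2 G)) : G ⧸ pResidual 2 G → ℂ) =
      charDegree (χ : G → ℂ) := by
    unfold charDegree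
    have h4 := H18.CharQuot.deflate_mk (pResidual 2 G) (isCharacter_of_isIrr χ.2) hχ 1
    rw [← h4]
    rfl
  rw [h3, ← Subgroup.index_eq_card, hn] at h2
  obtain ⟨j, _, hj⟩ := (Nat.dvd_prime_pow Nat.prime_two).1 h2
  rw [hj] at hodd ⊢
  rcases Nat.eq_zero_or_pos j with h5 | h5
  · rw [h5, pow_zero]
  · exfalso
    rw [← Nat.not_even_iff_odd] at hodd
    exact hodd ((Nat.even_pow.2 ⟨even_two, h5.ne'⟩))

end main

end H98.TwoCompGal
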